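import Cfsg.Agent.S0117
import Cfsg.Agent.Transfer.PNilpotentBasic
import Cfsg.Agent.PLocal.PSolvable
import Cfsg.Agent.Lib.PSolvable
import Cfsg.Agent.OddOrderLocal.NilpotentQuotient
import Cfsg.Agent.SolvableStructure.Schmidt
import Mathlib
import Cfsg.Agent.ClassicalGeometry.AutPSL.Main
import Cfsg.Agent.H579.SLStab
import Cfsg.Agent.ClassicalGeometry.PSL2Basic
import Cfsg.Prelude.Def_Spor_Mathieu
import Cfsg.Agent.Golay.Orbit
import Cfsg.Agent.Lib.FinFast
import Cfsg.Agent.H579.ElevenMat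
import Cfsg.Agent.Lib.FieldAutCard
import Cfsg.Agent.Transfer.NormalPComplement
import Cfsg.Agent.FastGrp
import Cfsg.Agent.Prune
set_option linter.all false

section
prune_inst 0x7fbefcf8abb881dedfff7e7ffed9dffc38905fffafdff9437fe869ff0fdf230009c5ab8d09e010fe1ed6401410b87843f97eceffe86bdc7ffffd5ff45ffbee0fa5e7bd0811968c340f3c0ff703f0778e7f3fffffffffffffffffffffffffffbefffdfffffffd

-- part: H579/SLMono
section
prune_inst 0x4100031042380100000180000400000301000040000408800000002000001a04200000801020000121220000000010040000000200000000000000000000004010000140010000008020086000000000000000000000000000000000000000000200000002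
set_option linter.all false
open scoped Cfsg.Agent.FastGrp

-- part: H579/MaxPNilRed
section
set_option autoImplicit false

namespace Cfsg.Agent.H579.MaxPNilRed

open Cfsg Subgroup Cfsg.Agent.Transfer.PNilpotentBasic

/-- The hypothesis. -/
def Hyp (p : ℕ) (Q : Type*) [Group Q] : Prop :=
  ∀ M : Subgroup Q, IsCoatom M → HasNormalPComplement p M ∨ M.index.Prime

/-- No nontrivial normal `p`-solvable subgroups. -/
def Rad (p : ℕ) (Q : Type*) [Group Q] : Prop :=
  ∀ N : Subgroup Q, N.Normal → IsPSolvable p N → N = ⊥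

theorem isPSolvable_of_hnc {K : Type*} [Group K] [Finite K] {p : ℕ} [hp : Fact p.Prime]
    (h : HasNormalPComplement p K) : IsPSolvable p K := by
  obtain ⟨N, hN, h1, k, h2⟩ :=
    Cfsg.Agent.OddOrderLocal.NilpotentQuotient.exists_of_hasNormalPComplement h
  refine Cfsg.Agent.Lib.PSolvable.IsPSolvable_of_quotient p N (Or.inr ?_) ?_
  · exact ((Nat.Prime.coprime_iff_not_dvd hp.out).2 h1).symm
  · refine Cfsg.Agent.PLocal.PSolvable.isPSolvable_of_isPGroup ?_
    exact IsPGroup.of_card (n := k) (by rw [← Subgroup.index_eq_card]; exact h2)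

/-- The hypothesis on maximal subgroups passes to quotients. -/
theorem hyp_quotient {G : Type*} [Group G] [Finite G] {p : ℕ} [hp : Fact p.Prime]
    (hmax : ∀ M : Subgroup G, IsCoatom M → (∃ K : Subgroup ↥M, K.Normal ∧ ¬ p ∣ Nat.card K ∧
      ∃ k : ℕ, K.index = p ^ k) ∨ (M.index).Prime) (S : Subgroup G) [S.Normal] :
    Hyp p (G ⧸ S) := by
  intro M hM
  set π := QuotientGroup.mk' S with hπ
  have hs : Function.Surjective π := QuotientGroup.mk'_surjective S
  have hc : IsCoatom (M.comap π) := by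
    refine ⟨fun h => hM.1 ?_, fun B hB => ?_⟩
    · rw [← Subgroup.map_comap_eq_self_of_surjective hs M, h,
        Subgroup.map_top_of_surjective π hs]
    · have h1 : π.ker ≤ B := (Subgroup.ker_le_comap π M).trans hB.le
      have h2 : (B.map π).comap π = B := Subgroup.comap_map_eq_self h1
      have h3 : M < B.map π := by
        rw [← h2] at hB
        exact (Subgroup.comap_lt_comap_of_surjective hs).1 hB
      rw [← h2, hM.2 _ h3, Subgroup.comap_top]
  rcases hmax _ hc with ⟨K, hK, h1, k, h2⟩ | h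
  · left
    have h3 : HasNormalPComplement p (M.comap π) :=
      Cfsg.Agent.OddOrderLocal.NilpotentQuotient.hasNormalPComplement_of_index K hK h1 h2
    have h4 := hnc_map π (M.comap π) h3
    rwa [Subgroup.map_comap_eq_self_of_surjective hs] at h4
  · right
    rwa [Subgroup.index_comap_of_surjective M hs] at h

/-- The radical condition for the quotient by the largest normal `p`-solvable subgroup. -/
theorem rad_quotient {G : Type*} [Group G] [Finite G] {p : ℕ} [hp : Fact p.Prime]
    (S : Subgroup G) [S.Normal] (hS : IsPSolvable p S)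
    (hSmax : ∀ N : Subgroup G, N.Normal → IsPSolvable p N → N ≤ S) : Rad p (G ⧸ S) := by
  intro N hN hNs
  set π := QuotientGroup.mk' S with hπ
  have hs : Function.Surjective π := QuotientGroup.mk'_surjective S
  have hk : π.ker = S := QuotientGroup.ker_mk' S
  have hSN : S ≤ N.comap π := hk.symm.le.trans (Subgroup.ker_le_comap π N)
  have h1 : IsPSolvable p (N.comap π) := by
    have hn : (S.subgroupOf (N.comap π)).Normal := inferInstance
    refine Cfsg.Agent.Lib.PSolvable.IsPSolvable_of_extension p (S.subgroupOf (N.comap π)) ?_ ?_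
    · exact (Cfsg.Agent.PLocal.PSolvable.isPSolvable_congr
        (Subgroup.subgroupOfEquivOfLe hSN)).2 hS
    · -- the quotient embeds into `N`
      let f : N.comap π →* N := π.subgroupComap N
      have hf : Function.Surjective f := by
        rintro ⟨n, hn⟩
        obtain ⟨g, hg⟩ := hs n
        exact ⟨⟨g, by rw [Subgroup.mem_comap, hg]; exact hn⟩, Subtype.ext hg⟩
      have hker : f.ker = S.subgroupOf (N.comap π) := by
        ext x
        rw [MonoidHom.mem_ker, Subgroup.mem_subgroupOf]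
        constructor
        · intro h
          have h0 : π x = 1 := congrArg Subtype.val h
          exact hk.le (MonoidHom.mem_ker.2 h0)
        · intro h
          apply Subtype.ext
          exact MonoidHom.mem_ker.1 (hk.symm.le h)
      have e1 := QuotientGroup.quotientKerEquivOfSurjective f hf
      have e2 := QuotientGroup.quotientMulEquivOfEq hker
      exact (Cfsg.Agent.PLocal.PSolvable.isPSolvable_congr (e2.symm.trans e1)).2 hNs
  have h2 : N.comap π ≤ S := hSmax _ (hN.comap π) h1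
  rw [← Subgroup.map_comap_eq_self_of_surjective hs N, Subgroup.map_eq_bot_iff, hk]
  exact h2

variable {Q : Type*} [Group Q] [Finite Q] {p : ℕ} [hp : Fact p.Prime]

/-- A nontrivial finite group has a minimal normal subgroup. -/
theorem exists_minimal_normal [Nontrivial Q] :
    ∃ N : Subgroup Q, N.Normal ∧ N ≠ ⊥ ∧ ∀ A : Subgroup Q, A.Normal → A ≤ N → A ≠ ⊥ → A = N := by
  obtain ⟨N, ⟨hN1, hN2⟩, hN3⟩ := Set.Finite.exists_minimal (s := {N : Subgroup Q | N.Normal ∧ N ≠ ⊥})
    (Set.toFinite _) ⟨⊤, inferInstance, top_ne_bot⟩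
  exact ⟨N, hN1, hN2, fun A hA hAN hA1 => le_antisymm hAN (hN3 ⟨hA, hA1⟩ hAN)⟩

omit [Finite Q] in
/-- `p` divides the order of a nontrivial normal subgroup. -/
theorem dvd_card (hrad : Rad p Q) {N : Subgroup Q} (hN : N.Normal) (hN1 : N ≠ ⊥) :
    p ∣ Nat.card N := by
  by_contra h
  apply hN1
  apply hrad N hN
  exact Cfsg.Agent.PLocal.PSolvable.isPSolvable_of_coprime
    ((Nat.Prime.coprime_iff_not_dvd hp.out).2 h).symm

theorem not_hnc (hrad : Rad p Q) {N : Subgroup Q} (hN : N.Normal) (hN1 : N ≠ ⊥) :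
    ¬ HasNormalPComplement p N := fun h => hN1 (hrad N hN (isPSolvable_of_hnc h))

/-- A proper subgroup is contained in a maximal one. -/
theorem exists_coatom {L : Subgroup Q} (hL : L ≠ ⊤) : ∃ M : Subgroup Q, IsCoatom M ∧ L ≤ M := by
  rcases eq_top_or_exists_le_coatom L with h | h
  · exact absurd h hL
  · exact h

/-- The index of a supplement. -/
theorem index_eq_relIndex {M N : Subgroup Q} [hN : N.Normal] (h : N ⊔ M = ⊤) :
    M.index = M.relIndex N := by
  have h1 : N.relIndex M = N.index := by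
    rw [← Subgroup.relIndex_top_right, ← h, Subgroup.relIndex_sup_left]
  have h2 : (M ⊓ N).relIndex N * N.index = (M ⊓ N).index :=
    Subgroup.relIndex_mul_index inf_le_right
  have h3 : (M ⊓ N).relIndex M * M.index = (M ⊓ N).index :=
    Subgroup.relIndex_mul_index inf_le_left
  rw [Subgroup.inf_relIndex_right] at h2
  rw [Subgroup.inf_relIndex_left, h1] at h3
  have h4 : N.index ≠ 0 := Subgroup.index_ne_zero_of_finite
  refine Nat.eq_of_mul_eq_mul_left (Nat.pos_of_ne_zero h4) ?_
  rw [h3, ← h2, mul_comm]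

omit [Finite Q] hp in
theorem normalizer_map_le {U : Subgroup Q} :
    normalizer (U : Set Q) ≤ normalizer (centerThompsonOf p U : Set Q) := by
  intro g hg
  rw [Subgroup.mem_normalizer_iff_map_conj_eq] at hg ⊢
  rw [Cfsg.Agent.S0117.map_centerThompsonOf p _ U (MulAut.conj g).injective.injOn]
  exact congrArg _ hg

/-- Step 2: a maximal subgroup of prime index `≠ p` supplementing `N`. -/
theorem exists_prime_index (hp2 : p ≠ 2) (hmax : Hyp p Q) (hrad : Rad p Q) {N : Subgroup Q}
    [hN : N.Normal] (hN1 : N ≠ ⊥) :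
    ∃ M : Subgroup Q, IsCoatom M ∧ ¬ N ≤ M ∧ M.index.Prime ∧ M.index ≠ p := by
  obtain ⟨P⟩ : Nonempty (Sylow p N) := inferInstance
  set P' : Subgroup Q := (P : Subgroup N).map N.subtype with hP'
  set Z' : Subgroup Q := centerThompsonOf p P' with hZ'
  set Z : Subgroup N := centerThompsonOf p (P : Subgroup N) with hZ
  have hmapZ : Z.map N.subtype = Z' :=
    Cfsg.Agent.S0117.map_centerThompsonOf p N.subtype P N.subtype_injective.injOn
  have hpN : p ∣ Nat.card N := dvd_card hrad hN hN1
  have hP1 : (P : Subgroup N) ≠ ⊥ := by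
    intro h
    exact P.ne_bot_of_dvd_card hpN h
  have hZ1 : Z ≠ ⊥ := Cfsg.Agent.S0117.centerThompsonOf_ne_bot P.isPGroup' hP1
  have hZ'1 : Z' ≠ ⊥ := by
    rw [← hmapZ]
    intro h
    exact hZ1 ((Subgroup.map_eq_bot_iff_of_injective Z N.subtype_injective).1 h)
  have hZ'p : IsPGroup p Z' := by
    rw [← hmapZ]
    exact (P.isPGroup'.to_le (Cfsg.Agent.S0117.centerThompsonOf_le p _)).map N.subtype
  have hfr : normalizer (P' : Set Q) ⊔ N = ⊤ := Sylow.normalizer_sup_eq_top P
  have hle : normalizer (P' : Set Q) ≤ normalizer (Z' : Set Q) := normalizer_map_le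
  have hsup : normalizer (Z' : Set Q) ⊔ N = ⊤ :=
    top_le_iff.1 (hfr.symm.le.trans (sup_le_sup_right hle N))
  have hL : normalizer (Z' : Set Q) ≠ ⊤ := by
    intro h
    have hZn : Z'.Normal := Subgroup.normalizer_eq_top_iff.1 h
    exact hZ'1 (hrad Z' hZn (Cfsg.Agent.PLocal.PSolvable.isPSolvable_of_isPGroup hZ'p))
  obtain ⟨M, hM, hLM⟩ := exists_coatom hL
  have hNM : ¬ N ≤ M := by
    intro h
    exact hM.1 (top_le_iff.1 (hsup.symm.le.trans (sup_le hLM h)))
  have hNM' : N ⊔ M = ⊤ := by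
    rw [sup_comm]
    exact hM.2 _ (left_lt_sup.2 hNM)
  have hnot : ¬ HasNormalPComplement p M := by
    intro h
    apply not_hnc hrad hN hN1
    rw [Cfsg.Agent.S0117.result hp2 P]
    refine hnc_of_map_le N.subtype N.subtype_injective _ M ?_ h
    refine le_trans ?_ hLM
    rintro _ ⟨g, hg, rfl⟩
    rw [SetLike.mem_coe, Subgroup.mem_normalizer_iff_map_conj_eq] at hg
    rw [Subgroup.mem_normalizer_iff_map_conj_eq]
    change Z.map _ = Z at hg
    rw [← hmapZ, Subgroup.map_map]
    conv_rhs => rw [← hg, Subgroup.map_map]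
    congr 1
  have hidx := (hmax M hM).resolve_left hnot
  refine ⟨M, hM, hNM, hidx, ?_⟩
  intro h
  have h1 : M.index = M.relIndex N := index_eq_relIndex hNM'
  have h2 : P' ≤ M ⊓ N := le_inf (Subgroup.le_normalizer.trans (hle.trans hLM))
    (Subgroup.map_subtype_le _)
  have h3 : (M ⊓ N).relIndex N ∣ P'.relIndex N := Subgroup.relIndex_dvd_of_le_left N h2
  rw [Subgroup.inf_relIndex_right, ← h1, h] at h3
  have h4 : P'.relIndex N = (P : Subgroup N).index := by
    rw [Subgroup.relIndex, Subgroup.subgroupOf, hP',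
      Subgroup.comap_map_eq_self_of_injective N.subtype_injective]
  rw [h4] at h3
  exact P.not_dvd_index h3

/-- If a group with trivial core intersection acts on the cosets of a subgroup of index `r`, its
order divides `r!`. -/
theorem card_dvd_factorial {N M : Subgroup Q} (h : N ⊓ M.normalCore = ⊥) :
    Nat.card N ∣ (M.index).factorial := by
  have h1 : Nat.card (Equiv.Perm (Q ⧸ M)) = (M.index).factorial := by
    rw [Nat.card_perm, Subgroup.index]
  rw [← h1]
  let f : N →* Equiv.Perm (Q ⧸ M) := (MulAction.toPermHom Q (Q ⧸ M)).comp N.subtype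
  have hf : Function.Injective f := by
    rw [injective_iff_map_eq_one]
    intro x hx
    have h2 : (x : Q) ∈ M.normalCore := by
      rw [Subgroup.normalCore_eq_ker]
      exact hx
    have h3 : (x : Q) ∈ N ⊓ M.normalCore := ⟨x.2, h2⟩
    rw [h, Subgroup.mem_bot] at h3
    exact Subtype.ext h3
  exact Subgroup.card_dvd_of_injective f hf

/-- The structure of the minimal normal subgroup. -/
structure Red (p : ℕ) (Q : Type*) [Group Q] (N : Subgroup Q) (r : ℕ) : Prop where
  normal : N.Normal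
  simple : IsSimpleGroup N
  cent : centralizer (N : Set Q) = ⊥
  notComm : ¬ ∀ a b : N, a * b = b * a
  dvd : p ∣ Nat.card N
  prime : r.Prime
  ne : r ≠ p
  rdvd : r ∣ Nat.card N
  max : ∀ M : Subgroup Q, IsCoatom M → ¬ N ≤ M → HasNormalPComplement p M ∨ M.index = r
  ex : ∃ M : Subgroup Q, IsCoatom M ∧ ¬ N ≤ M ∧ M.index = r

theorem prime_index_unique {N : Subgroup Q} [hN : N.Normal]
    (hmin : ∀ A : Subgroup Q, A.Normal → A ≤ N → A ≠ ⊥ → A = N) {M M' : Subgroup Q}
    (hM : IsCoatom M) (hNM : ¬ N ≤ M) (hi : M.index.Prime) (hM' : IsCoatom M') (hNM' : ¬ N ≤ M')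
    (hi' : M'.index.Prime) : M.index = M'.index := by
  have key : ∀ {M M' : Subgroup Q}, IsCoatom M → ¬ N ≤ M → M.index.Prime → IsCoatom M' →
      ¬ N ≤ M' → M'.index.Prime → M.index ≤ M'.index := by
    intro M M' hM hNM hi hM' hNM' hi'
    have h1 : N ⊔ M = ⊤ := by
      rw [sup_comm]
      exact hM.2 _ (left_lt_sup.2 hNM)
    have h2 : M.index = M.relIndex N := index_eq_relIndex h1
    have h3 : M.index ∣ Nat.card N := h2.dvd.trans (Subgroup.relIndex_dvd_card M N)
    have h4 : N ⊓ M'.normalCore = ⊥ := by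
      by_contra hne
      have h5 : N ⊓ M'.normalCore = N := hmin _ inferInstance inf_le_left hne
      exact hNM' ((inf_eq_left.1 h5).trans (Subgroup.normalCore_le M'))
    have h5 := h3.trans (card_dvd_factorial h4)
    exact (Nat.Prime.dvd_factorial hi).1 h5
  exact le_antisymm (key hM hNM hi hM' hNM' hi') (key hM' hNM' hi' hM hNM hi)

/-- The minimal normal subgroup is simple. -/
theorem isSimple {N : Subgroup Q} [hN : N.Normal] (hN1 : N ≠ ⊥)
    (hmin : ∀ A : Subgroup Q, A.Normal → A ≤ N → A ≠ ⊥ → A = N) {M : Subgroup Q}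
    (hM : IsCoatom M) (hNM : ¬ N ≤ M) (hi : M.index.Prime) : IsSimpleGroup N := by
  have h1 : N ⊔ M = ⊤ := by
    rw [sup_comm]
    exact hM.2 _ (left_lt_sup.2 hNM)
  have h2 : M.index = M.relIndex N := index_eq_relIndex h1
  have h4 : N ⊓ M.normalCore = ⊥ := by
    by_contra hne
    have h5 : N ⊓ M.normalCore = N := hmin _ inferInstance inf_le_left hne
    exact hNM ((inf_eq_left.1 h5).trans (Subgroup.normalCore_le M))
  have hfac := card_dvd_factorial h4
  set r := M.index with hr
  have hr2 : ¬ r ^ 2 ∣ Nat.card N := by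
    intro h
    have h5 := h.trans hfac
    have h6 : r.factorial = r * (r - 1).factorial := by
      rw [Nat.mul_factorial_pred hi.ne_zero]
    rw [h6, pow_two] at h5
    have h7 : r ∣ (r - 1).factorial := Nat.dvd_of_mul_dvd_mul_left hi.pos h5
    have h8 := (Nat.Prime.dvd_factorial hi).1 h7
    have := hi.pos
    omega
  -- nontrivial subgroups of `N` normalized by `N` have order divisible by `r`
  have hdvd : ∀ A : Subgroup Q, A ≤ N → N ≤ normalizer (A : Set Q) → A ≠ ⊥ → r ∣ Nat.card A := by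
    intro A hAN hNA hA
    -- consider `H = M ⊓ N`, of prime index `r` in `N`
    set H := M.subgroupOf N with hH
    have hHi : H.index = r := h2.symm
    have hHc : IsCoatom H := by
      refine ⟨fun h => ?_, fun B hB => ?_⟩
      · rw [h, Subgroup.index_top] at hHi
        exact hi.one_lt.ne hHi
      · have h5 : H.relIndex B * B.index = H.index := Subgroup.relIndex_mul_index hB.le
        have h6 : B.index ∣ r := hHi ▸ Dvd.intro_left _ h5
        rcases (Nat.dvd_prime hi).1 h6 with h7 | h7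
        · exact Subgroup.index_eq_one.1 h7
        · exfalso
          rw [h7, hHi] at h5
          have h8 : H.relIndex B = 1 := by
            have := hi.pos
            nlinarith only [h5, this]
          exact hB.not_ge (Subgroup.relIndex_eq_one.1 h8)
    have hAn : (A.subgroupOf N).Normal := by
      rw [← Subgroup.normalizer_eq_top_iff, ← top_le_iff]
      intro x _
      rw [Subgroup.mem_normalizer_iff]
      intro y
      have := Subgroup.mem_normalizer_iff.1 (hNA x.2) (y : Q)
      rw [Subgroup.mem_subgroupOf, Subgroup.mem_subgroupOf]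
      exact this
    by_cases hAH : A.subgroupOf N ≤ H
    · -- then `A` lies in the core of `H`, which is trivial
      exfalso
      apply hA
      -- `A ≤ M`, `A` normal in `N`
      have hAM : A ≤ M := by
        intro a ha
        have : (⟨a, hAN ha⟩ : N) ∈ A.subgroupOf N := ha
        exact hAH this
      have hcore : A ≤ M.normalCore := by
        intro a ha g
        -- `g = m * n`
        have hg : g ∈ N ⊔ M := h1 ▸ Subgroup.mem_top g
        rw [sup_comm] at hg
        obtain ⟨m, hm, n, hn, rfl⟩ := Subgroup.mem_sup_of_normal_right.1 hg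
        have h5 : n * a * n⁻¹ ∈ A := (Subgroup.mem_normalizer_iff.1 (hNA hn) a).1 ha
        have h6 : m * (n * a * n⁻¹) * m⁻¹ ∈ M := M.mul_mem (M.mul_mem hm (hAM h5)) (M.inv_mem hm)
        have h7 : m * n * a * (m * n)⁻¹ = m * (n * a * n⁻¹) * m⁻¹ := by group
        rw [h7]
        exact h6
      rw [← le_bot_iff, ← h4]
      exact le_inf hAN hcore
    · have h5 : A.subgroupOf N ⊔ H = ⊤ := by
        rw [sup_comm]
        exact hHc.2 _ (left_lt_sup.2 hAH)
      have h6 : H.index = H.relIndex (A.subgroupOf N) := index_eq_relIndex h5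
      have h7 : r ∣ Nat.card (A.subgroupOf N) := by
        rw [← hHi, h6]
        exact Subgroup.relIndex_dvd_card _ _
      rwa [Nat.card_congr (Subgroup.subgroupOfEquivOfLe hAN).toEquiv] at h7
  have hnt : Nontrivial N := (Subgroup.nontrivial_iff_ne_bot N).2 hN1
  refine ⟨fun A hA => ?_⟩
  by_contra hcon
  push Not at hcon
  obtain ⟨hA1, hA2⟩ := hcon
  -- a minimal such subgroup
  obtain ⟨B, ⟨hB1, hB2, hB3⟩, hB4⟩ := Set.Finite.exists_minimal
    (s := {B : Subgroup Q | B ≤ N ∧ N ≤ normalizer (B : Set Q) ∧ B ≠ ⊥})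
    (Set.toFinite _) ⟨N, le_rfl, Subgroup.le_normalizer, hN1⟩
  -- `B` is contained in `A`
  have hint : ∀ C D : Subgroup Q, C ≤ N → N ≤ normalizer (C : Set Q) → C ≠ ⊥ → D ≤ N →
      N ≤ normalizer (D : Set Q) → D ≠ ⊥ → C ⊓ D ≠ ⊥ := by
    intro C D hC1 hC2 hC3 hD1 hD2 hD3 hbot
    apply hr2
    rw [pow_two]
    have h5 : Disjoint C D := disjoint_iff.2 hbot
    have h6 : Nat.card C * Nat.card D ∣ Nat.card N := by
      have hCn : (C.subgroupOf N).Normal := by
        rw [← Subgroup.normalizer_eq_top_iff, ← top_le_iff]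
        intro x _
        rw [Subgroup.mem_normalizer_iff]
        intro y
        exact Subgroup.mem_normalizer_iff.1 (hC2 x.2) (y : Q)
      have h7 : Nat.card C * Nat.card D = Nat.card (C.subgroupOf N ⊔ D.subgroupOf N : Subgroup N) := by
        have h8 : Disjoint (C.subgroupOf N) (D.subgroupOf N) := by
          rw [disjoint_iff, Subgroup.subgroupOf, Subgroup.subgroupOf, ← Subgroup.comap_inf, hbot]
          exact Subgroup.bot_subgroupOf N
        have h9 : (C.subgroupOf N).relIndex (C.subgroupOf N ⊔ D.subgroupOf N) =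
            Nat.card (D.subgroupOf N) := by
          rw [Subgroup.relIndex_sup_left, ← Subgroup.inf_relIndex_right, h8.eq_bot,
            Subgroup.relIndex_bot_left]
        have h10 := Subgroup.relIndex_mul_relIndex ⊥ (C.subgroupOf N)
          (C.subgroupOf N ⊔ D.subgroupOf N) bot_le le_sup_left
        rw [Subgroup.relIndex_bot_left, Subgroup.relIndex_bot_left, h9] at h10
        rw [← h10, Nat.card_congr (Subgroup.subgroupOfEquivOfLe hC1).toEquiv,
          Nat.card_congr (Subgroup.subgroupOfEquivOfLe hD1).toEquiv]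
      rw [h7]
      exact Subgroup.card_subgroup_dvd_card _
    exact (mul_dvd_mul (hdvd C hC1 hC2 hC3) (hdvd D hD1 hD2 hD3)).trans h6
  have hnorm : ∀ C D : Subgroup Q, N ≤ normalizer (C : Set Q) → N ≤ normalizer (D : Set Q) →
      N ≤ normalizer ((C ⊓ D : Subgroup Q) : Set Q) := by
    intro C D hC hD x hx
    rw [Subgroup.mem_normalizer_iff]
    intro y
    rw [Subgroup.mem_inf, Subgroup.mem_inf, Subgroup.mem_normalizer_iff.1 (hC hx) y,
      Subgroup.mem_normalizer_iff.1 (hD hx) y]
  have hBall : ∀ C : Subgroup Q, C ≤ N → N ≤ normalizer (C : Set Q) → C ≠ ⊥ → B ≤ C := by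
    intro C hC1 hC2 hC3
    have h5 := hB4 (y := B ⊓ C) ⟨inf_le_left.trans hB1, hnorm B C hB2 hC2,
      hint B C hB1 hB2 hB3 hC1 hC2 hC3⟩ inf_le_left
    exact h5.trans inf_le_right
  -- `B` is normal
  have hBn : B.Normal := by
    constructor
    intro b hb g
    have h5 : B ≤ B.map (MulAut.conj g⁻¹).toMonoidHom := by
      apply hBall
      · rintro _ ⟨x, hx, rfl⟩
        exact hN.conj_mem x (hB1 hx) g⁻¹
      · intro x hx
        rw [Subgroup.mem_normalizer_iff_map_conj_eq]
        have h6 : g * x * g⁻¹ ∈ normalizer (B : Set Q) := hB2 (hN.conj_mem x hx g)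
        rw [Subgroup.mem_normalizer_iff_map_conj_eq] at h6
        rw [Subgroup.map_map]
        conv_rhs => rw [← h6, Subgroup.map_map]
        congr 1
        ext y
        simp [mul_assoc]
      · intro h6
        exact hB3 ((Subgroup.map_eq_bot_iff_of_injective B (MulAut.conj g⁻¹).injective).1 h6)
    obtain ⟨x, hx, hxb⟩ := h5 hb
    have h7 : g * b * g⁻¹ = x := by
      rw [← hxb]
      simp only [mul_assoc, _root_.map_inv, _root_.MulEquiv.toMonoidHom_eq_coe, _root_.MonoidHom.coe_coe, _root_.MulAut.inv_apply, _root_.MulAut.conj_symm_apply, _root_.mul_inv_cancel_left, _root_.mul_inv_cancel, _root_.mul_one]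
    rw [h7]
    exact hx
  have hBN : B = N := hmin B hBn hB1 hB3
  apply hA2
  have h5 : B ≤ A.map N.subtype := by
    apply hBall
    · exact Subgroup.map_subtype_le A
    · intro x hx
      rw [Subgroup.mem_normalizer_iff]
      intro y
      constructor
      · rintro ⟨a, ha, rfl⟩
        exact ⟨⟨x, hx⟩ * a * ⟨x, hx⟩⁻¹, hA.conj_mem a ha _, rfl⟩
      · rintro ⟨a, ha, h6⟩
        refine ⟨⟨x, hx⟩⁻¹ * a * ⟨x, hx⟩, ?_, ?_⟩
        · have := hA.conj_mem a ha (⟨x, hx⟩⁻¹)
          rwa [inv_inv] at this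
        · change x⁻¹ * (a : Q) * x = y
          have h7 : (a : Q) = x * y * x⁻¹ := h6
          rw [h7]
          group
    · intro h6
      exact hA1 ((Subgroup.map_eq_bot_iff_of_injective A N.subtype_injective).1 h6)
  rw [hBN] at h5
  rw [← top_le_iff]
  intro x _
  obtain ⟨a, ha, hax⟩ := h5 x.2
  have : a = x := Subtype.ext hax
  rwa [← this]

/-- **Reduction.** -/
theorem exists_red (hp2 : p ≠ 2) (hmax : Hyp p Q) (hrad : Rad p Q) [Nontrivial Q] :
    ∃ (N : Subgroup Q) (r : ℕ), Red p Q N r := by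
  obtain ⟨N, hN, hN1, hmin⟩ := exists_minimal_normal (Q := Q)
  obtain ⟨M, hM, hNM, hi, hip⟩ := exists_prime_index hp2 hmax hrad hN1
  have hsimple : IsSimpleGroup N := isSimple hN1 hmin hM hNM hi
  have hsup : N ⊔ M = ⊤ := by
    rw [sup_comm]
    exact hM.2 _ (left_lt_sup.2 hNM)
  have hidx : M.index = M.relIndex N := index_eq_relIndex hsup
  have hrdvd : M.index ∣ Nat.card N := hidx.dvd.trans (Subgroup.relIndex_dvd_card M N)
  have hmaxr : ∀ M' : Subgroup Q, IsCoatom M' → ¬ N ≤ M' →
      HasNormalPComplement p M' ∨ M'.index = M.index := by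
    intro M' hM' hNM'
    rcases hmax M' hM' with h | h
    · exact Or.inl h
    · exact Or.inr (prime_index_unique hmin hM' hNM' h hM hNM hi)
  have hnc : ¬ ∀ a b : N, a * b = b * a := by
    intro hc
    apply not_hnc hrad hN hN1
    have hcomm : IsMulCommutative N := ⟨⟨hc⟩⟩
    have hnil : Group.IsNilpotent N := by
      letI : CommGroup N := { (inferInstance : Group N) with mul_comm := hc }
      infer_instance
    have := Cfsg.Agent.SolvableStructure.Schmidt.exists_normal_complement_of_isNilpotent hnil p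
    obtain ⟨L, hL1, hL2, k, hL3⟩ := this
    exact Cfsg.Agent.OddOrderLocal.NilpotentQuotient.hasNormalPComplement_of_index L hL1 hL2 hL3
  refine ⟨N, M.index, hN, hsimple, ?_, hnc, dvd_card hrad hN hN1, hi, hip, hrdvd, hmaxr,
    M, hM, hNM, rfl⟩
  -- the centralizer is trivial
  have hrf : Fact (M.index).Prime := ⟨hi⟩
  obtain ⟨R⟩ : Nonempty (Sylow M.index N) := inferInstance
  set R' : Subgroup Q := (R : Subgroup N).map N.subtype with hR'
  have hfr : normalizer (R' : Set Q) ⊔ N = ⊤ := Sylow.normalizer_sup_eq_top R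
  have hR1 : (R : Subgroup N) ≠ ⊥ := fun h => R.ne_bot_of_dvd_card hrdvd h
  have hR'1 : R' ≠ ⊥ := by
    intro h
    exact hR1 ((Subgroup.map_eq_bot_iff_of_injective _ N.subtype_injective).1 h)
  have hR'p : IsPGroup M.index R' := R.isPGroup'.map N.subtype
  have hL : normalizer (R' : Set Q) ≠ ⊤ := by
    intro h
    have hRn : R'.Normal := Subgroup.normalizer_eq_top_iff.1 h
    apply hR'1
    apply hrad R' hRn
    refine Cfsg.Agent.PLocal.PSolvable.isPSolvable_of_coprime ?_
    obtain ⟨k, hk⟩ := IsPGroup.iff_card.1 hR'p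
    rw [hk]
    exact Nat.Coprime.pow_left k ((Nat.coprime_primes hi hp.out).2 hip)
  obtain ⟨M₂, hM₂, hLM₂⟩ := exists_coatom hL
  have hNM₂ : ¬ N ≤ M₂ := by
    intro h
    exact hM₂.1 (top_le_iff.1 (hfr.symm.le.trans (sup_le hLM₂ h)))
  have hne : M₂.index ≠ M.index := by
    intro h
    have hsup₂ : N ⊔ M₂ = ⊤ := by
      rw [sup_comm]
      exact hM₂.2 _ (left_lt_sup.2 hNM₂)
    have h1 : M₂.index = M₂.relIndex N := index_eq_relIndex hsup₂
    have h2 : R' ≤ M₂ ⊓ N := le_inf (Subgroup.le_normalizer.trans hLM₂)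
      (Subgroup.map_subtype_le _)
    have h3 : (M₂ ⊓ N).relIndex N ∣ R'.relIndex N := Subgroup.relIndex_dvd_of_le_left N h2
    rw [Subgroup.inf_relIndex_right, ← h1, h] at h3
    have h4 : R'.relIndex N = (R : Subgroup N).index := by
      rw [Subgroup.relIndex, Subgroup.subgroupOf, hR',
        Subgroup.comap_map_eq_self_of_injective N.subtype_injective]
    rw [h4] at h3
    exact R.not_dvd_index h3
  have hhnc : HasNormalPComplement p M₂ := (hmaxr M₂ hM₂ hNM₂).resolve_right hne
  have hC : centralizer (N : Set Q) ≤ M₂ := by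
    refine le_trans ?_ hLM₂
    intro c hc
    rw [Subgroup.mem_normalizer_iff]
    intro y
    have hcy : ∀ z ∈ R', c * z * c⁻¹ = z := by
      intro z hz
      have h5 : z ∈ N := Subgroup.map_subtype_le _ hz
      have h6 := Subgroup.mem_centralizer_iff.1 hc z h5
      rw [← h6, mul_inv_cancel_right]
    constructor
    · intro hy
      rw [hcy y hy]
      exact hy
    · intro hy
      have h7 := hcy _ hy
      have h8 : c * y * c⁻¹ = y := by
        have h9 : c * (c * y * c⁻¹) * c⁻¹ = c * y * c⁻¹ := h7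
        have h10 : c * y * c⁻¹ = y := by
          have h11 := congrArg (fun z => c⁻¹ * z * c) h9
          simp only [mul_assoc, inv_mul_cancel_left, inv_mul_cancel, mul_one] at h11
          simpa [mul_assoc] using h11
        exact h10
      rwa [h8] at hy
  have hCn : (centralizer (N : Set Q)).Normal := Subgroup.normal_centralizer
  exact hrad _ hCn (isPSolvable_of_hnc (hnc_of_le hC hhnc))

/-- The principle: a subgroup of `N` whose class is invariant has a normal `p`-complement or is
contained in a maximal subgroup of index `r`. -/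
theorem Red.sub {N : Subgroup Q} {r : ℕ} (R : Red p Q N r) {X : Subgroup Q}
    (hX : N ⊔ normalizer (X : Set Q) = ⊤) (hX1 : X ≠ ⊥) (hX2 : ¬ N ≤ X) (hX3 : X ≤ N) :
    HasNormalPComplement p X ∨ ∃ M : Subgroup Q, IsCoatom M ∧ ¬ N ≤ M ∧ M.index = r ∧
      normalizer (X : Set Q) ≤ M ∧ X ≤ M := by
  have hN := R.normal
  have hsimple := R.simple
  have hL : normalizer (X : Set Q) ≠ ⊤ := by
    intro h
    have hXn : X.Normal := Subgroup.normalizer_eq_top_iff.1 h
    have h1 : (X.subgroupOf N).Normal := inferInstance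
    rcases h1.eq_bot_or_eq_top with h2 | h2
    · rw [Subgroup.subgroupOf_eq_bot] at h2
      exact hX1 (h2.eq_bot_of_le hX3)
    · rw [Subgroup.subgroupOf_eq_top] at h2
      exact hX2 h2
  obtain ⟨M, hM, hLM⟩ := exists_coatom hL
  have hNM : ¬ N ≤ M := by
    intro h
    exact hM.1 (top_le_iff.1 (hX.symm.le.trans (sup_le h hLM)))
  have hXM : X ≤ M := Subgroup.le_normalizer.trans hLM
  rcases R.max M hM hNM with h | h
  · exact Or.inl (hnc_of_le hXM h)
  · exact Or.inr ⟨M, hM, hNM, h, hLM, hXM⟩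

/-- A group with a `p`-element inverted by another element has no normal `p`-complement. -/
theorem not_hnc_of_inverts (hp2 : p ≠ 2) {X : Type*} [Group X] [Finite X] {x y : X}
    (hx : x ≠ 1) (hxp : x ^ p = 1) (hy : y * x * y⁻¹ = x⁻¹) : ¬ HasNormalPComplement p X := by
  intro h
  obtain ⟨K, hK, h1, k, h2⟩ :=
    Cfsg.Agent.OddOrderLocal.NilpotentQuotient.exists_of_hasNormalPComplement h
  -- in the quotient, a `p`-group, everything has odd order
  have hodd : Odd (Nat.card (X ⧸ K)) := by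
    rw [← Subgroup.index_eq_card, h2]
    exact (hp.out.odd_of_ne_two hp2).pow
  have h3 : (y : X ⧸ K) * x * (y : X ⧸ K)⁻¹ = (x : X ⧸ K)⁻¹ := by
    rw [← QuotientGroup.mk_mul, ← QuotientGroup.mk_inv, ← QuotientGroup.mk_mul, hy,
      QuotientGroup.mk_inv]
  have h4 : ∀ n : ℕ, Odd n → (y : X ⧸ K) ^ n * x * ((y : X ⧸ K) ^ n)⁻¹ = (x : X ⧸ K)⁻¹ := by
    intro n hn
    obtain ⟨m, rfl⟩ := hn
    induction m with
    | zero => simpa only [_root_.MulZeroClass.mul_zero, _root_.zero_add, _root_.pow_one] using h3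
    | succ m ih =>
      have h5 : (y : X ⧸ K) ^ (2 * (m + 1) + 1) = y * (y * (y : X ⧸ K) ^ (2 * m + 1)) := by
        rw [← pow_succ', ← pow_succ']
        congr 1
      rw [h5]
      have h6 : (y : X ⧸ K) * (y * (y : X ⧸ K) ^ (2 * m + 1)) * x *
          ((y : X ⧸ K) * (y * (y : X ⧸ K) ^ (2 * m + 1)))⁻¹ =
          (y : X ⧸ K) * (y * ((y : X ⧸ K) ^ (2 * m + 1) * x * ((y : X ⧸ K) ^ (2 * m + 1))⁻¹) *
            (y : X ⧸ K)⁻¹) * (y : X ⧸ K)⁻¹ := by group
      rw [h6, ih]
      have h7 : (y : X ⧸ K) * (x : X ⧸ K)⁻¹ * (y : X ⧸ K)⁻¹ = x := by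
        have := congrArg (·⁻¹) h3
        simpa only [mul_assoc, _root_.mul_inv_rev, _root_.inv_inv] using this
      rw [h7, h3]
  have h5 := h4 _ hodd
  rw [pow_card_eq_one'] at h5
  simp only [one_mul, inv_one, mul_one] at h5
  -- so `x ^ 2 ∈ K` and `x ∈ K`
  have h6 : (x : X ⧸ K) ^ 2 = 1 := by
    rw [pow_two]
    nth_rewrite 2 [h5]
    exact mul_inv_cancel _
  have h7 : (x : X ⧸ K) ^ p = 1 := by
    rw [← QuotientGroup.mk_pow, hxp, QuotientGroup.mk_one]
  have h8 : Nat.Coprime 2 p := (Nat.coprime_primes Nat.prime_two hp.out).2 (Ne.symm hp2)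
  have h9 : (x : X ⧸ K) = 1 := by
    rw [← orderOf_eq_one_iff]
    exact Nat.eq_one_of_dvd_coprimes h8 (orderOf_dvd_of_pow_eq_one h6)
      (orderOf_dvd_of_pow_eq_one h7)
  rw [QuotientGroup.eq_one_iff] at h9
  apply h1
  have h10 : orderOf x = p := orderOf_eq_prime hxp hx
  have h11 : orderOf (⟨x, h9⟩ : K) = p := by
    rw [Subgroup.orderOf_mk, h10]
  rw [← h11]
  exact _root_.orderOf_dvd_natCard _

end Cfsg.Agent.H579.MaxPNilRed
end

-- part: H579/SLAut
section
set_option autoImplicit false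

namespace Cfsg.Agent.H579.SLAut

open Matrix
open Cfsg.Agent.ClassicalGeometry.AutPSL.Root
open Cfsg.Agent.ClassicalGeometry.AutPSL.Auto
open Cfsg.Agent.ClassicalGeometry.AutPSL.Main

variable {n : ℕ} {F : Type*} [Field F] [Fintype F]

theorem eq_one_of_pow (hn : 2 ≤ n) {r : F} (hc : Nat.Coprime n (Fintype.card F - 1))
    (h : r ^ n = 1) : r = 1 := by
  by_cases hr : r = 0
  · subst hr
    rw [zero_pow (by omega)] at h
    exact h
  · have h1 : r ^ (Fintype.card F - 1) = 1 := FiniteField.pow_card_sub_one_eq_one r hr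
    have h2 : orderOf r ∣ n := orderOf_dvd_of_pow_eq_one h
    have h3 : orderOf r ∣ Fintype.card F - 1 := orderOf_dvd_of_pow_eq_one h1
    have h4 : orderOf r = 1 := Nat.eq_one_of_dvd_coprimes hc h2 h3
    exact orderOf_eq_one_iff.1 h4

theorem center_eq_bot (hn : 2 ≤ n) (hc : Nat.Coprime n (Fintype.card F - 1)) :
    Subgroup.center (Matrix.SpecialLinearGroup (Fin n) F) = ⊥ := by
  rw [eq_bot_iff]
  intro z hz
  obtain ⟨r, hr, hrz⟩ := Matrix.SpecialLinearGroup.mem_center_iff.1 hz
  rw [Fintype.card_fin] at hr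
  have h1 := eq_one_of_pow hn hc hr
  rw [Subgroup.mem_bot]
  apply Subtype.ext
  rw [← hrz, h1, map_one, Matrix.SpecialLinearGroup.coe_one]

theorem pr_injective (hn : 2 ≤ n) (hc : Nat.Coprime n (Fintype.card F - 1)) :
    Function.Injective (pr : Matrix.SpecialLinearGroup (Fin n) F →* _) := by
  rw [injective_iff_map_eq_one]
  intro x hx
  rw [pr_eq_one_iff, center_eq_bot hn hc] at hx
  exact hx

/-- `SL ≃* PSL`. -/
noncomputable def prEquiv (hn : 2 ≤ n) (hc : Nat.Coprime n (Fintype.card F - 1)) :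
    Matrix.SpecialLinearGroup (Fin n) F ≃* Matrix.ProjectiveSpecialLinearGroup (Fin n) F :=
  MulEquiv.ofBijective pr ⟨pr_injective hn hc, pr_surjective⟩

theorem lift_injective (hn : 2 ≤ n) (hc : Nat.Coprime n (Fintype.card F - 1)) :
    Function.Injective (lift : MulAut (Matrix.SpecialLinearGroup (Fin n) F) →* _) := by
  intro α β h
  apply MulEquiv.ext
  intro x
  apply pr_injective hn hc
  rw [← lift_pr, ← lift_pr, h]

/-- Conjugation by an element of `GL` is conjugation by an element of `SL`. -/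
theorem exists_conj (hn : 2 ≤ n) (hc : Nat.Coprime n (Fintype.card F - 1)) (A : GL (Fin n) F) :
    ∃ B : Matrix.SpecialLinearGroup (Fin n) F, cj A = MulAut.conj B := by
  classical
  -- an `n`-th root of the determinant
  obtain ⟨μ, hμ⟩ : ∃ μ : Fˣ, μ ^ n = (Matrix.GeneralLinearGroup.det A) := by
    have hco : Nat.Coprime n (Nat.card Fˣ) := by
      rw [Nat.card_eq_fintype_card, Fintype.card_units]
      exact hc
    have h1 : Function.Surjective (fun μ : Fˣ => μ ^ n) := by
      intro y
      obtain ⟨x, hx⟩ := (powCoprime hco.symm).surjective y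
      exact ⟨x, hx⟩
    exact h1 _
  let C : GL (Fin n) F := Matrix.GeneralLinearGroup.scalar (Fin n) μ⁻¹ * A
  have hC : (C : Matrix (Fin n) (Fin n) F).det = 1 := by
    have h1 : Matrix.GeneralLinearGroup.det C = 1 := by
      change Matrix.GeneralLinearGroup.det (Matrix.GeneralLinearGroup.scalar (Fin n) μ⁻¹ * A) = 1
      rw [map_mul]
      have h2 : Matrix.GeneralLinearGroup.det (Matrix.GeneralLinearGroup.scalar (Fin n) μ⁻¹)
          = (μ⁻¹) ^ n := by
        apply Units.ext
        change (scalar (Fin n) ((μ⁻¹ : Fˣ) : F)).det = _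
        rw [scalar_apply, det_diagonal, Finset.prod_const, Finset.card_univ, Fintype.card_fin,
          Units.val_pow_eq_pow_val]
      rw [h2, ← hμ, inv_pow, inv_mul_cancel]
    exact congrArg Units.val h1
  have h1 : cj C = cj A := by
    change cj (Matrix.GeneralLinearGroup.scalar (Fin n) μ⁻¹ * A) = cj A
    rw [map_mul, cj_eq_one_of_scalar (C := Matrix.GeneralLinearGroup.scalar (Fin n) μ⁻¹)
      (r := ((μ⁻¹ : Fˣ) : F)) rfl, one_mul]
  obtain ⟨B, hB⟩ : ∃ B : Matrix.SpecialLinearGroup (Fin n) F, B.1 = C := ⟨⟨C, hC⟩, rfl⟩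
  refine ⟨B, ?_⟩
  rw [← h1]
  have h2 : (C : Matrix (Fin n) (Fin n) F) * (B⁻¹ : Matrix.SpecialLinearGroup (Fin n) F).1
      = 1 := by
    rw [← hB]
    exact congrArg Subtype.val (mul_inv_cancel B)
  have h3 : ((C⁻¹ : GL (Fin n) F) : Matrix (Fin n) (Fin n) F) * (C : Matrix (Fin n) (Fin n) F)
      = 1 := by
    rw [← Units.val_mul, inv_mul_cancel, Units.val_one]
  have h4 : ((C⁻¹ : GL (Fin n) F) : Matrix (Fin n) (Fin n) F)
      = (B⁻¹ : Matrix.SpecialLinearGroup (Fin n) F).1 := by
    calc ((C⁻¹ : GL (Fin n) F) : Matrix (Fin n) (Fin n) F)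
        = ((C⁻¹ : GL (Fin n) F) : Matrix (Fin n) (Fin n) F) * ((C : Matrix (Fin n) (Fin n) F) *
          (B⁻¹ : Matrix.SpecialLinearGroup (Fin n) F).1) := by rw [h2, mul_one]
      _ = _ := by rw [← mul_assoc, h3, one_mul]
  apply MulEquiv.ext
  intro g
  apply Subtype.ext
  change (C : Matrix (Fin n) (Fin n) F) * g.1 * ((C⁻¹ : GL (Fin n) F) : Matrix (Fin n) (Fin n) F)
    = B.1 * g.1 * (B⁻¹ : Matrix.SpecialLinearGroup (Fin n) F).1
  rw [h4, hB]

/-- The automorphisms of `SL_n(F)`, `n` prime to `|F| - 1`. -/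
theorem exists_aut (hn : 2 ≤ n) (hc : Nat.Coprime n (Fintype.card F - 1))
    (α : MulAut (Matrix.SpecialLinearGroup (Fin n) F)) :
    (∃ (B : Matrix.SpecialLinearGroup (Fin n) F) (σ : F ≃+* F), α = MulAut.conj B * fld σ) ∨
    (3 ≤ n ∧ ∃ (B : Matrix.SpecialLinearGroup (Fin n) F) (σ : F ≃+* F),
      α = MulAut.conj B * fld σ * itr) := by
  obtain ⟨p, hp⟩ := CharP.exists F
  have hpp : Fact p.Prime := ⟨CharP.char_is_prime F p⟩
  by_cases h3 : 3 ≤ n
  · rcases surj_three p h3 (lift α) with ⟨A, σ, h⟩ | ⟨A, σ, h⟩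
    · obtain ⟨B, hB⟩ := exists_conj hn hc A
      refine Or.inl ⟨B, σ, ?_⟩
      rw [← hB]
      exact lift_injective hn hc h
    · obtain ⟨B, hB⟩ := exists_conj hn hc A
      refine Or.inr ⟨h3, B, σ, ?_⟩
      rw [← hB]
      exact lift_injective hn hc h
  · obtain rfl : n = 2 := by omega
    obtain ⟨A, σ, h⟩ := surj_two p (lift α)
    obtain ⟨B, hB⟩ := exists_conj hn hc A
    refine Or.inl ⟨B, σ, ?_⟩
    rw [← hB]
    exact lift_injective hn hc h

end Cfsg.Agent.H579.SLAut
end

-- part: H579/SLRed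
section
set_option autoImplicit false

namespace Cfsg.Agent.H579.SLRed

open Cfsg Subgroup Cfsg.Agent.Transfer.PNilpotentBasic Matrix
open Cfsg.Agent.H579.MaxPNilRed Cfsg.Agent.H579.SLStab Cfsg.Agent.H579.SLAut
open Cfsg.Agent.ClassicalGeometry.AutPSL.Root
open Cfsg.Agent.ClassicalGeometry.AutPSL.Auto

section matrices

variable {n : ℕ} {F : Type*} [Field F]

theorem fld_smul (σ : F ≃+* F) (g : Matrix.SpecialLinearGroup (Fin n) F) (u : Fin n → F) :
    (fun i => σ ((g • u) i)) = (fld σ g) • (fun i => σ (u i)) := by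
  ext i
  change σ (((g : Matrix (Fin n) (Fin n) F) *ᵥ u) i) =
    ((fld σ g : Matrix (Fin n) (Fin n) F) *ᵥ fun i => σ (u i)) i
  rw [mulVec, mulVec, dotProduct, dotProduct, map_sum]
  apply Finset.sum_congr rfl
  intro j _
  rw [map_mul, coe_fld_apply]

theorem itr_dot (g : Matrix.SpecialLinearGroup (Fin n) F) (φ w : Fin n → F) :
    (itr g • φ) ⬝ᵥ w = φ ⬝ᵥ (g⁻¹ • w) := by
  change ((itr g : Matrix (Fin n) (Fin n) F) *ᵥ φ) ⬝ᵥ w =
    φ ⬝ᵥ (((g⁻¹ : Matrix.SpecialLinearGroup (Fin n) F) : Matrix (Fin n) (Fin n) F) *ᵥ w)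
  rw [coe_itr, dotProduct_mulVec, ← mulVec_transpose]

/-- The perpendicular subspace. -/
def perp (W : Submodule F (Fin n → F)) : Submodule F (Fin n → F) :=
  (W.dualAnnihilator).comap (dotProductEquiv F (Fin n)).toLinearMap

theorem mem_perp {W : Submodule F (Fin n → F)} {φ : Fin n → F} :
    φ ∈ perp W ↔ ∀ w ∈ W, φ ⬝ᵥ w = 0 := by
  rw [perp, Submodule.mem_comap, Submodule.mem_dualAnnihilator]
  rfl

theorem finrank_perp (W : Submodule F (Fin n → F)) :
    Module.finrank F W + Module.finrank F (perp W) = n := by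
  have h1 := Subspace.finrank_add_finrank_dualAnnihilator_eq W
  rw [Module.finrank_fintype_fun_eq_card, Fintype.card_fin] at h1
  have h2 : Module.finrank F (perp W) = Module.finrank F W.dualAnnihilator := by
    apply LinearEquiv.finrank_eq
    exact (dotProductEquiv F (Fin n)).submoduleMap (perp W) |>.trans
      (LinearEquiv.ofEq _ _ (by
        rw [perp]
        exact Submodule.map_comap_eq_of_surjective (dotProductEquiv F (Fin n)).surjective _))
  rw [h2]
  exact h1

/-- The image of a subspace under `B ∘ σ`. -/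
def semi (B : Matrix.SpecialLinearGroup (Fin n) F) (σ : F ≃+* F)
    (W : Submodule F (Fin n → F)) : Submodule F (Fin n → F) where
  carrier := {v | (fun i => σ.symm ((B⁻¹ • v) i)) ∈ W}
  zero_mem' := by
    change (fun i => σ.symm ((B⁻¹ • (0 : Fin n → F)) i)) ∈ W
    rw [smul_zero]
    convert W.zero_mem using 1
    ext i
    exact map_zero σ.symm
  add_mem' := by
    intro a b ha hb
    change (fun i => σ.symm ((B⁻¹ • (a + b)) i)) ∈ W
    convert W.add_mem ha hb using 1
    ext i
    rw [smul_add, Pi.add_apply, map_add]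
    rfl
  smul_mem' := by
    intro c a ha
    change (fun i => σ.symm ((B⁻¹ • (c • a)) i)) ∈ W
    convert W.smul_mem (σ.symm c) ha using 1
    ext i
    have h1 : (B⁻¹ • (c • a) : Fin n → F) = c • (B⁻¹ • a) :=
      mulVec_smul ((B⁻¹ : Matrix.SpecialLinearGroup (Fin n) F) : Matrix (Fin n) (Fin n) F) c a
    rw [h1, Pi.smul_apply, smul_eq_mul, map_mul]
    rfl

theorem mem_semi {B : Matrix.SpecialLinearGroup (Fin n) F} {σ : F ≃+* F}
    {W : Submodule F (Fin n → F)} {v : Fin n → F} :
    v ∈ semi B σ W ↔ (fun i => σ.symm ((B⁻¹ • v) i)) ∈ W := Iff.rfl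

theorem card_semi (B : Matrix.SpecialLinearGroup (Fin n) F) (σ : F ≃+* F)
    (W : Submodule F (Fin n → F)) : Nat.card (semi B σ W) = Nat.card W := by
  apply Nat.card_congr
  refine
    { toFun := fun v => ⟨fun i => σ.symm ((B⁻¹ • (v : Fin n → F)) i), v.2⟩
      invFun := fun w => ⟨B • (fun i => σ ((w : Fin n → F) i)), ?_⟩
      left_inv := fun v => ?_
      right_inv := fun w => ?_ }
  · rw [mem_semi, inv_smul_smul]
    simp only [RingEquiv.symm_apply_apply]
    exact w.2
  · apply Subtype.ext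
    change B • (fun i => σ (σ.symm ((B⁻¹ • (v : Fin n → F)) i))) = (v : Fin n → F)
    simp only [RingEquiv.apply_symm_apply]
    exact smul_inv_smul B _
  · apply Subtype.ext
    change (fun i => σ.symm ((B⁻¹ • (B • (fun i => σ ((w : Fin n → F) i)))) i)) = (w : Fin n → F)
    rw [inv_smul_smul]
    simp only [RingEquiv.symm_apply_apply]

/-- `B ∘ σ` transports stabilisers. -/
theorem semi_smul {B g : Matrix.SpecialLinearGroup (Fin n) F} {σ : F ≃+* F}
    {W : Submodule F (Fin n → F)} (hg : g ∈ Stab W) : B * fld σ g * B⁻¹ ∈ Stab (semi B σ W) := by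
  intro v
  rw [mem_semi, mem_semi]
  have h1 : B⁻¹ • ((B * fld σ g * B⁻¹) • v) = fld σ g • (B⁻¹ • v) := by
    rw [mul_smul, mul_smul, inv_smul_smul]
  have h2 : (fun i => σ.symm ((fld σ g • (B⁻¹ • v)) i))
      = g • (fun i => σ.symm ((B⁻¹ • v) i)) := by
    have h3 := fld_smul σ g (fun i => σ.symm ((B⁻¹ • v) i))
    simp only [RingEquiv.apply_symm_apply] at h3
    have h4 : fld σ g • (B⁻¹ • v) = fld σ g • (fun i => (B⁻¹ • v) i) := rfl
    rw [h4, ← h3]
    simp only [RingEquiv.symm_apply_apply]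
  rw [h1, h2]
  exact hg _

theorem itr_mem_Stab_perp {g : Matrix.SpecialLinearGroup (Fin n) F}
    {W : Submodule F (Fin n → F)} (hg : g ∈ Stab W) : itr g ∈ Stab (perp W) := by
  intro φ
  rw [mem_perp, mem_perp]
  constructor
  · intro h w hw
    have h1 := h (g • w) ((hg w).2 hw)
    rwa [itr_dot, inv_smul_smul] at h1
  · intro h w hw
    rw [itr_dot]
    exact h _ (((Stab W).inv_mem hg w).2 hw)

end matrices

variable {Q : Type*} [Group Q] [Finite Q] {p : ℕ} [hp : Fact p.Prime]
variable {n : ℕ} {F : Type*} [Field F] [Fintype F]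

omit [Finite Q] [Fintype F] in
/-- Elements of `Q` act as automorphisms of `SL_n(F)`. -/
theorem exists_act {N : Subgroup Q} (hN : N.Normal) (e : Matrix.SpecialLinearGroup (Fin n) F ≃* N)
    (g : Q) : ∃ α : MulAut (Matrix.SpecialLinearGroup (Fin n) F),
      ∀ x, g * (e x : Q) * g⁻¹ = (e (α x) : Q) := by
  refine ⟨(e.trans (MulAut.conjNormal g)).trans e.symm, fun x => ?_⟩
  change g * (e x : Q) * g⁻¹ = (e (e.symm (MulAut.conjNormal g (e x))) : Q)
  rw [MulEquiv.apply_symm_apply]
  exact (MulAut.conjNormal_apply g (e x)).symm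

/-- The data: `Q` with socle `SL_n(F)` and a subgroup of prime index
`r = (|F|^n - 1) / (|F| - 1)`. -/
structure Ctx (p : ℕ) (Q : Type*) [Group Q] (N : Subgroup Q) (r n : ℕ) (F : Type*) [Field F]
    [Fintype F] : Prop where
  red : Red p Q N r
  two : 2 ≤ n
  odd : n = 2 ∨ Odd n
  cop : Nat.Coprime n (Fintype.card F - 1)
  eq : Fintype.card F ^ n - 1 = r * (Fintype.card F - 1)

variable {N : Subgroup Q} {r : ℕ}

omit [Finite Q] hp in
theorem Ctx.ne_char (C : Ctx p Q N r n F) {ℓ : ℕ} [hℓ : Fact ℓ.Prime] [CharP F ℓ] : r ≠ ℓ := by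
  rintro rfl
  obtain ⟨k, -, hk⟩ := FiniteField.card F r
  have h1 := C.eq
  have h2 : r ∣ Fintype.card F ^ n := by
    rw [hk]
    exact dvd_pow (dvd_pow_self r k.pos.ne') (by have := C.two; omega)
  have h3 : 1 ≤ Fintype.card F ^ n := Nat.one_le_pow _ _ Fintype.card_pos
  have h4 : r ∣ Fintype.card F ^ n - 1 := by rw [h1]; exact dvd_mul_right _ _
  have h5 : r ∣ 1 := by
    have := (Nat.dvd_sub_iff_right h3 h2).1 h4
    exact this
  exact hℓ.out.one_lt.ne' (Nat.dvd_one.1 h5)

omit hp in
/-- The intersection of a maximal subgroup of index `r` with the socle is a stabiliser. -/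
theorem Ctx.exists_W (C : Ctx p Q N r n F) (e : Matrix.SpecialLinearGroup (Fin n) F ≃* N)
    {M : Subgroup Q} (hM : IsCoatom M) (hNM : ¬ N ≤ M) (hi : M.index = r) :
    ∃ W : Submodule F (Fin n → F), W ≠ ⊥ ∧ W ≠ ⊤ ∧ (Stab W).index = r ∧
      ∀ x, x ∈ Stab W ↔ (e x : Q) ∈ M := by
  obtain ⟨ℓ, hℓ⟩ := CharP.exists F
  have hℓp : Fact ℓ.Prime := ⟨CharP.char_is_prime F ℓ⟩
  have hN := C.red.normal
  have hsup : N ⊔ M = ⊤ := by
    rw [sup_comm]
    exact hM.2 _ (left_lt_sup.2 hNM)
  have h1 : M.index = M.relIndex N := index_eq_relIndex hsup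
  have h2 : ((M.subgroupOf N).comap e.toMonoidHom).index = r := by
    rw [Subgroup.index_comap_of_surjective _ e.surjective, ← hi, h1]
    rfl
  obtain ⟨W, hW1, hW2, hW3⟩ := eq_stab ℓ C.two C.red.prime C.ne_char h2
  refine ⟨W, hW1, hW2, by rw [← hW3, h2], fun x => ?_⟩
  rw [← hW3]
  rfl

/-- Elements of `Q` act on the socle as semilinear maps. -/
theorem Ctx.exists_fld (C : Ctx p Q N r n F) (e : Matrix.SpecialLinearGroup (Fin n) F ≃* N)
    (g : Q) : ∃ (B : Matrix.SpecialLinearGroup (Fin n) F) (σ : F ≃+* F),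
      ∀ x, g * (e x : Q) * g⁻¹ = (e (B * fld σ x * B⁻¹) : Q) := by
  have hN := C.red.normal
  obtain ⟨α, hα⟩ := exists_act hN e g
  rcases exists_aut C.two C.cop α with ⟨B, σ, h⟩ | ⟨h3, B, σ, h⟩
  · refine ⟨B, σ, fun x => ?_⟩
    rw [hα, h]
    rfl
  exfalso
  obtain ⟨M, hM, hNM, hi⟩ := C.red.ex
  obtain ⟨W, hW1, hW2, hW3, hW4⟩ := C.exists_W e hM hNM hi
  have hsup : N ⊔ M = ⊤ := by
    rw [sup_comm]
    exact hM.2 _ (left_lt_sup.2 hNM)
  -- `g = e b * m`
  have hg : g ∈ N ⊔ M := hsup ▸ Subgroup.mem_top g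
  obtain ⟨c, hc, m, hm, rfl⟩ := Subgroup.mem_sup_of_normal_left.1 hg
  obtain ⟨b, hb⟩ := e.surjective ⟨c, hc⟩
  have hb' : (e b : Q) = c := congrArg Subtype.val hb
  have hm1 : ∀ x, m * (e x : Q) * m⁻¹ = (e ((b⁻¹ * B) * fld σ (itr x) * (b⁻¹ * B)⁻¹) : Q) := by
    intro x
    have h5 := hα x
    rw [h] at h5
    have h6 : (e ((MulAut.conj B * fld σ * itr :
        MulAut (Matrix.SpecialLinearGroup (Fin n) F)) x) : Q)
        = (e (B * fld σ (itr x) * B⁻¹) : Q) := rfl
    rw [h6] at h5
    have h7 : m * (e x : Q) * m⁻¹ = c⁻¹ * (c * m * (e x : Q) * (c * m)⁻¹) * c := by group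
    rw [h7, h5, ← hb', ← Subgroup.coe_inv, ← map_inv, ← Subgroup.coe_mul, ← Subgroup.coe_mul,
      ← map_mul, ← map_mul]
    congr 2
    group
  -- hence the stabiliser of `W` stabilises `(b⁻¹ B) σ (perp W)`
  have hle : Stab W ≤ Stab (semi (b⁻¹ * B) σ (perp W)) := by
    intro x hx
    -- the preimage of `x`
    obtain ⟨y, hy⟩ : ∃ y, (b⁻¹ * B) * fld σ (itr y) * (b⁻¹ * B)⁻¹ = x := by
      obtain ⟨y, hy⟩ := (MulAut.conj (b⁻¹ * B) * fld σ * itr :
        MulAut (Matrix.SpecialLinearGroup (Fin n) F)).surjective x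
      exact ⟨y, hy⟩
    have hyW : y ∈ Stab W := by
      rw [hW4]
      have h8 := hm1 y
      rw [hy] at h8
      have h9 : (e x : Q) ∈ M := (hW4 x).1 hx
      have h10 : (e y : Q) = m⁻¹ * (e x : Q) * m := by
        rw [← h8]
        group
      rw [h10]
      exact M.mul_mem (M.mul_mem (M.inv_mem hm) h9) hm
    rw [← hy]
    exact semi_smul (itr_mem_Stab_perp hyW)
  have hq : 1 < Nat.card F := by
    rw [Nat.card_eq_fintype_card]
    exact Fintype.one_lt_card
  have hcard : ∀ U : Submodule F (Fin n → F), Nat.card U = Nat.card F ^ Module.finrank F U := by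
    intro U
    exact Module.natCard_eq_pow_finrank
  have hf := finrank_perp W
  have hW0 : Module.finrank F W ≠ 0 := by
    rw [Ne, Submodule.finrank_eq_zero]
    exact hW1
  have hWn : Module.finrank F W ≠ n := by
    intro h8
    apply hW2
    apply Submodule.eq_top_of_finrank_eq
    rw [h8, Module.finrank_fintype_fun_eq_card, Fintype.card_fin]
  have hs := card_semi (b⁻¹ * B) σ (perp W)
  rw [hcard, hcard] at hs
  have hs' := Nat.pow_right_injective hq hs
  have hU1 : semi (b⁻¹ * B) σ (perp W) ≠ ⊥ := by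
    intro h8
    rw [h8, finrank_bot] at hs'
    omega
  have hU2 : semi (b⁻¹ * B) σ (perp W) ≠ ⊤ := by
    intro h8
    rw [h8, finrank_top, Module.finrank_fintype_fun_eq_card, Fintype.card_fin] at hs'
    omega
  have hUW := Stab_inj hU1 hU2 hW1 hle
  rw [hUW] at hs'
  rcases C.odd with h8 | ⟨k, h8⟩
  · omega
  · omega

/-- Field-invariant subgroups of `SL_n(F)`. -/
theorem Ctx.sub (C : Ctx p Q N r n F) (e : Matrix.SpecialLinearGroup (Fin n) F ≃* N)
    (Y : Subgroup (Matrix.SpecialLinearGroup (Fin n) F))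
    (hY : ∀ (σ : F ≃+* F), ∀ y ∈ Y, fld σ y ∈ Y) (hY1 : Y ≠ ⊥) (hY2 : Y ≠ ⊤) :
    HasNormalPComplement p Y ∨ ∃ W : Submodule F (Fin n → F), W ≠ ⊥ ∧ W ≠ ⊤ ∧ Y ≤ Stab W ∧
      (Stab W).index = r := by
  have hN := C.red.normal
  let f : Matrix.SpecialLinearGroup (Fin n) F →* Q := N.subtype.comp e.toMonoidHom
  have hf : Function.Injective f := N.subtype_injective.comp e.injective
  have hfe : ∀ x, f x = (e x : Q) := fun x => rfl
  have hX : N ⊔ normalizer ((Y.map f : Subgroup Q) : Set Q) = ⊤ := by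
    rw [eq_top_iff]
    intro g _
    obtain ⟨B, σ, hB⟩ := C.exists_fld e g
    have h1 : (e B : Q)⁻¹ * g ∈ normalizer ((Y.map f : Subgroup Q) : Set Q) := by
      have h2 : ∀ x, ((e B : Q)⁻¹ * g) * f x * ((e B : Q)⁻¹ * g)⁻¹ = f (fld σ x) := by
        intro x
        have h3 : ((e B : Q)⁻¹ * g) * f x * ((e B : Q)⁻¹ * g)⁻¹
            = (e B : Q)⁻¹ * (g * (e x : Q) * g⁻¹) * (e B : Q) := by
          rw [hfe]
          group
        rw [h3, hB, ← Subgroup.coe_inv, ← map_inv, ← Subgroup.coe_mul, ← Subgroup.coe_mul,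
          ← map_mul, ← map_mul, hfe]
        congr 2
        group
      rw [Subgroup.mem_normalizer_iff_map_conj_eq]
      apply Subgroup.eq_of_le_of_card_ge
      · rintro _ ⟨_, ⟨y, hy, rfl⟩, rfl⟩
        exact ⟨fld σ y, hY σ y hy, (h2 y).symm⟩
      · apply le_of_eq
        exact Nat.card_congr ((Y.map f).equivMapOfInjective _
          (MulAut.conj ((e B : Q)⁻¹ * g)).injective).toEquiv
    have h2 : g = (e B : Q) * ((e B : Q)⁻¹ * g) := by group
    rw [h2]
    exact Subgroup.mul_mem_sup (e B).2 h1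
  have hX1 : Y.map f ≠ ⊥ := by
    intro h
    exact hY1 ((Subgroup.map_eq_bot_iff_of_injective Y hf).1 h)
  have hX2 : ¬ N ≤ Y.map f := by
    intro h
    apply hY2
    rw [eq_top_iff]
    intro x _
    obtain ⟨y, hy, hyx⟩ := h (e x).2
    have : y = x := hf hyx
    rw [← this]
    exact hy
  have hX3 : Y.map f ≤ N := by
    rintro _ ⟨y, _, rfl⟩
    exact (e y).2
  rcases C.red.sub hX hX1 hX2 hX3 with h | ⟨M, hM, hNM, hi, -, hXM⟩
  · left
    exact (hnc_congr (Y.equivMapOfInjective f hf)).1 h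
  · right
    obtain ⟨W, hW1, hW2, hW3, hW4⟩ := C.exists_W e hM hNM hi
    refine ⟨W, hW1, hW2, fun y hy => ?_, hW3⟩
    rw [hW4]
    exact hXM ⟨y, hy, rfl⟩

/-- The index of the socle. -/
theorem Ctx.index_dvd (C : Ctx p Q N r n F) (e : Matrix.SpecialLinearGroup (Fin n) F ≃* N) :
    N.index ∣ Nat.card (F ≃+* F) := by
  have hN := C.red.normal
  let A := MulAut (Matrix.SpecialLinearGroup (Fin n) F)
  let I : Subgroup A := (MulAut.conj : Matrix.SpecialLinearGroup (Fin n) F →* A).range
  have hI : I.Normal := by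
    constructor
    rintro _ ⟨x, rfl⟩ α
    refine ⟨α x, ?_⟩
    apply MulEquiv.ext
    intro y
    change α x * y * (α x)⁻¹ = α (x * (α⁻¹ y) * x⁻¹)
    rw [map_mul, map_mul, map_inv]
    congr 2
    exact (α.apply_symm_apply y).symm
  let act : Q →* A :=
    { toFun := fun g => (e.trans (MulAut.conjNormal g)).trans e.symm
      map_one' := by
        apply MulEquiv.ext
        intro x
        change e.symm (MulAut.conjNormal (1 : Q) (e x)) = x
        rw [map_one, MulAut.one_apply, MulEquiv.symm_apply_apply]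
      map_mul' := fun g h => by
        apply MulEquiv.ext
        intro x
        change e.symm (MulAut.conjNormal (g * h) (e x)) =
          e.symm (MulAut.conjNormal g (e (e.symm (MulAut.conjNormal h (e x)))))
        rw [MulEquiv.apply_symm_apply, map_mul, MulAut.mul_apply] }
  have hact : ∀ g x, g * (e x : Q) * g⁻¹ = (e (act g x) : Q) := by
    intro g x
    change g * (e x : Q) * g⁻¹ = (e (e.symm (MulAut.conjNormal g (e x))) : Q)
    rw [MulEquiv.apply_symm_apply]
    exact (MulAut.conjNormal_apply g (e x)).symm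
  let φ : Q →* A ⧸ I := (QuotientGroup.mk' I).comp act
  have hker : φ.ker = N := by
    ext g
    rw [MonoidHom.mem_ker]
    change (act g : A ⧸ I) = 1 ↔ _
    rw [QuotientGroup.eq_one_iff]
    constructor
    · rintro ⟨b, hb⟩
      -- `g` acts as `e b`
      have h1 : (e b : Q)⁻¹ * g ∈ centralizer (N : Set Q) := by
        rw [Subgroup.mem_centralizer_iff]
        intro y hy
        obtain ⟨x, hx⟩ := e.surjective ⟨y, hy⟩
        have hxy : (e x : Q) = y := congrArg Subtype.val hx
        have h2 := hact g x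
        rw [← hb] at h2
        have h3 : (e (MulAut.conj b x) : Q) = (e b : Q) * (e x : Q) * (e b : Q)⁻¹ := by
          rw [MulAut.conj_apply, map_mul, map_mul, map_inv, Subgroup.coe_mul, Subgroup.coe_mul,
            Subgroup.coe_inv]
        rw [h3] at h2
        rw [← hxy]
        have h4 : (e x : Q) = (e b : Q)⁻¹ * g * (e x : Q) * (g⁻¹ * (e b : Q)) := by
          calc (e x : Q) = (e b : Q)⁻¹ * ((e b : Q) * (e x : Q) * (e b : Q)⁻¹) * (e b : Q) := by
                group
            _ = _ := by rw [← h2]; group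
        calc (e x : Q) * ((e b : Q)⁻¹ * g)
            = (e b : Q)⁻¹ * g * (e x : Q) * (g⁻¹ * (e b : Q)) * ((e b : Q)⁻¹ * g) := by
              rw [← h4]
          _ = (e b : Q)⁻¹ * g * (e x : Q) := by group
      rw [C.red.cent, Subgroup.mem_bot] at h1
      have h5 : g = (e b : Q) := (inv_mul_eq_one.1 h1).symm
      rw [h5]
      exact (e b).2
    · intro hg
      obtain ⟨b, hb⟩ := e.surjective ⟨g, hg⟩
      have hb' : (e b : Q) = g := congrArg Subtype.val hb
      refine ⟨b, ?_⟩
      apply MulEquiv.ext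
      intro x
      apply e.injective
      apply Subtype.ext
      rw [← hact, MulAut.conj_apply, map_mul, map_mul, map_inv, Subgroup.coe_mul,
        Subgroup.coe_mul, Subgroup.coe_inv, hb']
  let ψ : (F ≃+* F) →* A ⧸ I := (QuotientGroup.mk' I).comp fld
  have hrange : φ.range ≤ ψ.range := by
    rintro _ ⟨g, rfl⟩
    obtain ⟨B, σ, hB⟩ := C.exists_fld e g
    refine ⟨σ, ?_⟩
    change ((fld σ : A) : A ⧸ I) = ((act g : A) : A ⧸ I)
    symm
    have h1 : act g = MulAut.conj B * fld σ := by
      apply MulEquiv.ext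
      intro x
      apply e.injective
      apply Subtype.ext
      rw [← hact, hB]
      rfl
    rw [h1, QuotientGroup.mk_mul]
    have h2 : ((MulAut.conj B : A) : A ⧸ I) = 1 := by
      rw [QuotientGroup.eq_one_iff]
      exact ⟨B, rfl⟩
    rw [h2, one_mul]
  have h1 : N.index = Nat.card φ.range := by
    rw [← hker]
    exact Subgroup.index_ker φ
  rw [h1]
  exact (Subgroup.card_dvd_of_le hrange).trans (Subgroup.card_range_dvd ψ)

end Cfsg.Agent.H579.SLRed
end

-- part: H579/SLMono
section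
set_option autoImplicit false

namespace Cfsg.Agent.H579.SLRed

open Cfsg Subgroup Cfsg.Agent.Transfer.PNilpotentBasic Matrix
open Cfsg.Agent.H579.MaxPNilRed Cfsg.Agent.H579.SLStab Cfsg.Agent.H579.SLAut
open Cfsg.Agent.ClassicalGeometry.AutPSL.Root
open Cfsg.Agent.ClassicalGeometry.AutPSL.Auto

/-- Irreducibility. -/
def Irr {n : ℕ} {F : Type*} [Field F] (Y : Subgroup (Matrix.SpecialLinearGroup (Fin n) F)) :
    Prop := ∀ U : Submodule F (Fin n → F), Invt Y U → U = ⊥ ∨ U = ⊤

section ctx

variable {Q : Type*} [Group Q] [Finite Q] {p : ℕ} [hp : Fact p.Prime]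
variable {n : ℕ} {F : Type*} [Field F] [Fintype F] {N : Subgroup Q} {r : ℕ}

theorem Ctx.irr_hnc (C : Ctx p Q N r n F) (e : Matrix.SpecialLinearGroup (Fin n) F ≃* N)
    (Y : Subgroup (Matrix.SpecialLinearGroup (Fin n) F))
    (hY : ∀ (σ : F ≃+* F), ∀ y ∈ Y, fld σ y ∈ Y) (hirr : Irr Y) (hY2 : Y ≠ ⊤) :
    HasNormalPComplement p Y := by
  by_cases hY1 : Y = ⊥
  · apply hnc_of_coprime
    rw [hY1, Subgroup.card_bot]
    exact Nat.coprime_one_left p
  rcases C.sub e Y hY hY1 hY2 with h | ⟨W, hW1, hW2, hW3, -⟩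
  · exact h
  · rcases hirr W (invt_of_le hW3) with h | h
    · exact absurd h hW1
    · exact absurd h hW2

end ctx

section mono

variable {n : ℕ} {F : Type*} [Field F]

/-- Unit vectors. -/
abbrev ev (i : Fin n) : Fin n → F := Pi.single i 1

theorem ev_ne_zero (i : Fin n) : (ev i : Fin n → F) ≠ 0 := by
  intro h
  have h1 := congrFun h i
  rw [show (ev i : Fin n → F) i = 1 from Pi.single_eq_same _ _] at h1
  exact one_ne_zero h1

theorem eq_top_of_ev {U : Submodule F (Fin n → F)} (h : ∀ i, ev i ∈ U) : U = ⊤ := by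
  rw [eq_top_iff]
  intro v _
  rw [← Finset.univ_sum_single v]
  apply U.sum_mem
  intro i _
  have h1 : (Pi.single i (v i) : Fin n → F) = v i • ev i := by
    rw [← Pi.single_smul, smul_eq_mul, mul_one]
  rw [h1]
  exact U.smul_mem _ (h i)

/-- Monomial elements, as a submonoid. -/
def monoM (n : ℕ) (F : Type*) [Field F] : Submonoid (Matrix.SpecialLinearGroup (Fin n) F) where
  carrier := {g | ∀ j : Fin n, ∃ (i : Fin n) (c : F), g • (ev j : Fin n → F) = c • ev i}
  one_mem' := fun j => ⟨j, 1, by rw [one_smul, one_smul]⟩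
  mul_mem' := fun {g h} hg hh j => by
    obtain ⟨i, c, hc⟩ := hh j
    obtain ⟨k, d, hd⟩ := hg i
    refine ⟨k, c * d, ?_⟩
    have h1 : g • (c • (ev i : Fin n → F)) = c • (g • (ev i : Fin n → F)) :=
      mulVec_smul (g : Matrix (Fin n) (Fin n) F) c _
    rw [mul_smul, hc, h1, hd, smul_smul]

/-- The monomial group. -/
def mono (n : ℕ) (F : Type*) [Field F] [Finite F] :
    Subgroup (Matrix.SpecialLinearGroup (Fin n) F) :=
  { monoM n F with
    inv_mem' := by
      intro g hg
      have h1 : g⁻¹ = g ^ (orderOf g - 1) := by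
        rw [inv_eq_iff_mul_eq_one, ← pow_succ', Nat.sub_add_cancel (orderOf_pos g),
          pow_orderOf_eq_one]
      change g⁻¹ ∈ monoM n F
      rw [h1]
      exact Submonoid.pow_mem _ hg _ }

theorem mem_mono [Finite F] {g : Matrix.SpecialLinearGroup (Fin n) F} :
    g ∈ mono n F ↔ ∀ j : Fin n, ∃ (i : Fin n) (c : F), g • (ev j : Fin n → F) = c • ev i := Iff.rfl

theorem mono_fld [Finite F] (σ : F ≃+* F) (g : Matrix.SpecialLinearGroup (Fin n) F)
    (hg : g ∈ mono n F) : fld σ g ∈ mono n F := by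
  rw [mem_mono] at hg ⊢
  intro j
  obtain ⟨i, c, hc⟩ := hg j
  refine ⟨i, σ c, ?_⟩
  have h1 := fld_smul σ g (ev j : Fin n → F)
  have h2 : ∀ k : Fin n, (fun i => σ ((ev k : Fin n → F) i)) = (ev k : Fin n → F) := by
    intro k
    ext l
    by_cases hkl : l = k
    · subst hkl
      rw [show (ev l : Fin n → F) l = 1 from Pi.single_eq_same _ _, map_one]
    · rw [show (ev k : Fin n → F) l = 0 from Pi.single_eq_of_ne hkl _, map_zero]
  rw [h2] at h1
  rw [← h1, hc]
  ext l
  rw [Pi.smul_apply, smul_eq_mul, map_mul, Pi.smul_apply, smul_eq_mul]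
  congr 1
  exact congrFun (h2 i) l

/-- The diagonal element `diag(a, a⁻¹)` at `i`, `j`. -/
theorem diag_smul {i j : Fin n} (hij : i ≠ j) (a : F) (ha : a ≠ 0) (v : Fin n → F) :
    (Matrix.SpecialLinearGroup.diag2n hij a ha) • v = v + ((a - 1) * v i) • ev i +
      ((a⁻¹ - 1) * v j) • ev j :=
  Cfsg.Agent.LieClassical.SLGen.diag2n_smul hij a ha v

/-- The Weyl element. -/
def wl {i j : Fin n} (hij : i ≠ j) : Matrix.SpecialLinearGroup (Fin n) F :=
  Matrix.SpecialLinearGroup.transvection hij 1 *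
    Matrix.SpecialLinearGroup.transvection hij.symm (-1) *
    Matrix.SpecialLinearGroup.transvection hij 1

theorem wl_smul {i j : Fin n} (hij : i ≠ j) (v : Fin n → F) :
    (wl hij : Matrix.SpecialLinearGroup (Fin n) F) • v =
      v + (v j - v i) • ev i + (-v i - v j) • ev j := by
  rw [wl, mul_smul, mul_smul, Cfsg.Agent.LieClassical.SLGen.transvection_smul,
    Cfsg.Agent.LieClassical.SLGen.transvection_smul,
    Cfsg.Agent.LieClassical.SLGen.transvection_smul]
  ext k
  by_cases hk : k = i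
  · subst hk
    simp [hij]
  · by_cases hk' : k = j
    · subst hk'
      simp [hk]
    · simp [hk, hk']

theorem diag_mem [Finite F] {i j : Fin n} (hij : i ≠ j) (a : F) (ha : a ≠ 0) :
    Matrix.SpecialLinearGroup.diag2n hij a ha ∈ mono n F := by
  rw [mem_mono]
  intro k
  by_cases hk : k = i
  · subst hk
    refine ⟨k, a, ?_⟩
    rw [diag_smul]
    ext l
    simp only [Pi.add_apply, Pi.smul_apply, smul_eq_mul, Pi.single_eq_same,
      Pi.single_eq_of_ne hij.symm, mul_zero, zero_mul, add_zero]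
    ring
  · by_cases hk' : k = j
    · subst hk'
      refine ⟨k, a⁻¹, ?_⟩
      rw [diag_smul]
      ext l
      simp only [Pi.add_apply, Pi.smul_apply, smul_eq_mul, Pi.single_eq_same,
        Pi.single_eq_of_ne hij, mul_zero, zero_mul, add_zero]
      ring
    · refine ⟨k, 1, ?_⟩
      rw [diag_smul]
      ext l
      simp only [Pi.add_apply, Pi.smul_apply, smul_eq_mul,
        Pi.single_eq_of_ne (Ne.symm hk), Pi.single_eq_of_ne (Ne.symm hk'), mul_zero, zero_mul,
        add_zero, one_mul]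

theorem wl_mem [Finite F] {i j : Fin n} (hij : i ≠ j) :
    (wl hij : Matrix.SpecialLinearGroup (Fin n) F) ∈ mono n F := by
  rw [mem_mono]
  intro k
  by_cases hk : k = i
  · subst hk
    refine ⟨j, -1, ?_⟩
    rw [wl_smul]
    ext l
    simp only [Pi.add_apply, Pi.smul_apply, smul_eq_mul, Pi.single_eq_same,
      Pi.single_eq_of_ne hij.symm]
    ring
  · by_cases hk' : k = j
    · subst hk'
      refine ⟨i, 1, ?_⟩
      rw [wl_smul]
      ext l
      simp only [Pi.add_apply, Pi.smul_apply, smul_eq_mul, Pi.single_eq_same,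
        Pi.single_eq_of_ne hij]
      ring
    · refine ⟨k, 1, ?_⟩
      rw [wl_smul]
      ext l
      simp only [Pi.add_apply, Pi.smul_apply, smul_eq_mul,
        Pi.single_eq_of_ne (Ne.symm hk), Pi.single_eq_of_ne (Ne.symm hk')]
      ring

theorem wl_diag {i j : Fin n} (hij : i ≠ j) (a : F) (ha : a ≠ 0) :
    (wl hij : Matrix.SpecialLinearGroup (Fin n) F) * Matrix.SpecialLinearGroup.diag2n hij a ha
      = Matrix.SpecialLinearGroup.diag2n hij a⁻¹ (inv_ne_zero ha) * wl hij := by
  apply Cfsg.Agent.LieClassical.SLGen.smul_ext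
  intro v
  rw [mul_smul, mul_smul, diag_smul, wl_smul, wl_smul, diag_smul]
  ext k
  by_cases hk : k = i
  · subst hk
    simp only [hij, _root_.Pi.add_apply, _root_.Pi.smul_apply, _root_.ne_eq, _root_.not_false_eq_true, _root_.Pi.single_eq_of_ne', _root_.smul_eq_mul, _root_.MulZeroClass.mul_zero, _root_.add_zero, _root_.Pi.single_eq_same, _root_.mul_one, _root_.Pi.single_eq_of_ne, _root_.neg_add_rev, _root_.add_sub_cancel, _root_.inv_inv, _root_.mul_neg, _root_.neg_smul, _root_.Pi.neg_apply, _root_.neg_zero]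
  · by_cases hk' : k = j
    · subst hk'
      simp only [hk, hij, _root_.Pi.add_apply, _root_.Pi.smul_apply, _root_.ne_eq, _root_.not_false_eq_true, _root_.Pi.single_eq_of_ne, _root_.smul_eq_mul, _root_.MulZeroClass.mul_zero, _root_.add_zero, _root_.Pi.single_eq_same, _root_.mul_one, _root_.neg_add_rev, _root_.add_sub_cancel, _root_.inv_inv, _root_.mul_neg, _root_.neg_smul, _root_.Pi.neg_apply]
      ring
    · simp only [hk, hk', _root_.Pi.add_apply, _root_.Pi.smul_apply, _root_.smul_eq_mul, _root_.Pi.single_eq_same, _root_.mul_one, _root_.neg_add_rev, _root_.ne_eq, _root_.not_false_eq_true, _root_.Pi.single_eq_of_ne, _root_.MulZeroClass.mul_zero, _root_.add_zero, _root_.add_sub_cancel, _root_.inv_inv]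

theorem diag_pow {i j : Fin n} (hij : i ≠ j) (a : F) (ha : a ≠ 0) (k : ℕ) :
    (Matrix.SpecialLinearGroup.diag2n hij a ha) ^ k
      = Matrix.SpecialLinearGroup.diag2n hij (a ^ k) (pow_ne_zero k ha) := by
  induction k with
  | zero =>
    apply Cfsg.Agent.LieClassical.SLGen.smul_ext
    intro v
    rw [diag_smul]
    simp
  | succ k ih =>
    rw [pow_succ, ih]
    apply Cfsg.Agent.LieClassical.SLGen.smul_ext
    intro v
    rw [mul_smul, diag_smul, diag_smul, diag_smul]
    ext l
    by_cases hl : l = i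
    · subst hl
      simp only [hij, _root_.Pi.add_apply, _root_.Pi.smul_apply, _root_.Pi.single_eq_same, _root_.smul_eq_mul, _root_.mul_one, _root_.ne_eq, _root_.not_false_eq_true, _root_.Pi.single_eq_of_ne, _root_.MulZeroClass.mul_zero, _root_.add_zero, _root_.Pi.single_eq_of_ne']
      ring
    · by_cases hl' : l = j
      · subst hl'
        simp only [hl, hij, _root_.Pi.add_apply, _root_.Pi.smul_apply, _root_.Pi.single_eq_same, _root_.smul_eq_mul, _root_.mul_one, _root_.ne_eq, _root_.not_false_eq_true, _root_.Pi.single_eq_of_ne, _root_.MulZeroClass.mul_zero, _root_.add_zero]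
        ring
      · simp [hl, hl']

theorem diag_one {i j : Fin n} (hij : i ≠ j) :
    (Matrix.SpecialLinearGroup.diag2n hij (1 : F) one_ne_zero) = 1 := by
  apply Cfsg.Agent.LieClassical.SLGen.smul_ext
  intro v
  rw [diag_smul]
  simp

theorem diag_inv {i j : Fin n} (hij : i ≠ j) (a : F) (ha : a ≠ 0) :
    (Matrix.SpecialLinearGroup.diag2n hij a ha)⁻¹
      = Matrix.SpecialLinearGroup.diag2n hij a⁻¹ (inv_ne_zero ha) := by
  rw [inv_eq_iff_mul_eq_one]
  apply Cfsg.Agent.LieClassical.SLGen.smul_ext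
  intro v
  rw [mul_smul, diag_smul, diag_smul, one_smul]
  ext l
  by_cases hl : l = i
  · subst hl
    simp [hij]
    field_simp
    ring
  · by_cases hl' : l = j
    · subst hl'
      simp [hl]
      field_simp
      ring
    · simp [hl, hl']

theorem mono_irr [Finite F] (hn : 2 ≤ n) {a : F} (ha : a ≠ 0) (ha2 : a ^ 2 ≠ 1) :
    Irr (mono n F) := by
  intro U hU
  by_cases hU1 : U = ⊥
  · exact Or.inl hU1
  right
  obtain ⟨v, hv, hv0⟩ := Submodule.exists_mem_ne_zero_of_ne_bot hU1
  obtain ⟨i, hi⟩ := Function.ne_iff.1 hv0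
  have hi' : v i ≠ 0 := hi
  have hnt : Nontrivial (Fin n) := Fin.nontrivial_iff_two_le.2 hn
  obtain ⟨j, hj⟩ := exists_ne i
  have ha1 : a ≠ 1 := by
    rintro rfl
    exact ha2 (one_pow 2)
  -- `w = α e_i + β e_j`
  have h1 : ((a - 1) * v i) • (ev i : Fin n → F) + ((a⁻¹ - 1) * v j) • (ev j : Fin n → F) ∈ U := by
    have h2 := hU _ (diag_mem hj.symm a ha) v hv
    rw [diag_smul, add_assoc, U.add_mem_iff_right hv] at h2
    exact h2
  have h2 := hU _ (diag_mem hj.symm a ha) _ h1
  have h3 : ((a - 1) * v i * (a - a⁻¹)) • (ev i : Fin n → F) ∈ U := by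
    have h4 := U.sub_mem h2 (U.smul_mem a⁻¹ h1)
    convert h4 using 1
    rw [diag_smul]
    ext l
    by_cases hl : l = i
    · subst hl
      simp only [hj.symm, hj, _root_.Pi.smul_apply, _root_.Pi.single_eq_same, _root_.smul_eq_mul, _root_.mul_one, _root_.Pi.add_apply, _root_.ne_eq, _root_.not_false_eq_true, _root_.Pi.single_eq_of_ne, _root_.MulZeroClass.mul_zero, _root_.add_zero, _root_.zero_add, _root_.smul_add, _root_.Pi.sub_apply]
      ring
    · by_cases hl' : l = j
      · subst hl'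
        simp only [hj, _root_.Pi.smul_apply, _root_.ne_eq, _root_.not_false_eq_true, _root_.Pi.single_eq_of_ne, _root_.smul_eq_mul, _root_.MulZeroClass.mul_zero, _root_.Pi.add_apply, _root_.Pi.single_eq_same, _root_.mul_one, _root_.Pi.single_eq_of_ne', _root_.add_zero, _root_.zero_add, _root_.smul_add, _root_.Pi.sub_apply]
        ring
      · simp only [hl, hl', _root_.Pi.smul_apply, _root_.ne_eq, _root_.not_false_eq_true, _root_.Pi.single_eq_of_ne, _root_.smul_eq_mul, _root_.MulZeroClass.mul_zero, _root_.Pi.add_apply, _root_.Pi.single_eq_same, _root_.mul_one, _root_.smul_add, _root_.Pi.sub_apply, _root_.add_zero, _root_.sub_self]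
  have h4 : (ev i : Fin n → F) ∈ U := by
    rw [U.smul_mem_iff] at h3
    · exact h3
    · apply mul_ne_zero (mul_ne_zero (sub_ne_zero.2 ha1) hi')
      intro h5
      apply ha2
      have h6 : a = a⁻¹ := sub_eq_zero.1 h5
      rw [pow_two]
      nth_rewrite 2 [h6]
      exact mul_inv_cancel₀ ha
  apply eq_top_of_ev
  intro k
  by_cases hk : k = i
  · rw [hk]; exact h4
  · have h5 := hU _ (wl_mem (Ne.symm hk)) _ h4
    rw [wl_smul] at h5
    have h6 : (ev i : Fin n → F) + ((ev i : Fin n → F) k - (ev i : Fin n → F) i) • ev i +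
        (-(ev i : Fin n → F) i - (ev i : Fin n → F) k) • ev k = -(ev k : Fin n → F) := by
      ext l
      simp only [Pi.add_apply, Pi.smul_apply, smul_eq_mul, Pi.single_eq_same,
        Pi.single_eq_of_ne hk, Pi.neg_apply]
      ring
    rw [h6] at h5
    exact U.neg_mem_iff.1 h5

theorem mono_ne_top [Finite F] (hn : 2 ≤ n) : mono n F ≠ ⊤ := by
  intro h
  have hnt : Nontrivial (Fin n) := Fin.nontrivial_iff_two_le.2 hn
  obtain ⟨i, j, hij⟩ := exists_pair_ne (Fin n)
  have h1 : (Matrix.SpecialLinearGroup.transvection hij (1 : F)) ∈ mono n F :=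
    h ▸ Subgroup.mem_top _
  obtain ⟨k, c, hk⟩ := h1 j
  rw [Cfsg.Agent.LieClassical.SLGen.transvection_smul] at hk
  have h2 := congrFun hk i
  have h3 := congrFun hk j
  simp only [Pi.add_apply, Pi.smul_apply, smul_eq_mul, Pi.single_eq_same,
    Pi.single_eq_of_ne hij, Pi.single_eq_of_ne hij.symm, mul_one, mul_zero, zero_add,
    add_zero] at h2 h3
  by_cases hki : k = i
  · subst hki
    have h4 : (ev k : Fin n → F) j = 0 := Pi.single_eq_of_ne hij.symm _
    rw [h4, mul_zero] at h3
    exact one_ne_zero h3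
  · have h4 : (ev k : Fin n → F) i = 0 := Pi.single_eq_of_ne (Ne.symm hki) _
    rw [h4, mul_zero] at h2
    exact one_ne_zero h2

variable {p : ℕ} [hp : Fact p.Prime]

theorem mono_not_hnc (hp2 : p ≠ 2) [Finite F] (hn : 2 ≤ n) {a : F} (ha1 : a ≠ 1) (hap : a ^ p = 1) :
    ¬ HasNormalPComplement p (mono n F) := by
  have hnt : Nontrivial (Fin n) := Fin.nontrivial_iff_two_le.2 hn
  obtain ⟨i, j, hij⟩ := exists_pair_ne (Fin n)
  have ha : a ≠ 0 := by
    rintro rfl
    rw [zero_pow hp.out.ne_zero] at hap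
    exact zero_ne_one hap
  refine not_hnc_of_inverts hp2 (x := (⟨_, diag_mem hij a ha⟩ : mono n F))
    (y := ⟨_, wl_mem hij⟩) ?_ ?_ ?_
  · intro h
    have h1 := congrArg Subtype.val h
    apply ha1
    have h2 := congrArg (fun g : Matrix.SpecialLinearGroup (Fin n) F => (g • (ev i : Fin n → F)) i) h1
    change ((Matrix.SpecialLinearGroup.diag2n hij a ha) • (ev i : Fin n → F)) i
      = ((1 : Matrix.SpecialLinearGroup (Fin n) F) • (ev i : Fin n → F)) i at h2
    rw [diag_smul, one_smul] at h2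
    simp only [Pi.add_apply, Pi.smul_apply, smul_eq_mul, Pi.single_eq_same,
      Pi.single_eq_of_ne hij, mul_one, mul_zero, add_zero, add_sub_cancel] at h2
    exact h2
  · apply Subtype.ext
    change (Matrix.SpecialLinearGroup.diag2n hij a ha) ^ p = 1
    rw [diag_pow]
    have h1 : ∀ (b : F) (hb : b ≠ 0), b = 1 →
        (Matrix.SpecialLinearGroup.diag2n hij b hb) = 1 := by
      rintro b hb rfl
      exact diag_one hij
    exact h1 _ _ hap
  · apply Subtype.ext
    change wl hij * Matrix.SpecialLinearGroup.diag2n hij a ha * (wl hij)⁻¹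
      = (Matrix.SpecialLinearGroup.diag2n hij a ha)⁻¹
    rw [wl_diag, mul_inv_cancel_right, diag_inv]

end mono

section ctx2

variable {Q : Type*} [Group Q] [Finite Q] {p : ℕ} [hp : Fact p.Prime]
variable {n : ℕ} {F : Type*} [Field F] [Fintype F] {N : Subgroup Q} {r : ℕ}

/-- `p` does not divide `|F| - 1`. -/
theorem Ctx.not_dvd (C : Ctx p Q N r n F) (e : Matrix.SpecialLinearGroup (Fin n) F ≃* N)
    (hp2 : p ≠ 2) : ¬ p ∣ Fintype.card F - 1 := by
  classical
  intro h
  obtain ⟨u, hu⟩ := exists_prime_orderOf_dvd_card' (G := Fˣ) p (by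
    rw [Nat.card_eq_fintype_card, Fintype.card_units]
    exact h)
  have hu1 : (u : F) ≠ 1 := by
    intro h1
    have h2 : u = 1 := Units.ext h1
    rw [h2, orderOf_one] at hu
    exact hp.out.one_lt.ne hu
  have hup : (u : F) ^ p = 1 := by
    rw [← Units.val_pow_eq_pow_val, ← hu, pow_orderOf_eq_one, Units.val_one]
  have hu2 : (u : F) ^ 2 ≠ 1 := by
    intro h1
    have h2 : u ^ 2 = 1 := by
      apply Units.ext
      rw [Units.val_pow_eq_pow_val, h1, Units.val_one]
    have h3 : orderOf u ∣ 2 := orderOf_dvd_of_pow_eq_one h2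
    rw [hu, Nat.prime_dvd_prime_iff_eq hp.out Nat.prime_two] at h3
    exact hp2 h3
  exact mono_not_hnc hp2 C.two hu1 hup
    (C.irr_hnc e (mono n F) (fun σ y hy => mono_fld σ y hy) (mono_irr C.two u.ne_zero hu2)
      (mono_ne_top C.two))

end ctx2

end Cfsg.Agent.H579.SLRed
end

private theorem dce_3ecdcc0e3fd7 : _root_.True := by
  try have : _root_.True := by simp only [_root_.Cfsg.Agent.H579.SLRed.perp.eq_1]
  try have : _root_.True := by simp only [_root_.Cfsg.Agent.H579.SLRed.wl.eq_1]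
  exact _root_.True.intro
end

-- part: H579/SLPar
section
prune_inst 0x41010754457e212000018001200003c32b0000400004b8800696003020809e062850206400800041012a880800001002813000020420000000a00000000050501000006049008010802008e000000000000000000000000000000000000000000200000000
set_option linter.all false
open scoped Cfsg.Agent.FastGrp

set_option autoImplicit false

namespace Cfsg.Agent.H579.SLRed

open Cfsg Subgroup Cfsg.Agent.Transfer.PNilpotentBasic Matrix
open Cfsg.Agent.H579.MaxPNilRed Cfsg.Agent.H579.SLStab Cfsg.Agent.H579.SLAut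
open Cfsg.Agent.ClassicalGeometry.AutPSL.Root
open Cfsg.Agent.ClassicalGeometry.AutPSL.Auto
open scoped LinearAlgebra.Projectivization

/-- A perfect group of order divisible by `p` has no normal `p`-complement. -/
theorem not_hnc_of_perfect {p : ℕ} [hp : Fact p.Prime] {G : Type*} [Group G] [Finite G]
    (h : commutator G = ⊤) (hpG : p ∣ Nat.card G) : ¬ HasNormalPComplement p G := by
  intro hG
  obtain ⟨K, hK, h1, k, h2⟩ :=
    Cfsg.Agent.OddOrderLocal.NilpotentQuotient.exists_of_hasNormalPComplement hG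
  have h3 : IsPGroup p (G ⧸ K) := IsPGroup.of_card (n := k) (by
    rw [← Subgroup.index_eq_card]; exact h2)
  have h4 : Group.IsNilpotent (G ⧸ K) := h3.isNilpotent
  have h5 : commutator (G ⧸ K) = ⊤ := by
    have h6 := Subgroup.map_commutator (⊤ : Subgroup G) ⊤ (QuotientGroup.mk' K)
    rw [Subgroup.map_top_of_surjective _ (QuotientGroup.mk'_surjective K)] at h6
    rw [commutator_def, ← h6, ← commutator_def, h,
      Subgroup.map_top_of_surjective _ (QuotientGroup.mk'_surjective K)]
  have h6 : Subsingleton (G ⧸ K) := by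
    by_contra hns
    rw [not_subsingleton_iff_nontrivial] at hns
    exact (Group.IsSolvable.commutator_lt_top_of_nontrivial (G ⧸ K)).ne h5
  have h7 : K = ⊤ := by
    rw [← Subgroup.index_eq_one, Subgroup.index_eq_card]
    exact Nat.card_eq_one_iff_unique.2 ⟨h6, ⟨1⟩⟩
  apply h1
  rw [h7, Subgroup.card_top]
  exact hpG

section orders

variable {F : Type*} [Field F] [Fintype F] {p : ℕ} [hp : Fact p.Prime]

theorem dvd_card_GL {m i : ℕ} (h1 : 1 ≤ i) (h2 : i ≤ m) (h : p ∣ Fintype.card F ^ i - 1) :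
    p ∣ Nat.card (GL (Fin m) F) := by
  rw [Matrix.card_GL_field]
  have hm : m - i < m := by omega
  refine Dvd.dvd.trans ?_ (Finset.dvd_prod_of_mem _ (Finset.mem_univ (⟨m - i, hm⟩ : Fin m)))
  change p ∣ Fintype.card F ^ m - Fintype.card F ^ (m - i)
  have h3 : Fintype.card F ^ m - Fintype.card F ^ (m - i)
      = Fintype.card F ^ (m - i) * (Fintype.card F ^ i - 1) := by
    rw [Nat.mul_sub, mul_one, ← pow_add, Nat.sub_add_cancel h2]
  rw [h3]
  exact Dvd.dvd.mul_left h _

theorem dvd_card_SL {m i : ℕ} (h1 : 1 ≤ i) (h2 : i ≤ m) (h : p ∣ Fintype.card F ^ i - 1)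
    (h0 : ¬ p ∣ Fintype.card F - 1) : p ∣ Nat.card (Matrix.SpecialLinearGroup (Fin m) F) := by
  have hne : Nonempty (Fin m) := ⟨⟨0, by omega⟩⟩
  have h3 := dvd_card_GL (F := F) h1 h2 h
  rw [← Cfsg.Agent.ClassicalGeometry.PSL2Basic.card_SL_mul] at h3
  exact (hp.out.dvd_mul.1 h3).resolve_right h0

theorem char_dvd_card_SL {m : ℕ} (hm : 2 ≤ m) (h : p ∣ Fintype.card F) :
    p ∣ Nat.card (Matrix.SpecialLinearGroup (Fin m) F) := by
  have hne : Nonempty (Fin m) := ⟨⟨0, by omega⟩⟩
  have h3 : p ∣ Nat.card (GL (Fin m) F) := by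
    rw [Matrix.card_GL_field]
    refine Dvd.dvd.trans ?_ (Finset.dvd_prod_of_mem _ (Finset.mem_univ (⟨1, by omega⟩ : Fin m)))
    change p ∣ Fintype.card F ^ m - Fintype.card F ^ 1
    exact Nat.dvd_sub (h.trans (dvd_pow_self _ (by omega))) (h.trans (dvd_pow_self _ (by omega)))
  rw [← Cfsg.Agent.ClassicalGeometry.PSL2Basic.card_SL_mul] at h3
  refine (hp.out.dvd_mul.1 h3).resolve_right fun h4 => ?_
  have h5 : 1 ≤ Fintype.card F := Fintype.card_pos
  have h6 : p ∣ 1 := (Nat.dvd_sub_iff_right h5 h).1 h4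
  exact hp.out.one_lt.ne' (Nat.dvd_one.1 h6)

theorem sl_not_hnc {m : ℕ} (hm : 3 ≤ m)
    (h : p ∣ Nat.card (Matrix.SpecialLinearGroup (Fin m) F)) :
    ¬ HasNormalPComplement p (Matrix.SpecialLinearGroup (Fin m) F) :=
  not_hnc_of_perfect (Cfsg.Agent.LieClassical.SLGen.commutator_eq_top
    (by rw [Fintype.card_fin]; exact hm)) h

end orders

section plane

variable {F : Type*} [Field F] {m : ℕ}

/-- The plane spanned by the first two unit vectors. -/
def plane (m : ℕ) (F : Type*) [Field F] : Submodule F (Fin (2 + m) → F) where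
  carrier := {v | ∀ k : Fin m, v (Fin.natAdd 2 k) = 0}
  zero_mem' := fun _ => rfl
  add_mem' := fun {a b} ha hb k => by
    have h1 : a (Fin.natAdd 2 k) = 0 := ha k
    have h2 : b (Fin.natAdd 2 k) = 0 := hb k
    rw [Pi.add_apply, h1, h2, add_zero]
  smul_mem' := fun c a ha k => by
    have h1 : a (Fin.natAdd 2 k) = 0 := ha k
    rw [Pi.smul_apply, h1, smul_zero]

theorem mem_plane {v : Fin (2 + m) → F} : v ∈ plane m F ↔ ∀ k : Fin m, v (Fin.natAdd 2 k) = 0 :=
  Iff.rfl

/-- The corner embedding. -/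
def corner : Matrix.SpecialLinearGroup (Fin m) F →* Matrix.SpecialLinearGroup (Fin (2 + m)) F where
  toFun A := ⟨Matrix.reindex finSumFinEquiv finSumFinEquiv (Matrix.fromBlocks 1 0 0 A.1), by
    rw [Matrix.det_reindex_self, Matrix.det_fromBlocks_zero₁₂, det_one, one_mul, A.2]⟩
  map_one' := by
    apply Subtype.ext
    change Matrix.reindex finSumFinEquiv finSumFinEquiv (Matrix.fromBlocks 1 0 0
      (1 : Matrix (Fin m) (Fin m) F)) = 1
    rw [Matrix.fromBlocks_one, Matrix.reindex_apply, Matrix.submatrix_one_equiv]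
  map_mul' A B := by
    apply Subtype.ext
    change Matrix.reindex finSumFinEquiv finSumFinEquiv (Matrix.fromBlocks 1 0 0 (A.1 * B.1))
      = Matrix.reindex finSumFinEquiv finSumFinEquiv (Matrix.fromBlocks 1 0 0 A.1) *
        Matrix.reindex finSumFinEquiv finSumFinEquiv (Matrix.fromBlocks 1 0 0 B.1)
    rw [Matrix.reindex_apply, Matrix.reindex_apply, Matrix.reindex_apply,
      Matrix.submatrix_mul_equiv, Matrix.fromBlocks_multiply]
    simp only [_root_.mul_one, _root_.Matrix.mul_zero, _root_.add_zero, _root_.Matrix.zero_mul, _root_.Matrix.mul_one, _root_.zero_add]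

theorem corner_injective : Function.Injective (corner : Matrix.SpecialLinearGroup (Fin m) F →* _) := by
  intro A B h
  apply Subtype.ext
  have h1 : Matrix.reindex finSumFinEquiv finSumFinEquiv (Matrix.fromBlocks 1 0 0 A.1)
      = Matrix.reindex finSumFinEquiv finSumFinEquiv (Matrix.fromBlocks 1 0 0 B.1) :=
    congrArg Subtype.val h
  have h2 := (Matrix.reindex finSumFinEquiv finSumFinEquiv).injective h1
  exact (Matrix.fromBlocks_inj.1 h2).2.2.2

theorem corner_smul (A : Matrix.SpecialLinearGroup (Fin m) F) {v : Fin (2 + m) → F}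
    (hv : v ∈ plane m F) : corner A • v = v := by
  have h0 : v ∘ finSumFinEquiv = Sum.elim (fun i : Fin 2 => v (Fin.castAdd m i)) 0 := by
    funext x
    rcases x with i | k
    · simp
    · simp only [Function.comp_apply, finSumFinEquiv_apply_right, Sum.elim_inr, Pi.zero_apply]
      exact hv k
  change (Matrix.reindex finSumFinEquiv finSumFinEquiv (Matrix.fromBlocks 1 0 0 A.1)) *ᵥ v = v
  rw [Matrix.reindex_apply, Matrix.submatrix_mulVec_equiv, Equiv.symm_symm, h0,
    Matrix.fromBlocks_mulVec]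
  simp only [one_mulVec, mulVec_zero, add_zero, zero_mulVec, Sum.elim_comp_inl,
    Sum.elim_comp_inr]
  rw [← h0]
  funext x
  simp

theorem plane_fld (σ : F ≃+* F) {g : Matrix.SpecialLinearGroup (Fin (2 + m)) F}
    (hg : g ∈ Stab (plane m F)) : fld σ g ∈ Stab (plane m F) := by
  have h := semi_smul (B := 1) (σ := σ) hg
  have h1 : semi 1 σ (plane m F) = plane m F := by
    ext v
    rw [mem_semi, mem_plane, mem_plane]
    constructor
    · intro h2 k
      have h3 := h2 k
      rw [inv_one, one_smul] at h3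
      exact (map_eq_zero_iff σ.symm σ.symm.injective).1 h3
    · intro h2 k
      rw [inv_one, one_smul, h2 k, map_zero]
  rw [h1, one_mul, inv_one, mul_one] at h
  exact h

theorem plane_ne_bot : plane m F ≠ ⊥ := by
  intro h
  have h1 : (ev (Fin.castAdd m 0) : Fin (2 + m) → F) ∈ plane m F := by
    intro k
    apply Pi.single_eq_of_ne
    intro h2
    have h3 := congrArg Fin.val h2
    simp at h3
  rw [h, Submodule.mem_bot] at h1
  exact ev_ne_zero _ h1

theorem plane_ne_top (hm : 0 < m) : plane m F ≠ ⊤ := by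
  intro h
  have h1 : (ev (Fin.natAdd 2 ⟨0, hm⟩) : Fin (2 + m) → F) ∈ plane m F := h ▸ Submodule.mem_top
  have h2 : (ev (Fin.natAdd 2 ⟨0, hm⟩) : Fin (2 + m) → F) (Fin.natAdd 2 ⟨0, hm⟩) = 0 := h1 _
  rw [show (ev (Fin.natAdd 2 ⟨0, hm⟩) : Fin (2 + m) → F) (Fin.natAdd 2 ⟨0, hm⟩) = 1 from
    Pi.single_eq_same _ _] at h2
  exact one_ne_zero h2

theorem stab_plane_not_hnc {p : ℕ} [hp : Fact p.Prime] [Fintype F] (hm : 3 ≤ m)
    (h : p ∣ Nat.card (Matrix.SpecialLinearGroup (Fin m) F)) :
    ¬ HasNormalPComplement p (Stab (plane m F)) := by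
  intro hh
  apply sl_not_hnc hm h
  refine hnc_of_injective (corner.codRestrict (Stab (plane m F)) fun A => ?_) ?_ hh
  · apply mem_Stab_of_maps
    intro w hw
    rw [corner_smul A hw]
    exact hw
  · intro A B hAB
    exact corner_injective (congrArg Subtype.val hAB)

/-- Two-transitivity on the projective space. -/
theorem exists_pair {n : ℕ} {i j : Fin n} (hij : i ≠ j) {v w : Fin n → F} (hv : v ≠ 0)
    (hw : w ∉ Submodule.span F {v}) :
    ∃ (g : Matrix.SpecialLinearGroup (Fin n) F) (c d : F),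
      g • (c • ev i : Fin n → F) = v ∧ g • (d • ev j : Fin n → F) = w := by
  have hw0 : w ≠ 0 := by
    rintro rfl
    exact hw (Submodule.zero_mem _)
  have h2 : MulAction.IsMultiplyPretransitive (Matrix.SpecialLinearGroup (Fin n) F)
      (ℙ F (Fin n → F)) 2 := inferInstance
  rw [MulAction.is_two_pretransitive_iff] at h2
  have h3 : Projectivization.mk F (ev i : Fin n → F) (ev_ne_zero i)
      ≠ Projectivization.mk F (ev j : Fin n → F) (ev_ne_zero j) := by
    intro h
    rw [Projectivization.mk_eq_mk_iff'] at h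
    obtain ⟨a, ha⟩ := h
    have h4 := congrFun ha i
    rw [Pi.smul_apply, show (ev j : Fin n → F) i = 0 from Pi.single_eq_of_ne hij _,
      show (ev i : Fin n → F) i = 1 from Pi.single_eq_same _ _, smul_zero] at h4
    exact zero_ne_one h4
  have h4 : Projectivization.mk F v hv ≠ Projectivization.mk F w hw0 := by
    intro h
    rw [Projectivization.mk_eq_mk_iff'] at h
    obtain ⟨a, ha⟩ := h
    have ha0 : a ≠ 0 := by
      rintro rfl
      rw [zero_smul] at ha
      exact hv ha.symm
    apply hw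
    rw [Submodule.mem_span_singleton]
    exact ⟨a⁻¹, by rw [← ha, smul_smul, inv_mul_cancel₀ ha0, one_smul]⟩
  obtain ⟨g, hg1, hg2⟩ := h2 h3 h4
  rw [Projectivization.smul_mk, Projectivization.mk_eq_mk_iff'] at hg1 hg2
  obtain ⟨a, ha⟩ := hg1
  obtain ⟨b, hb⟩ := hg2
  have hsm : ∀ (c : F) (u : Fin n → F), g • (c • u) = c • (g • u) := fun c u =>
    mulVec_smul (g : Matrix (Fin n) (Fin n) F) c u
  have ha0 : a ≠ 0 := by
    rintro rfl
    rw [zero_smul] at ha
    have h5 := congrArg (fun x => g⁻¹ • x) ha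
    simp only [smul_zero, inv_smul_smul] at h5
    exact ev_ne_zero _ h5.symm
  have hb0 : b ≠ 0 := by
    rintro rfl
    rw [zero_smul] at hb
    have h5 := congrArg (fun x => g⁻¹ • x) hb
    simp only [smul_zero, inv_smul_smul] at h5
    exact ev_ne_zero _ h5.symm
  refine ⟨g, a⁻¹, b⁻¹, ?_, ?_⟩
  · rw [hsm, ← ha, smul_smul, inv_mul_cancel₀ ha0, one_smul]
  · rw [hsm, ← hb, smul_smul, inv_mul_cancel₀ hb0, one_smul]

/-- The number of planes is large. -/
theorem index_plane [Fintype F] :
    (Fintype.card F ^ (2 + m)) * (Fintype.card F ^ (2 + m)) ≤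
      Fintype.card F ^ (2 + m) + Fintype.card F * Fintype.card F ^ (2 + m) +
      (Stab (plane m F)).index * (Fintype.card F ^ 2 * Fintype.card F ^ 2) := by
  classical
  set V := Fin (2 + m) → F with hV
  let S := Matrix.SpecialLinearGroup (Fin (2 + m)) F ⧸ Stab (plane m F)
  let emb : (Fin 2 → F) → V := fun a k => if h : (k : ℕ) < 2 then a ⟨k, h⟩ else 0
  have hemb : ∀ v ∈ plane m F, ∃ a, emb a = v := by
    intro v hv
    refine ⟨fun i => v (Fin.castAdd m i), ?_⟩
    funext k
    change (if h : (k : ℕ) < 2 then v (Fin.castAdd m ⟨k, h⟩) else 0) = v k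
    by_cases h : (k : ℕ) < 2
    · rw [dif_pos h]
      rfl
    · rw [dif_neg h]
      have h1 := hv ⟨(k : ℕ) - 2, by omega⟩
      rw [← h1]
      congr 1
      apply Fin.ext
      change 2 + ((k : ℕ) - 2) = (k : ℕ)
      omega
  let f : V ⊕ (F × V) ⊕ (S × ((Fin 2 → F) × (Fin 2 → F))) → V × V :=
    Sum.elim (fun w => (0, w)) (Sum.elim (fun x => (x.2, x.1 • x.2))
      (fun x => (x.1.out • emb x.2.1, x.1.out • emb x.2.2)))
  have hf : Function.Surjective f := by
    rintro ⟨v, w⟩
    by_cases hv : v = 0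
    · exact ⟨Sum.inl w, by rw [hv]; rfl⟩
    by_cases hw : w ∈ Submodule.span F {v}
    · obtain ⟨c, hc⟩ := Submodule.mem_span_singleton.1 hw
      exact ⟨Sum.inr (Sum.inl (c, v)), by rw [← hc]; rfl⟩
    · have hij : (Fin.castAdd m 0 : Fin (2 + m)) ≠ Fin.castAdd m 1 := by
        intro h
        have h1 := congrArg Fin.val h
        simp at h1
      obtain ⟨g, c, d, hg1, hg2⟩ := exists_pair hij hv hw
      have h1 : (QuotientGroup.mk g : S).out⁻¹ * g ∈ Stab (plane m F) := by
        rw [← QuotientGroup.eq]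
        exact QuotientGroup.out_eq' _
      have h2 : (c • ev (Fin.castAdd m 0) : V) ∈ plane m F := by
        apply Submodule.smul_mem
        intro k
        apply Pi.single_eq_of_ne
        intro h2
        have h3 := congrArg Fin.val h2
        simp at h3
      have h3 : (d • ev (Fin.castAdd m 1) : V) ∈ plane m F := by
        apply Submodule.smul_mem
        intro k
        apply Pi.single_eq_of_ne
        intro h2
        have h3 := congrArg Fin.val h2
        simp at h3
        omega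
      obtain ⟨a, ha⟩ := hemb _ ((h1 _).2 h2)
      obtain ⟨b, hb⟩ := hemb _ ((h1 _).2 h3)
      refine ⟨Sum.inr (Sum.inr (QuotientGroup.mk g, (a, b))), ?_⟩
      change ((QuotientGroup.mk g : S).out • emb a, (QuotientGroup.mk g : S).out • emb b) = (v, w)
      rw [ha, hb, mul_smul, mul_smul, smul_inv_smul, smul_inv_smul, hg1, hg2]
  have h1 := Nat.card_le_card_of_surjective f hf
  rw [Nat.card_sum, Nat.card_sum, Nat.card_prod, Nat.card_prod, Nat.card_prod, Nat.card_prod] at h1
  have h2 : Nat.card V = Fintype.card F ^ (2 + m) := by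
    rw [Nat.card_eq_fintype_card]
    exact (Fintype.card_fun).trans (by rw [Fintype.card_fin])
  have h3 : Nat.card (Fin 2 → F) = Fintype.card F ^ 2 := by
    rw [Nat.card_eq_fintype_card, Fintype.card_fun, Fintype.card_fin]
  have h4 : Nat.card S = (Stab (plane m F)).index := rfl
  rw [h2, h3, h4, Nat.card_eq_fintype_card (α := F)] at h1
  omega

end plane

section ctx3

variable {Q : Type*} [Group Q] [Finite Q] {p : ℕ} [hp : Fact p.Prime]
variable {m : ℕ} {F : Type*} [Field F] [Fintype F] {N : Subgroup Q} {r : ℕ}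

theorem Ctx.not_dvd_levi (C : Ctx p Q N r (2 + m) F)
    (e : Matrix.SpecialLinearGroup (Fin (2 + m)) F ≃* N) (hm : 3 ≤ m) :
    ¬ p ∣ Nat.card (Matrix.SpecialLinearGroup (Fin m) F) := by
  intro h
  have hne : Stab (plane m F) ≠ ⊥ := by
    intro h1
    apply stab_plane_not_hnc (p := p) hm h
    apply hnc_of_coprime
    rw [h1, Subgroup.card_bot]
    exact Nat.coprime_one_left p
  rcases C.sub e (Stab (plane m F)) (fun σ y hy => plane_fld σ hy) hne
    (Stab_ne_top plane_ne_bot (plane_ne_top (by omega))) with h1 | ⟨W, hW1, hW2, hW3, hW4⟩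
  · exact stab_plane_not_hnc hm h h1
  · have hW := Stab_inj hW1 hW2 plane_ne_bot hW3
    rw [hW] at hW4
    have h1 := index_plane (m := m) (F := F)
    rw [hW4] at h1
    have h2 := C.eq
    have hq : 2 ≤ Fintype.card F := Fintype.one_lt_card
    set q := Fintype.card F with hqdef
    have h3 : q ^ 5 ≤ q ^ (2 + m) := Nat.pow_le_pow_right (by omega) (by omega)
    set A := q ^ (2 + m) with hA
    have hA1 : 1 ≤ A := Nat.one_le_pow _ _ (by omega)
    have h4 : A = r * (q - 1) + 1 := by omega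
    obtain ⟨s, hs⟩ : ∃ s, q = s + 2 := ⟨q - 2, by omega⟩
    have h5 : q - 1 = s + 1 := by omega
    rw [h5] at h4
    -- multiply by `q - 1`
    have h6 : (s + 1) * (A * A) ≤ (s + 1) * (A + q * A) + (A - 1) * (q ^ 2 * q ^ 2) := by
      have h7 : A - 1 = r * (s + 1) := by omega
      calc (s + 1) * (A * A) ≤ (s + 1) * (A + q * A + r * (q ^ 2 * q ^ 2)) :=
            Nat.mul_le_mul_left _ h1
        _ = (s + 1) * (A + q * A) + (A - 1) * (q ^ 2 * q ^ 2) := by rw [h7]; ring
    have h8 : (s + 1) * (A * A) < ((s + 1) * (1 + q) + q ^ 4) * A := by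
      have h9 : (A - 1) * (q ^ 2 * q ^ 2) < A * (q ^ 2 * q ^ 2) :=
        Nat.mul_lt_mul_of_pos_right (by omega) (by positivity)
      calc (s + 1) * (A * A) ≤ (s + 1) * (A + q * A) + (A - 1) * (q ^ 2 * q ^ 2) := h6
        _ < (s + 1) * (A + q * A) + A * (q ^ 2 * q ^ 2) := by omega
        _ = _ := by ring
    have h9 : (s + 1) * A < (s + 1) * (1 + q) + q ^ 4 := by
      have h10 : (s + 1) * A * A < ((s + 1) * (1 + q) + q ^ 4) * A := by
        calc (s + 1) * A * A = (s + 1) * (A * A) := by ring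
          _ < _ := h8
      exact lt_of_mul_lt_mul_right h10 (Nat.zero_le _)
    have h10 : (s + 1) * q ^ 5 < (s + 1) * (1 + q) + q ^ 4 :=
      lt_of_le_of_lt (Nat.mul_le_mul_left _ h3) h9
    rw [hs] at h10
    have h11 : (s + 1) * (1 + (s + 2)) + (s + 2) ^ 4 ≤ (s + 1) * (s + 2) ^ 5 := by
      linarith only [Nat.zero_le (s ^ 3), Nat.zero_le (s ^ 4), Nat.zero_le (s ^ 5), Nat.zero_le (s ^ 6), _root_.sq_nonneg (↑s : ℤ), _root_.Nat.cast_nonneg (α := ℤ) (s)]
    omega

end ctx3

end Cfsg.Agent.H579.SLRed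
end

-- part: H579/SLRefl
section
prune_inst 0x41000754447c010000018001240001c72b2000402004880002020070204884c60a0060861b830041212a888446031006802000020400000000a000000011801800000060080080008200086000080000000000000000000000000000000000000000000002
set_option linter.all false
open scoped Cfsg.Agent.FastGrp

set_option autoImplicit false

namespace Cfsg.Agent.H579.SLRed

open Cfsg Subgroup Cfsg.Agent.Transfer.PNilpotentBasic Matrix
open Cfsg.Agent.H579.MaxPNilRed Cfsg.Agent.H579.SLStab Cfsg.Agent.H579.SLAut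
open Cfsg.Agent.ClassicalGeometry.AutPSL.Root
open Cfsg.Agent.ClassicalGeometry.AutPSL.Auto

/-- A subgroup generated by involutions, of order divisible by the odd prime `p`, has no normal
`p`-complement. -/
theorem not_hnc_of_closure {p : ℕ} [hp : Fact p.Prime] (hp2 : p ≠ 2) {G : Type*} [Group G]
    [Finite G] (S : Set G) (hS : ∀ s ∈ S, s ^ 2 = 1) (hpG : p ∣ Nat.card (closure S)) :
    ¬ HasNormalPComplement p (closure S) := by
  intro hG
  obtain ⟨K, hK, h1, k, h2⟩ :=
    Cfsg.Agent.OddOrderLocal.NilpotentQuotient.exists_of_hasNormalPComplement hG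
  have h3 : ∀ x : closure S, x ^ 2 = 1 → x ∈ K := by
    intro x hx
    have h4 : (x : closure S ⧸ K) ^ 2 = 1 := by
      rw [← QuotientGroup.mk_pow, hx, QuotientGroup.mk_one]
    have h5 : (x : closure S ⧸ K) ^ (p ^ k) = 1 := by
      have h6 : Nat.card (closure S ⧸ K) = p ^ k := by
        rw [← Subgroup.index_eq_card]
        exact h2
      rw [← h6]
      exact pow_card_eq_one'
    have h6 : Nat.Coprime 2 (p ^ k) :=
      Nat.Coprime.pow_right k ((Nat.coprime_primes Nat.prime_two hp.out).2 (Ne.symm hp2))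
    rw [← QuotientGroup.eq_one_iff, ← orderOf_eq_one_iff]
    exact Nat.eq_one_of_dvd_coprimes h6 (orderOf_dvd_of_pow_eq_one h4)
      (orderOf_dvd_of_pow_eq_one h5)
  have h4 : closure S ≤ K.map (closure S).subtype := by
    rw [closure_le]
    intro s hs
    refine ⟨⟨s, Subgroup.subset_closure hs⟩, h3 _ ?_, rfl⟩
    exact Subtype.ext (hS s hs)
  have h5 : K = ⊤ := by
    rw [eq_top_iff]
    intro x _
    obtain ⟨y, hy, hyx⟩ := h4 x.2
    have : y = x := Subtype.ext hyx
    rwa [← this]
  apply h1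
  rw [h5, Subgroup.card_top]
  exact hpG

section form

variable {n m : ℕ} {F : Type*} [Field F] (e : Unit ⊕ (Fin m ⊕ Fin m) ≃ Fin n)

/-- The involution of the index set. -/
def tau (i : Fin n) : Fin n := e (Sum.map id Sum.swap (e.symm i))

theorem tau_tau (i : Fin n) : tau e (tau e i) = i := by
  have h1 : ∀ x : Unit ⊕ (Fin m ⊕ Fin m), Sum.map id Sum.swap (Sum.map id Sum.swap x) = x := by
    rintro (x | x | x) <;> rfl
  rw [tau, tau, Equiv.symm_apply_apply, h1, Equiv.apply_symm_apply]

/-- The fixed index. -/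
def mid : Fin n := e (Sum.inl ())

theorem tau_mid : tau e (mid e) = mid e := by
  rw [tau, mid, Equiv.symm_apply_apply]
  rfl

theorem tau_ne {i : Fin n} (hi : i ≠ mid e) : tau e i ≠ i := by
  intro h
  apply hi
  obtain ⟨x, rfl⟩ := e.surjective i
  rw [tau, Equiv.symm_apply_apply] at h
  have h1 := e.injective h
  rcases x with x | x | x
  · rfl
  · simp at h1
  · simp at h1

/-- The permutation of the index set. -/
def tauE : Fin n ≃ Fin n := ⟨tau e, tau e, tau_tau e, tau_tau e⟩

/-- The form. -/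
def bil (v w : Fin n → F) : F := (fun i => v (tau e i)) ⬝ᵥ w

theorem bil_comm (v w : Fin n → F) : bil e v w = bil e w v := by
  rw [bil, bil, dotProduct, dotProduct]
  rw [← Equiv.sum_comp (tauE e)]
  apply Finset.sum_congr rfl
  intro i _
  change v (tau e (tau e i)) * w (tau e i) = w (tau e i) * v i
  rw [tau_tau, mul_comm]

theorem bil_add (v w x : Fin n → F) : bil e v (w + x) = bil e v w + bil e v x :=
  dotProduct_add _ _ _

theorem bil_smul (c : F) (v w : Fin n → F) : bil e v (c • w) = c * bil e v w := by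
  rw [bil, dotProduct_smul, smul_eq_mul]
  rfl

theorem bil_neg (v w : Fin n → F) : bil e v (-w) = -bil e v w := dotProduct_neg _ _

theorem add_bil (v w x : Fin n → F) : bil e (v + w) x = bil e v x + bil e w x := by
  rw [bil_comm, bil_add, bil_comm e x v, bil_comm e x w]

theorem neg_bil (v w : Fin n → F) : bil e (-v) w = -bil e v w := by
  rw [bil_comm, bil_neg, bil_comm]

theorem bil_ev (i : Fin n) (w : Fin n → F) : bil e (ev i) w = w (tau e i) := by
  have h1 : (fun j => (ev i : Fin n → F) (tau e j)) = ev (tau e i) := by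
    funext j
    by_cases h : j = tau e i
    · rw [h, tau_tau, show (ev i : Fin n → F) i = 1 from Pi.single_eq_same _ _,
        show (ev (tau e i) : Fin n → F) (tau e i) = 1 from Pi.single_eq_same _ _]
    · rw [show (ev (tau e i) : Fin n → F) j = 0 from Pi.single_eq_of_ne h _]
      apply Pi.single_eq_of_ne
      intro h2
      apply h
      rw [← h2, tau_tau]
  rw [bil, h1, single_dotProduct, one_mul]

theorem bil_self (v : Fin n → F) : bil e v v = v (mid e) ^ 2 +
    2 * ((fun i => v (e (Sum.inr (Sum.inl i)))) ⬝ᵥ (fun i => v (e (Sum.inr (Sum.inr i))))) := by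
  rw [bil, dotProduct, ← Equiv.sum_comp e, Fintype.sum_sum_type, Fintype.sum_sum_type,
    Finset.univ_unique, Finset.sum_singleton, dotProduct]
  have h1 : ∀ x, tau e (e x) = e (Sum.map id Sum.swap x) := by
    intro x
    rw [tau, Equiv.symm_apply_apply]
  simp only [h1, Sum.map_inl, Sum.map_inr, id_eq, Sum.swap_inl, Sum.swap_inr]
  rw [mid, two_mul, pow_two]
  congr 2
  apply Finset.sum_congr rfl
  intro i _
  ring

/-- The negative of a reflection. -/
def rf (hn : Odd n) (v : Fin n → F) (hv : bil e v v ≠ 0) :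
    Matrix.SpecialLinearGroup (Fin n) F :=
  ⟨-(1 + vecMulVec ((-2 / bil e v v) • v) (fun i => v (tau e i))), by
    rw [det_neg, Fintype.card_fin, hn.neg_one_pow, vecMulVec_eq Unit,
      det_one_add_replicateCol_mul_replicateRow, dotProduct_smul]
    change -1 * (1 + (-2 / bil e v v) • bil e v v) = 1
    rw [smul_eq_mul]
    field_simp
    ring⟩

theorem rf_smul (hn : Odd n) (v : Fin n → F) (hv : bil e v v ≠ 0) (x : Fin n → F) :
    rf e hn v hv • x = -x + (2 * bil e v x / bil e v v) • v := by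
  change (-(1 + vecMulVec ((-2 / bil e v v) • v) (fun i => v (tau e i)))) *ᵥ x = _
  rw [neg_mulVec, add_mulVec, one_mulVec, vecMulVec_mulVec, op_smul_eq_smul]
  change -(x + (bil e v x) • ((-2 / bil e v v) • v)) = _
  rw [smul_smul, neg_add, ← neg_smul]
  congr 2
  field_simp

theorem rf_sq (hn : Odd n) (v : Fin n → F) (hv : bil e v v ≠ 0) :
    (rf e hn v hv) ^ 2 = 1 := by
  apply Cfsg.Agent.LieClassical.SLGen.smul_ext
  intro x
  rw [pow_two, mul_smul, rf_smul, rf_smul, bil_add, bil_neg, bil_smul, one_smul]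
  ext i
  simp only [Pi.add_apply, Pi.neg_apply, Pi.smul_apply, smul_eq_mul]
  field_simp
  ring

/-- The generators. -/
def gens (hn : Odd n) : Set (Matrix.SpecialLinearGroup (Fin n) F) :=
  {g | ∃ (v : Fin n → F) (hv : bil e v v ≠ 0), g = rf e hn v hv}

/-- The group generated by the negatives of the reflections. -/
def refl (hn : Odd n) : Subgroup (Matrix.SpecialLinearGroup (Fin n) F) := closure (gens e hn)

theorem bil_fld (σ : F ≃+* F) (v w : Fin n → F) :
    bil e (fun i => σ (v i)) (fun i => σ (w i)) = σ (bil e v w) := by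
  rw [bil, bil, dotProduct, dotProduct, map_sum]
  apply Finset.sum_congr rfl
  intro i _
  rw [map_mul]

theorem refl_fld (hn : Odd n) (σ : F ≃+* F) (g : Matrix.SpecialLinearGroup (Fin n) F)
    (hg : g ∈ refl e hn) : fld σ g ∈ refl e hn := by
  have h1 : (refl e hn).map (fld σ).toMonoidHom ≤ refl (F := F) e hn := by
    rw [refl, MonoidHom.map_closure, closure_le]
    rintro _ ⟨_, ⟨v, hv, rfl⟩, rfl⟩
    apply Subgroup.subset_closure
    have hv' : bil e (fun i => σ (v i)) (fun i => σ (v i)) ≠ 0 := by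
      rw [bil_fld]
      exact (map_ne_zero_iff σ σ.injective).2 hv
    refine ⟨fun i => σ (v i), hv', ?_⟩
    apply Cfsg.Agent.LieClassical.SLGen.smul_ext
    intro x
    have h2 : x = fun i => σ (σ.symm (x i)) := by
      funext i
      rw [RingEquiv.apply_symm_apply]
    rw [h2]
    have h3 := fld_smul σ (rf e hn v hv) (fun i => σ.symm (x i))
    change fld σ (rf e hn v hv) • (fun i => σ (σ.symm (x i))) = _
    rw [← h3, rf_smul, rf_smul, bil_fld, bil_fld]
    ext i
    simp only [Pi.add_apply, Pi.neg_apply, Pi.smul_apply, smul_eq_mul, map_add, map_neg, map_mul,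
      map_div₀, map_ofNat]
  exact h1 ⟨g, hg, rfl⟩

theorem bil_mid : bil e (ev (mid e) : Fin n → F) (ev (mid e)) = 1 := by
  rw [bil_ev, tau_mid]
  exact Pi.single_eq_same _ _

theorem refl_irr (hn : Odd n) (h2 : (2 : F) ≠ 0) : Irr (refl (F := F) e hn) := by
  intro U hU
  by_cases hU2 : U = ⊤
  · exact Or.inr hU2
  left
  -- dichotomy
  have hd : ∀ v : Fin n → F, bil e v v ≠ 0 → v ∈ U ∨ ∀ u ∈ U, bil e v u = 0 := by
    intro v hv
    by_contra hno
    push Not at hno
    obtain ⟨hvU, u, hu, huv⟩ := hno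
    have h3 := hU _ (Subgroup.subset_closure ⟨v, hv, rfl⟩) u hu
    rw [rf_smul, U.add_mem_iff_right (U.neg_mem hu)] at h3
    have h4 : 2 * bil e v u / bil e v v ≠ 0 := div_ne_zero (mul_ne_zero h2 huv) hv
    exact hvU ((U.smul_mem_iff h4).1 h3)
  have hmid : bil e (ev (mid e) : Fin n → F) (ev (mid e)) ≠ 0 := by
    rw [bil_mid]
    exact one_ne_zero
  have hm1 : ∀ i, i ≠ mid e → bil e (ev (mid e) + ev i : Fin n → F) (ev (mid e) + ev i) = 1 ∧
      bil e (ev (mid e) + ev i : Fin n → F) (ev (mid e)) = 1 := by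
    intro i hi
    have h3 : bil e (ev (mid e) : Fin n → F) (ev i) = 0 := by
      rw [bil_ev, tau_mid]
      exact Pi.single_eq_of_ne (Ne.symm hi) _
    have h4 : bil e (ev i : Fin n → F) (ev i) = 0 := by
      rw [bil_ev]
      exact Pi.single_eq_of_ne (tau_ne e hi) _
    constructor
    · rw [bil_add, add_bil, add_bil, bil_mid, h3, h4, bil_comm e (ev i), h3]
      ring
    · rw [add_bil, bil_mid, bil_comm e (ev i), h3, add_zero]
  -- `e_mid ∉ U`
  have hnot : (ev (mid e) : Fin n → F) ∉ U := by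
    intro h
    apply hU2
    apply eq_top_of_ev
    intro i
    by_cases hi : i = mid e
    · rw [hi]; exact h
    · obtain ⟨h3, h4⟩ := hm1 i hi
      rcases hd (ev (mid e) + ev i) (by rw [h3]; exact one_ne_zero) with h5 | h5
      · exact (U.add_mem_iff_right h).1 h5
      · rw [h5 _ h] at h4
        exact absurd h4 zero_ne_one
  have horth := (hd _ hmid).resolve_left hnot
  rw [eq_bot_iff]
  intro u hu
  rw [Submodule.mem_bot]
  have hall : ∀ i, bil e (ev i : Fin n → F) u = 0 := by
    intro i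
    by_cases hi : i = mid e
    · rw [hi]; exact horth u hu
    · obtain ⟨h3, h4⟩ := hm1 i hi
      rcases hd (ev (mid e) + ev i) (by rw [h3]; exact one_ne_zero) with h5 | h5
      · exfalso
        have h6 := horth _ h5
        rw [bil_comm, h4] at h6
        exact one_ne_zero h6
      · have h6 := h5 u hu
        rw [add_bil, horth u hu, zero_add] at h6
        exact h6
  funext i
  have := hall (tau e i)
  rw [bil_ev, tau_tau] at this
  exact this

theorem refl_bil (hn : Odd n) {g : Matrix.SpecialLinearGroup (Fin n) F} (hg : g ∈ refl e hn)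
    (x y : Fin n → F) : bil e (g • x) (g • y) = bil e x y := by
  revert x y
  refine Subgroup.closure_induction (p := fun g _ => ∀ x y : Fin n → F,
    bil e (g • x) (g • y) = bil e x y) ?_ ?_ ?_ ?_ hg
  · rintro _ ⟨v, hv, rfl⟩ x y
    rw [rf_smul, rf_smul, bil_add, bil_neg, bil_smul, add_bil, neg_bil, add_bil, neg_bil,
      bil_comm e (_ • v) y, bil_smul, bil_comm e (_ • v) v, bil_smul, bil_comm e x v,
      bil_comm e y v]
    field_simp
    ring
  · intro x y
    rw [one_smul, one_smul]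
  · intro g h _ _ hg hh x y
    rw [mul_smul, mul_smul, hg, hh]
  · intro g _ hg x y
    rw [← hg, smul_inv_smul, smul_inv_smul]

theorem refl_ne_top (hn : Odd n) (h3 : 3 ≤ n) : refl (F := F) e hn ≠ ⊤ := by
  intro h
  have hnt : Nontrivial (Fin n) := Fin.nontrivial_iff_two_le.2 (by omega)
  obtain ⟨j, hj⟩ := exists_ne (mid e)
  -- a transvection not preserving the form
  have h1 : (Matrix.SpecialLinearGroup.transvection hj (1 : F)) ∈ refl e hn :=
    h ▸ Subgroup.mem_top _
  have h2 := refl_bil e hn h1 (ev (mid e)) (ev (tau e j))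
  rw [Cfsg.Agent.LieClassical.SLGen.transvection_smul,
    Cfsg.Agent.LieClassical.SLGen.transvection_smul] at h2
  have htj : tau e j ≠ mid e := by
    intro h4
    apply hj
    have h5 := congrArg (tau e) h4
    rw [tau_tau, tau_mid] at h5
    exact h5
  have h4 : (ev (tau e j) : Fin n → F) (mid e) = 0 := Pi.single_eq_of_ne (Ne.symm htj) _
  have h5 : (ev (mid e) : Fin n → F) (mid e) = 1 := Pi.single_eq_same _ _
  rw [h4, h5, mul_zero, zero_smul, add_zero, mul_one, one_smul, add_bil, bil_ev, bil_ev,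
    tau_mid, h4] at h2
  have h6 : (ev (tau e j) : Fin n → F) (tau e j) = 1 := Pi.single_eq_same _ _
  rw [h6, zero_add] at h2
  exact one_ne_zero h2

/-- The orbit of the fixed vector. -/
theorem orbit_dvd [Finite F] (hn : Odd n) (h2 : (2 : F) ≠ 0) {p : ℕ} [hp : Fact p.Prime]
    (hp2 : p ≠ 2) (hpS : p ∣ Nat.card {v : Fin n → F // bil e v v = 1}) :
    p ∣ Nat.card (refl (F := F) e hn) := by
  classical
  set v₀ : Fin n → F := ev (mid e) with hv₀
  have hv₀1 : bil e v₀ v₀ = 1 := bil_mid e
  let O : Set (Fin n → F) := MulAction.orbit (refl (F := F) e hn) v₀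
  let S : Set (Fin n → F) := {v | bil e v v = 1}
  have hOS : O ⊆ S := by
    rintro _ ⟨g, rfl⟩
    change bil e (g.1 • v₀) (g.1 • v₀) = 1
    rw [refl_bil e hn g.2, hv₀1]
  have hsmul : ∀ (g : refl (F := F) e hn) (x : Fin n → F), g • (-x) = -(g • x) := fun g x =>
    smul_neg g.1 x
  have hS : ∀ w ∈ S, w ∈ O ∨ -w ∈ O := by
    intro w hw
    have hw1 : bil e w w = 1 := hw
    have h4 : bil e (v₀ + -w) (v₀ + -w) = 2 - 2 * bil e v₀ w := by
      rw [bil_add, add_bil, add_bil, bil_neg, bil_neg, neg_bil, neg_bil, hv₀1, hw1,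
        bil_comm e w v₀]
      ring
    have h5 : bil e (v₀ + w) (v₀ + w) = 2 + 2 * bil e v₀ w := by
      rw [bil_add, add_bil, add_bil, hv₀1, hw1, bil_comm e w v₀]
      ring
    by_cases h6 : bil e (v₀ + -w) (v₀ + -w) = 0
    · left
      have h7 : bil e (v₀ + w) (v₀ + w) ≠ 0 := by
        intro h8
        rw [h4] at h6
        rw [h5] at h8
        have h9 : (2 : F) * 2 = 0 := by linear_combination h6 + h8
        rcases mul_eq_zero.1 h9 with h10 | h10 <;> exact h2 h10
      refine ⟨⟨rf e hn (v₀ + w) h7, Subgroup.subset_closure ⟨_, h7, rfl⟩⟩, ?_⟩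
      change rf e hn (v₀ + w) h7 • v₀ = w
      rw [rf_smul]
      have h8 : 2 * bil e (v₀ + w) v₀ / bil e (v₀ + w) (v₀ + w) = 1 := by
        rw [div_eq_one_iff_eq h7, add_bil, hv₀1, bil_comm e w v₀, h5]
        ring
      rw [h8, one_smul]
      abel
    · right
      refine ⟨⟨rf e hn (v₀ + -w) h6, Subgroup.subset_closure ⟨_, h6, rfl⟩⟩, ?_⟩
      change rf e hn (v₀ + -w) h6 • v₀ = -w
      rw [rf_smul]
      have h8 : 2 * bil e (v₀ + -w) v₀ / bil e (v₀ + -w) (v₀ + -w) = 1 := by
        rw [div_eq_one_iff_eq h6, add_bil, neg_bil, hv₀1, bil_comm e w v₀, h4]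
        ring
      rw [h8, one_smul]
      abel
  have hSO : S = O ∪ (fun v => -v) '' O := by
    apply Set.Subset.antisymm
    · intro w hw
      rcases hS w hw with h4 | h4
      · exact Or.inl h4
      · exact Or.inr ⟨-w, h4, neg_neg w⟩
    · rintro w (hw | ⟨v, hv, rfl⟩)
      · exact hOS hw
      · have h4 : bil e v v = 1 := hOS hv
        change bil e (-v) (-v) = 1
        rw [bil_neg, neg_bil, neg_neg, h4]
  have hcardO : Nat.card O ∣ Nat.card (refl (F := F) e hn) := by
    rw [Nat.card_congr (MulAction.orbitEquivQuotientStabilizer (refl (F := F) e hn) v₀)]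
    exact Subgroup.card_quotient_dvd_card _
  have hpO : p ∣ Nat.card O := by
    have hpS' : p ∣ S.ncard := hpS
    by_cases hneg : -v₀ ∈ O
    · have h4 : (fun v : Fin n → F => -v) '' O ⊆ O := by
        rintro _ ⟨_, ⟨g, rfl⟩, rfl⟩
        obtain ⟨h, hh⟩ := hneg
        refine ⟨g * h, ?_⟩
        change (g * h) • v₀ = -(g • v₀)
        rw [mul_smul]
        have hh' : h • v₀ = -v₀ := hh
        rw [hh', hsmul]
      rw [hSO, Set.union_eq_self_of_subset_right h4] at hpS'
      exact hpS'
    · have h4 : Disjoint O ((fun v : Fin n → F => -v) '' O) := by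
        rw [Set.disjoint_left]
        rintro _ ⟨g, rfl⟩ ⟨_, ⟨h, rfl⟩, h5⟩
        apply hneg
        refine ⟨h⁻¹ * g, ?_⟩
        change (h⁻¹ * g) • v₀ = -v₀
        have h6 : -(h • v₀) = g • v₀ := h5
        rw [mul_smul, ← h6, hsmul, inv_smul_smul]
      rw [hSO, Set.ncard_union_eq h4, Set.ncard_image_of_injective _ neg_injective, ← two_mul] at hpS'
      rcases hp.out.dvd_mul.1 hpS' with h5 | h5
      · rw [Nat.prime_dvd_prime_iff_eq hp.out Nat.prime_two] at h5
        exact absurd h5 hp2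
      · exact h5
  exact hpO.trans hcardO

/-- The number of vectors of norm `1`. -/
theorem card_norm_one [Fintype F] (h2 : (2 : F) ≠ 0) :
    Nat.card {v : Fin n → F // bil e v v = 1} =
      Fintype.card F ^ m * Fintype.card F ^ m + Fintype.card F ^ m := by
  classical
  let E1 : {v : Fin n → F // bil e v v = 1} ≃
      {s : (Fin m → F) × (F × (Fin m → F)) // s.2.1 ^ 2 + 2 * (s.1 ⬝ᵥ s.2.2) = 1} :=
    { toFun := fun v => ⟨(fun i => v.1 (e (Sum.inr (Sum.inl i))), v.1 (mid e),
        fun i => v.1 (e (Sum.inr (Sum.inr i)))), by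
        have := v.2
        rw [bil_self] at this
        exact this⟩
      invFun := fun s => ⟨fun k => Sum.elim (fun _ => s.1.2.1) (Sum.elim s.1.1 s.1.2.2)
        (e.symm k), by
        rw [bil_self]
        simp only [mid, Equiv.symm_apply_apply, Sum.elim_inl, Sum.elim_inr]
        exact s.2⟩
      left_inv := fun v => by
        apply Subtype.ext
        funext k
        obtain ⟨x, rfl⟩ := e.surjective k
        simp only [Equiv.symm_apply_apply]
        rcases x with x | x | x <;> rfl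
      right_inv := fun s => by
        apply Subtype.ext
        simp only [mid, Equiv.symm_apply_apply, Sum.elim_inl, Sum.elim_inr] }
  rw [Nat.card_congr E1]
  let E2 := Equiv.subtypeProdEquivSigmaSubtype
    (fun (x : Fin m → F) (t : F × (Fin m → F)) => t.1 ^ 2 + 2 * (x ⬝ᵥ t.2) = 1)
  rw [Nat.card_congr E2, Nat.card_sigma]
  have hV : Fintype.card (Fin m → F) = Fintype.card F ^ m := by
    rw [Fintype.card_fun, Fintype.card_fin]
  have h3 : ∀ x : Fin m → F, Nat.card {t : F × (Fin m → F) // t.1 ^ 2 + 2 * (x ⬝ᵥ t.2) = 1} =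
      Fintype.card F ^ m + (if x = 0 then Fintype.card F ^ m else 0) := by
    intro x
    by_cases hx : x = 0
    · subst hx
      rw [if_pos rfl]
      have E3 : {t : F × (Fin m → F) // t.1 ^ 2 + 2 * ((0 : Fin m → F) ⬝ᵥ t.2) = 1} ≃
          Bool × (Fin m → F) :=
        { toFun := fun t => (decide (t.1.1 = 1), t.1.2)
          invFun := fun s => ⟨(if s.1 then 1 else -1, s.2), by
            change (if s.1 = true then (1 : F) else -1) ^ 2 + 2 * ((0 : Fin m → F) ⬝ᵥ s.2) = 1
            rw [zero_dotProduct, mul_zero, add_zero]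
            cases s.1 <;> simp⟩
          left_inv := fun t => by
            apply Subtype.ext
            apply Prod.ext
            · change (if decide (t.1.1 = 1) = true then (1 : F) else -1) = t.1.1
              have h4 := t.2
              rw [zero_dotProduct, mul_zero, add_zero] at h4
              have h5 : (t.1.1 - 1) * (t.1.1 + 1) = 0 := by linear_combination h4
              rcases mul_eq_zero.1 h5 with h6 | h6
              · have h7 : t.1.1 = 1 := sub_eq_zero.1 h6
                rw [if_pos (decide_eq_true h7), h7]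
              · have h7 : t.1.1 = -1 := eq_neg_of_add_eq_zero_left h6
                have h8 : ¬ t.1.1 = 1 := by
                  intro h9
                  apply h2
                  rw [h9] at h7
                  linear_combination h7
                rw [decide_eq_false h8, if_neg Bool.false_ne_true, h7]
            · rfl
          right_inv := fun s => by
            apply Prod.ext
            · change decide ((if s.1 = true then (1 : F) else -1) = 1) = s.1
              have h4 : ¬ (-1 : F) = 1 := by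
                intro h9
                apply h2
                linear_combination -h9
              rcases s with ⟨b, y⟩
              cases b
              · simp [h4]
              · simp
            · rfl }
      rw [Nat.card_congr E3, Nat.card_prod, Nat.card_eq_fintype_card, Nat.card_eq_fintype_card,
        hV, Fintype.card_bool]
      ring
    · rw [if_neg hx, add_zero]
      obtain ⟨i, hi⟩ := Function.ne_iff.1 hx
      have hi' : x i ≠ 0 := hi
      obtain ⟨z, hz⟩ : ∃ z : Fin m → F, x ⬝ᵥ z = 1 :=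
        ⟨Pi.single i (x i)⁻¹, by rw [dotProduct_single, mul_inv_cancel₀ hi']⟩
      have E3 : {t : F × (Fin m → F) // t.1 ^ 2 + 2 * (x ⬝ᵥ t.2) = 1} ≃ (Fin m → F) :=
        { toFun := fun t => t.1.2 - ((1 - t.1.1 ^ 2) / 2) • z + t.1.1 • z
          invFun := fun u => ⟨(x ⬝ᵥ u, u - (x ⬝ᵥ u) • z + ((1 - (x ⬝ᵥ u) ^ 2) / 2) • z), by
            change (x ⬝ᵥ u) ^ 2 + 2 * (x ⬝ᵥ (u - (x ⬝ᵥ u) • z +
              ((1 - (x ⬝ᵥ u) ^ 2) / 2) • z)) = 1
            rw [dotProduct_add, dotProduct_sub, dotProduct_smul, dotProduct_smul, hz]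
            simp only [smul_eq_mul]
            field_simp
            ring⟩
          left_inv := fun t => by
            have h4 : x ⬝ᵥ (t.1.2 - ((1 - t.1.1 ^ 2) / 2) • z + t.1.1 • z) = t.1.1 := by
              have h5 := t.2
              rw [dotProduct_add, dotProduct_sub, dotProduct_smul, dotProduct_smul, hz]
              simp only [smul_eq_mul]
              have h6 : x ⬝ᵥ t.1.2 = (1 - t.1.1 ^ 2) / 2 := by
                field_simp
                linear_combination h5
              rw [h6]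
              ring
            apply Subtype.ext
            apply Prod.ext
            · exact h4
            · change (t.1.2 - ((1 - t.1.1 ^ 2) / 2) • z + t.1.1 • z) -
                (x ⬝ᵥ (t.1.2 - ((1 - t.1.1 ^ 2) / 2) • z + t.1.1 • z)) • z +
                ((1 - (x ⬝ᵥ (t.1.2 - ((1 - t.1.1 ^ 2) / 2) • z + t.1.1 • z)) ^ 2) / 2) • z
                = t.1.2
              rw [h4]
              abel
          right_inv := fun u => by
            change (u - (x ⬝ᵥ u) • z + ((1 - (x ⬝ᵥ u) ^ 2) / 2) • z) -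
              ((1 - (x ⬝ᵥ u) ^ 2) / 2) • z + (x ⬝ᵥ u) • z = u
            abel }
      rw [Nat.card_congr E3, Nat.card_eq_fintype_card, hV]
  rw [Finset.sum_congr rfl fun x _ => h3 x, Finset.sum_add_distrib, Finset.sum_ite_eq',
    Finset.sum_const, Finset.card_univ, hV, smul_eq_mul]
  simp

end form

end Cfsg.Agent.H579.SLRed

private theorem dce_d38299055d61 : _root_.True := by
  try have : _root_.True := by simp only [_root_.Cfsg.Agent.H579.SLRed.tau.eq_1]
  try have : _root_.True := by simp only [_root_.Cfsg.Agent.H579.SLRed.mid.eq_1]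
  try have : _root_.True := by simp only [_root_.Cfsg.Agent.H579.SLRed.refl.eq_1]
  try have : _root_.True := by simp only [_root_.Cfsg.Agent.H579.SLRed.bil.eq_1]
  exact _root_.True.intro
end

-- part: H579/MathieuTab
section
prune_inst 0x41030754447c012000018001240003c76fa000402002b880179600f020d8eff23a5032f61fcf01e120b3aaae44039806813000079421000000a008200411d05a184035626933cbd0c37008fc09087100000000000000000000000000000041000200000002
set_option linter.all false
open scoped Cfsg.Agent.FastGrp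

set_option autoImplicit false

namespace Cfsg.Agent.H579.MathieuTab

open Cfsg Subgroup Cfsg.Agent.Transfer.PNilpotentBasic
open Cfsg.Agent.H579.MaxPNilRed
open Cfsg.Agent.Golay.Orbit
open scoped Pointwise

/-- An element of order `5`. -/
def x5 : List ℕ := [1, 512, 8, 64, 256, 524288, 4096, 16384, 2, 8192, 131072, 128, 65536, 16, 32, 4194304, 4, 32768, 262144, 2048, 1048576, 1024, 2097152, 8388608]

/-- An involution inverting it. -/
def y5 : List ℕ := [1, 256, 4096, 64, 512, 16384, 8, 524288, 2, 16, 1024, 2048, 4, 8192, 32, 4194304, 65536, 2097152, 262144, 128, 1048576, 131072, 32768, 8388608]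

/-- An element of order `11`. -/
def x11 : List ℕ := [64, 262144, 8192, 8, 65536, 1048576, 256, 32768, 512, 16, 4194304, 16384, 1, 4096, 128, 131072, 2, 524288, 4, 32, 1024, 2048, 2097152, 8388608]

/-- An element of order `5` normalising it. -/
def y11 : List ℕ := [512, 1, 4096, 8, 64, 2048, 4, 128, 256, 262144, 2097152, 32768, 8192, 16, 1024, 1048576, 2, 16384, 65536, 32, 524288, 4194304, 131072, 8388608]

/-- Elements of `M11` moving the extra point to each point outside the dodecad. -/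
def t12 : List (List ℕ) := [
  [1, 262144, 64, 16, 256, 131072, 2, 8388608, 512, 8192, 524288, 2048, 65536, 4, 32768, 1024, 8, 16384, 4096, 1048576, 2097152, 4194304, 128, 32],
  [1, 16, 2, 512, 8, 2097152, 256, 32768, 262144, 65536, 16384, 2048, 8192, 4096, 4194304, 524288, 4, 1048576, 64, 32, 131072, 8388608, 1024, 128],
  [1, 65536, 4, 256, 8192, 8388608, 4096, 2048, 262144, 16, 2097152, 131072, 64, 8, 128, 1048576, 512, 16384, 2, 4194304, 524288, 32768, 32, 1024],
  [1, 16, 4, 2, 8, 131072, 256, 128, 512, 64, 1024, 1048576, 4096, 65536, 2097152, 32, 262144, 32768, 8192, 524288, 8388608, 4194304, 16384, 2048],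
  [1, 262144, 4, 2, 512, 32768, 256, 524288, 65536, 4096, 32, 2048, 16, 8192, 4194304, 1024, 64, 128, 8, 131072, 1048576, 2097152, 8388608, 16384],
  [1, 2, 65536, 8192, 256, 1024, 64, 16384, 4096, 512, 32, 1048576, 262144, 4, 128, 131072, 8, 2097152, 16, 2048, 4194304, 8388608, 524288, 32768],
  [1, 8, 8192, 262144, 64, 1024, 512, 4194304, 4096, 256, 32768, 2048, 65536, 4, 128, 32, 16, 16384, 2, 8388608, 2097152, 1048576, 524288, 131072],
  [1, 2, 64, 256, 262144, 2048, 4, 2097152, 65536, 16, 32768, 1048576, 512, 8, 131072, 4194304, 4096, 32, 8192, 128, 1024, 8388608, 16384, 524288],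
  [1, 512, 64, 4096, 262144, 32768, 4, 32, 8192, 256, 2048, 524288, 65536, 16, 16384, 128, 8, 4194304, 2, 2097152, 8388608, 131072, 1024, 1048576],
  [1, 64, 2, 4096, 65536, 1024, 8192, 4194304, 512, 4, 128, 32768, 256, 8, 1048576, 8388608, 16, 2048, 262144, 131072, 524288, 16384, 32, 2097152],
  [1, 4, 256, 16, 8, 524288, 64, 8388608, 262144, 2, 2097152, 1048576, 512, 4096, 128, 1024, 8192, 2048, 65536, 32768, 32, 131072, 16384, 4194304],
  [1, 2, 4, 8, 16, 32, 64, 128, 256, 512, 1024, 2048, 4096, 8192, 16384, 32768, 65536, 131072, 262144, 524288, 1048576, 2097152, 4194304, 8388608]]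

/-- Elements of the dodecad stabiliser in `M23` moving `0` to each point of the dodecad. -/
def o1 : List (List ℕ) := [
  [1, 2, 4, 8, 16, 32, 64, 128, 256, 512, 1024, 2048, 4096, 8192, 16384, 32768, 65536, 131072, 262144, 524288, 1048576, 2097152, 4194304, 8388608],
  [2, 262144, 64, 1, 8192, 4194304, 512, 2048, 8, 256, 128, 32768, 16, 65536, 32, 16384, 4096, 1048576, 4, 524288, 131072, 1024, 2097152, 8388608],
  [4, 8, 65536, 16, 8192, 128, 512, 32768, 1, 2, 2097152, 1048576, 4096, 256, 32, 2048, 262144, 524288, 64, 16384, 1024, 4194304, 131072, 8388608],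
  [8, 64, 512, 4, 256, 131072, 2, 1048576, 16, 1, 32768, 2048, 8192, 262144, 128, 32, 4096, 1024, 65536, 16384, 524288, 2097152, 4194304, 8388608],
  [16, 512, 262144, 64, 4, 128, 1, 2048, 2, 8, 131072, 1048576, 256, 4096, 32, 16384, 65536, 2097152, 8192, 4194304, 524288, 32768, 1024, 8388608],
  [64, 2, 256, 262144, 512, 16384, 16, 2097152, 8, 4096, 32768, 1024, 1, 4, 128, 1048576, 65536, 131072, 8192, 2048, 524288, 4194304, 32, 8388608],
  [256, 65536, 4, 16, 8192, 1048576, 1, 16384, 64, 4096, 524288, 32, 512, 262144, 2048, 4194304, 8, 32768, 2, 1024, 2097152, 128, 131072, 8388608],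
  [512, 256, 4096, 2, 1, 128, 4, 1048576, 64, 16, 32, 4194304, 8, 65536, 1024, 2048, 8192, 2097152, 262144, 16384, 524288, 131072, 32768, 8388608],
  [4096, 65536, 16, 1, 262144, 2048, 64, 32768, 8, 8192, 1048576, 16384, 2, 4, 128, 524288, 512, 2097152, 256, 4194304, 131072, 32, 1024, 8388608],
  [8192, 2, 256, 4096, 1, 32, 4, 2097152, 512, 65536, 524288, 1048576, 16, 8, 131072, 2048, 64, 4194304, 262144, 16384, 128, 32768, 1024, 8388608],
  [65536, 4, 1, 256, 4096, 16384, 262144, 32, 8192, 512, 131072, 4194304, 16, 8, 128, 2048, 64, 1024, 2, 2097152, 524288, 32768, 1048576, 8388608],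
  [262144, 64, 8192, 8, 1, 128, 256, 32768, 4096, 16, 4194304, 2097152, 65536, 512, 1048576, 1024, 4, 524288, 2, 2048, 131072, 32, 16384, 8388608]]

/-- Elements of the dodecad stabiliser in `M23` moving `5` to each other point. -/
def o2 : List (List ℕ) := [
  [1, 2, 4, 8, 16, 32, 64, 128, 256, 512, 1024, 2048, 4096, 8192, 16384, 32768, 65536, 131072, 262144, 524288, 1048576, 2097152, 4194304, 8388608],
  [16, 512, 262144, 64, 4, 128, 1, 2048, 2, 8, 131072, 1048576, 256, 4096, 32, 16384, 65536, 2097152, 8192, 4194304, 524288, 32768, 1024, 8388608],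
  [65536, 256, 64, 4096, 4, 1024, 8192, 16384, 1, 8, 32768, 524288, 262144, 512, 2048, 128, 2, 131072, 16, 4194304, 2097152, 1048576, 32, 8388608],
  [4096, 65536, 16, 1, 262144, 2048, 64, 32768, 8, 8192, 1048576, 16384, 2, 4, 128, 524288, 512, 2097152, 256, 4194304, 131072, 32, 1024, 8388608],
  [65536, 4, 1, 256, 4096, 16384, 262144, 32, 8192, 512, 131072, 4194304, 16, 8, 128, 2048, 64, 1024, 2, 2097152, 524288, 32768, 1048576, 8388608],
  [16, 4096, 8192, 2, 4, 32768, 512, 16384, 1, 65536, 131072, 32, 262144, 64, 2048, 524288, 256, 1024, 8, 2097152, 1048576, 4194304, 128, 8388608],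
  [2, 8, 65536, 64, 4096, 131072, 4, 1024, 262144, 8192, 32768, 128, 512, 16, 4194304, 1048576, 256, 524288, 1, 2048, 32, 2097152, 16384, 8388608],
  [2, 256, 16, 4, 8, 524288, 1, 32, 262144, 64, 2048, 1048576, 8192, 4096, 131072, 2097152, 65536, 1024, 512, 128, 4194304, 32768, 16384, 8388608],
  [16, 65536, 4096, 8192, 262144, 1048576, 64, 4194304, 8, 1, 2048, 16384, 256, 512, 131072, 2097152, 4, 524288, 2, 32768, 128, 32, 1024, 8388608],
  [8192, 8, 1, 65536, 2, 2097152, 512, 131072, 16, 4, 2048, 32, 4096, 64, 16384, 128, 256, 524288, 262144, 1048576, 32768, 4194304, 1024, 8388608],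
  [2, 262144, 64, 1, 8192, 4194304, 512, 2048, 8, 256, 128, 32768, 16, 65536, 32, 16384, 4096, 1048576, 4, 524288, 131072, 1024, 2097152, 8388608]]

/-- Elements of `M23` giving distinct images of the dodecad. -/
def imgs : List (List ℕ) := [
  [1, 2, 4, 8, 16, 32, 64, 128, 256, 512, 1024, 2048, 4096, 8192, 16384, 32768, 65536, 131072, 262144, 524288, 1048576, 2097152, 4194304, 8388608],
  [2097152, 4096, 16384, 262144, 512, 4, 32, 64, 2048, 65536, 1024, 524288, 131072, 4194304, 128, 32768, 8192, 8, 2, 1, 1048576, 256, 16, 8388608],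
  [2048, 4, 128, 4096, 1, 524288, 32, 131072, 65536, 16, 16384, 262144, 64, 8192, 1048576, 512, 8, 1024, 4194304, 256, 2, 2097152, 32768, 8388608],
  [2097152, 2, 8, 16384, 128, 1048576, 1024, 2048, 262144, 4096, 1, 32, 256, 16, 64, 32768, 131072, 512, 524288, 65536, 4194304, 4, 8192, 8388608],
  [8192, 4, 1, 32768, 65536, 128, 32, 1048576, 512, 4096, 131072, 64, 16384, 16, 8, 2097152, 4194304, 2048, 262144, 524288, 1024, 256, 2, 8388608],
  [64, 2, 524288, 2097152, 1048576, 1, 1024, 262144, 32, 65536, 131072, 16384, 16, 32768, 4, 4194304, 4096, 128, 8192, 512, 8, 2048, 256, 8388608],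
  [128, 4194304, 65536, 32768, 2, 524288, 256, 16, 4096, 4, 2048, 8192, 8, 16384, 1, 262144, 2097152, 1048576, 1024, 512, 64, 131072, 32, 8388608],
  [65536, 2097152, 16384, 64, 4096, 4, 32, 4194304, 524288, 512, 2048, 8192, 8, 1048576, 16, 256, 1024, 131072, 1, 2, 262144, 128, 32768, 8388608],
  [16384, 256, 2097152, 262144, 32768, 512, 131072, 1024, 64, 524288, 128, 1, 32, 2, 2048, 16, 8192, 65536, 4096, 8, 1048576, 4194304, 4, 8388608],
  [262144, 2, 128, 1048576, 256, 2097152, 4194304, 524288, 32, 65536, 1, 8192, 1024, 64, 2048, 8, 16384, 32768, 4, 16, 512, 4096, 131072, 8388608],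
  [512, 524288, 1024, 64, 128, 2, 256, 1048576, 131072, 4, 2097152, 4096, 32768, 8192, 2048, 32, 16, 262144, 4194304, 65536, 16384, 8, 1, 8388608],
  [256, 32768, 4, 524288, 1, 128, 16384, 2, 32, 1048576, 65536, 1024, 8, 131072, 512, 16, 64, 262144, 4096, 2097152, 2048, 8192, 4194304, 8388608],
  [8192, 4096, 2097152, 2048, 32768, 256, 4, 1, 65536, 4194304, 16384, 2, 262144, 32, 8, 512, 524288, 1048576, 64, 1024, 16, 131072, 128, 8388608],
  [256, 131072, 128, 2, 65536, 16384, 4, 32, 524288, 8192, 1024, 1, 8, 16, 64, 32768, 4194304, 262144, 4096, 2097152, 1048576, 2048, 512, 8388608],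
  [2097152, 64, 1048576, 4194304, 16, 128, 524288, 32, 262144, 8, 16384, 256, 1024, 32768, 131072, 512, 8192, 4096, 4, 2048, 2, 65536, 1, 8388608],
  [4, 256, 64, 524288, 4096, 8, 1048576, 1024, 32, 131072, 1, 65536, 512, 8192, 2048, 32768, 16, 16384, 2, 2097152, 4194304, 262144, 128, 8388608],
  [256, 16384, 8, 262144, 4096, 1, 128, 32, 64, 4194304, 131072, 524288, 2048, 2, 1048576, 2097152, 16, 32768, 4, 8192, 1024, 512, 65536, 8388608],
  [2048, 16, 4, 8192, 65536, 524288, 1, 1024, 16384, 4096, 131072, 512, 128, 256, 262144, 4194304, 32768, 2097152, 2, 64, 8, 32, 1048576, 8388608],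
  [131072, 8, 1, 1024, 4, 65536, 524288, 256, 8192, 2097152, 2048, 512, 1048576, 32, 16, 262144, 16384, 32768, 4194304, 128, 64, 4096, 2, 8388608],
  [128, 8, 16, 1, 512, 16384, 4, 32, 8192, 1024, 2048, 2, 131072, 32768, 4194304, 256, 1048576, 64, 2097152, 65536, 262144, 524288, 4096, 8388608],
  [4194304, 32, 2048, 4096, 524288, 2097152, 512, 131072, 1, 8192, 128, 8, 65536, 4, 1024, 16, 2, 262144, 256, 16384, 1048576, 64, 32768, 8388608],
  [4096, 1024, 2048, 4, 65536, 128, 2097152, 4194304, 8192, 16384, 1, 16, 32768, 131072, 524288, 8, 64, 1048576, 2, 262144, 512, 32, 256, 8388608],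
  [8, 32768, 2048, 4194304, 4, 1024, 2, 256, 4096, 16, 2097152, 65536, 262144, 1, 1048576, 32, 8192, 64, 524288, 512, 16384, 131072, 128, 8388608],
  [8192, 8, 512, 4096, 1048576, 4, 128, 16384, 1024, 64, 65536, 2097152, 262144, 4194304, 2, 16, 131072, 524288, 32768, 256, 2048, 32, 1, 8388608]]

/-- The permutation of a table, as a function. -/
def ev (l : List ℕ) (q : GolayPt) : GolayPt := pt (Nat.log2 (l.getD (idx q) 0))

theorem exists_perm (l : List ℕ) (h1 : okTab l = true) (h2 : m24Tab l = true) :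
    ∃ g : Equiv.Perm GolayPt, g ∈ M24 ∧ (∀ q, g q = ev l q) ∧
      ∀ m, g • fin m = fin (act l m) := by
  obtain ⟨g, hg⟩ := exists_rep l h1
  refine ⟨g, hg.mem_M24 h2, fun q => ?_, fun m => hg.smul_fin m⟩
  rw [ev, hg.eq, Nat.log2_two_pow, pt_idx]

theorem squareDodecad_eq : Spor.squareDodecad = fin 340831 := by
  rw [Spor.squareDodecad, qrWord_eq, support_word]
  rfl

theorem not_hnc_of_normalizes {p : ℕ} [hp : Fact p.Prime] {X : Type*} [Group X] [Finite X]
    {x y : X} {k m : ℕ} (hx : x ≠ 1) (hxp : x ^ p = 1) (hy : y * x * y⁻¹ = x ^ (k + 1))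
    (hk : ¬ p ∣ k) (hym : y ^ m = 1) (hm : ¬ p ∣ m) : ¬ HasNormalPComplement p X := by
  intro h
  obtain ⟨K, hK, h1, s, h2⟩ :=
    Cfsg.Agent.OddOrderLocal.NilpotentQuotient.exists_of_hasNormalPComplement h
  have hyK : y ∈ K := by
    rw [← QuotientGroup.eq_one_iff, ← orderOf_eq_one_iff]
    have h3 : (y : X ⧸ K) ^ m = 1 := by rw [← QuotientGroup.mk_pow, hym, QuotientGroup.mk_one]
    have h4 : (y : X ⧸ K) ^ (p ^ s) = 1 := by
      have h5 : Nat.card (X ⧸ K) = p ^ s := by
        rw [← Subgroup.index_eq_card]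
        exact h2
      rw [← h5]
      exact pow_card_eq_one'
    have h5 : Nat.Coprime m (p ^ s) :=
      Nat.Coprime.pow_right s (((Nat.Prime.coprime_iff_not_dvd hp.out).2 hm).symm)
    exact Nat.eq_one_of_dvd_coprimes h5 (orderOf_dvd_of_pow_eq_one h3)
      (orderOf_dvd_of_pow_eq_one h4)
  have h3 : x ^ k ∈ K := by
    have h4 : y * (x * y⁻¹ * x⁻¹) ∈ K :=
      K.mul_mem hyK (hK.conj_mem _ (K.inv_mem hyK) x)
    have h5 : y * (x * y⁻¹ * x⁻¹) = x ^ k := by
      have h6 : y * (x * y⁻¹ * x⁻¹) = (y * x * y⁻¹) * x⁻¹ := by group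
      rw [h6, hy, pow_succ, mul_inv_cancel_right]
    rwa [h5] at h4
  have h4 : (x : X ⧸ K) = 1 := by
    rw [← orderOf_eq_one_iff]
    have h5 : (x : X ⧸ K) ^ k = 1 := by
      rw [← QuotientGroup.mk_pow]
      exact (QuotientGroup.eq_one_iff _).2 h3
    have h6 : (x : X ⧸ K) ^ p = 1 := by rw [← QuotientGroup.mk_pow, hxp, QuotientGroup.mk_one]
    exact Nat.eq_one_of_dvd_coprimes ((Nat.Prime.coprime_iff_not_dvd hp.out).2 hk).symm
      (orderOf_dvd_of_pow_eq_one h5) (orderOf_dvd_of_pow_eq_one h6)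
  rw [QuotientGroup.eq_one_iff] at h4
  apply h1
  have h10 : orderOf x = p := orderOf_eq_prime hxp hx
  have h11 : orderOf (⟨x, h4⟩ : K) = p := by
    rw [Subgroup.orderOf_mk, h10]
  rw [← h11]
  exact orderOf_dvd_natCard _

/-! ### `M11` -/

theorem mem_M11 {g : Equiv.Perm GolayPt} : g ∈ Spor.M11 ↔
    (g ∈ M24 ∧ g • fin 340831 = fin 340831) ∧ g (some 0) = some 0 := by
  rw [Spor.M11, Spor.M12, Subgroup.mem_inf, Subgroup.mem_inf, MulAction.mem_stabilizer_iff,
    MulAction.mem_stabilizer_iff, squareDodecad_eq]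
  rfl

theorem exists_M11 (l : List ℕ) (h1 : okTab l = true) (h2 : m24Tab l = true)
    (h3 : act l 340831 = 340831) (h4 : ev l (some 0) = some 0) :
    ∃ g : Spor.M11, ∀ q, (g : Equiv.Perm GolayPt) q = ev l q := by
  obtain ⟨g, hg1, hg2, hg3⟩ := exists_perm l h1 h2
  exact ⟨⟨g, mem_M11.2 ⟨⟨hg1, by rw [hg3, h3]⟩, by rw [hg2, h4]⟩⟩, hg2⟩

private noncomputable def _root_.Cfsg.Agent.LsF.fa94fc0_0 : {f // @Cfsg.Agent.Golay.Orbit.okTab = f} := ⟨_, by first | (delta Cfsg.Agent.Golay.Orbit.okTab; rewrite [Cfsg.Agent.LsF.npow_pat, Cfsg.Agent.LsF.nbeq_pat, Cfsg.Agent.LsF.and_eq, Cfsg.Agent.LsF.instDecEq_eq, Cfsg.Agent.LsF.all_eq, Cfsg.Agent.LsF.range_eq, Cfsg.Agent.LsF.getD_eq, Cfsg.Agent.LsF.dNodup_eq, Cfsg.Agent.LsF.length_eq, Cfsg.Agent.LsF.decide_eq]; exact rfl) | exact rfl⟩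
private noncomputable def _root_.Cfsg.Agent.LsF.fa94fc0_1 : {f // @Cfsg.Agent.Golay.Orbit.enc = f} := ⟨_, by first | (delta Cfsg.Agent.Golay.Orbit.enc List.brecOn List.brecOn.go Cfsg.Agent.Golay.Orbit.enc._f; rewrite [Cfsg.Agent.LsF.nmul_pat, Cfsg.Agent.LsF.ndiv_pat, Cfsg.Agent.LsF.nmod_pat, Cfsg.Agent.LsF.nxor_pat]; (try delta Cfsg.Agent.Golay.Orbit.enc.match_1); (try delta List.casesOn); first | dsimp -zeta only | exact rfl) | exact rfl⟩
private noncomputable def _root_.Cfsg.Agent.LsF.fa94fc0_2 : {f // @Cfsg.Agent.Golay.Orbit.isCode = f} := ⟨_, by first | (delta Cfsg.Agent.Golay.Orbit.isCode; rewrite [Cfsg.Agent.LsF.fa94fc0_1.2]; exact rfl) | exact rfl⟩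
private noncomputable def _root_.Cfsg.Agent.LsF.fa94fc0_3 : {f // @Cfsg.Agent.Golay.Orbit.act = f} := ⟨_, by first | (delta Cfsg.Agent.Golay.Orbit.act List.brecOn List.brecOn.go Cfsg.Agent.Golay.Orbit.act._f; rewrite [Cfsg.Agent.LsF.nmul_pat, Cfsg.Agent.LsF.ndiv_pat, Cfsg.Agent.LsF.nmod_pat, Cfsg.Agent.LsF.nor_pat]; (try delta Cfsg.Agent.Golay.Orbit.enc.match_1); (try delta List.casesOn); first | dsimp -zeta only | exact rfl) | exact rfl⟩
private noncomputable def _root_.Cfsg.Agent.LsF.fa94fc0_4 : {f // @Cfsg.Agent.Golay.Orbit.m24Tab = f} := ⟨_, by first | (delta Cfsg.Agent.Golay.Orbit.m24Tab; rewrite [Cfsg.Agent.LsF.fa94fc0_2.2, Cfsg.Agent.LsF.fa94fc0_3.2, Cfsg.Agent.LsF.all_eq]; exact rfl) | exact rfl⟩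
private noncomputable def _root_.Cfsg.Agent.LsF.fa94fc0_5 : {f // @Cfsg.Agent.Golay.Orbit.pt = f} := ⟨_, by first | (delta Cfsg.Agent.Golay.Orbit.pt; rewrite [Cfsg.Agent.LsF.zcast_pat, Cfsg.Agent.LsF.instDecEq_eq, Cfsg.Agent.LsF.ite_eq]; exact rfl) | exact rfl⟩
private noncomputable def _root_.Cfsg.Agent.LsF.fa94fc0_6 : {f // @Cfsg.Agent.Golay.Orbit.idx = f} := ⟨_, by first | (delta Cfsg.Agent.Golay.Orbit.idx; rewrite [Cfsg.Agent.LsF.zval_eq]; (try delta Cfsg.Agent.Golay.Orbit.idx.match_1); (try delta Option.casesOn); exact rfl) | exact rfl⟩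
private noncomputable def _root_.Cfsg.Agent.LsF.fa94fc0_7 : {f // @Cfsg.Agent.H579.MathieuTab.ev = f} := ⟨_, by first | (delta Cfsg.Agent.H579.MathieuTab.ev; rewrite [Cfsg.Agent.LsF.fa94fc0_5.2, Cfsg.Agent.LsF.fa94fc0_6.2, Cfsg.Agent.LsF.getD_eq]; exact rfl) | exact rfl⟩
theorem t12_ok : ∀ l ∈ t12, okTab l = true ∧ m24Tab l = true ∧ act l 340831 = 340831 ∧
    ev l (some 0) = some 0 := by (refine of_decide_eq_true ?_; (try (rewrite [Cfsg.Agent.LsF.fa94fc0_0.2, Cfsg.Agent.LsF.fa94fc0_4.2, Cfsg.Agent.LsF.fa94fc0_3.2, Cfsg.Agent.LsF.fa94fc0_7.2, Cfsg.Agent.LsF.zdecEq_eq, Cfsg.Agent.LsF.instDecEq_eq, Cfsg.Agent.LsF.dAnd_eq, Cfsg.Agent.LsF.dBoolEq_eq, Cfsg.Agent.LsF.dBAll_eq, Cfsg.Agent.LsF.decide_eq])); decide +kernel)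

theorem t12_all : ∀ q : GolayPt, q ∉ fin 340831 → ∃ l ∈ t12, ev l none = q := by decide +kernel

theorem x5_ok : okTab x5 = true ∧ m24Tab x5 = true ∧ act x5 340831 = 340831 ∧
    ev x5 (some 0) = some 0 ∧ ev x5 none = none := by decide +kernel

theorem y5_ok : okTab y5 = true ∧ m24Tab y5 = true ∧ act y5 340831 = 340831 ∧
    ev y5 (some 0) = some 0 ∧ ev y5 none = none := by decide +kernel

theorem x5_pow : ∀ q, ev x5 (ev x5 (ev x5 (ev x5 (ev x5 q)))) = q := by decide +kernel

theorem x5_ne : ev x5 (some 1) ≠ some 1 := by decide +kernel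

theorem y5_x5 : ∀ q, ev x5 (ev y5 (ev x5 q)) = ev y5 q := by decide +kernel

/-- The stabiliser of the extra point in `M11` has index `12`. -/
theorem index_stab : (MulAction.stabilizer Spor.M11 (none : GolayPt)).index = 12 := by
  rw [MulAction.index_stabilizer]
  have h1 : MulAction.orbit Spor.M11 (none : GolayPt) =
      (((fin 340831)ᶜ : Finset GolayPt) : Set GolayPt) := by
    ext q
    rw [Finset.mem_coe, Finset.mem_compl]
    constructor
    · rintro ⟨g, rfl⟩ hq
      have h2 := (mem_M11.1 g.2).1.2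
      have h3 : (g : Equiv.Perm GolayPt) none ∈ fin 340831 := hq
      rw [← h2, Finset.mem_smul_finset] at h3
      obtain ⟨z, hz, hz'⟩ := h3
      have h4 : z = none := (g : Equiv.Perm GolayPt).injective hz'
      rw [h4] at hz
      revert hz
      decide +kernel
    · intro hq
      obtain ⟨l, hl, hlq⟩ := t12_all q hq
      obtain ⟨h2, h3, h4, h5⟩ := t12_ok l hl
      obtain ⟨g, hg⟩ := exists_M11 l h2 h3 h4 h5
      exact ⟨g, (hg none).trans hlq⟩
  rw [h1, Set.ncard_coe_finset]
  decide +kernel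

/-- **`M11` is excluded.** -/
theorem m11_false [Fact (Nat.Prime 5)] (h : ∀ M : Subgroup Spor.M11, IsCoatom M →
    HasNormalPComplement 5 M ∨ M.index = 11) : False := by
  set Y := MulAction.stabilizer Spor.M11 (none : GolayPt) with hY
  have hYi : Y.index = 12 := index_stab
  have hY1 : Y ≠ ⊤ := by
    intro h1
    rw [h1, Subgroup.index_top] at hYi
    omega
  obtain ⟨M, hM, hYM⟩ := (eq_top_or_exists_le_coatom Y).resolve_left hY1
  rcases h M hM with h1 | h1
  · have h2 : HasNormalPComplement 5 Y := hnc_of_le hYM h1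
    obtain ⟨a1, a2, a3, a4, a5⟩ := x5_ok
    obtain ⟨b1, b2, b3, b4, b5⟩ := y5_ok
    obtain ⟨x, hx⟩ := exists_M11 x5 a1 a2 a3 a4
    obtain ⟨y, hy⟩ := exists_M11 y5 b1 b2 b3 b4
    have hxY : x ∈ Y := MulAction.mem_stabilizer_iff.2 ((hx none).trans a5)
    have hyY : y ∈ Y := MulAction.mem_stabilizer_iff.2 ((hy none).trans b5)
    refine not_hnc_of_inverts (by decide) (x := (⟨x, hxY⟩ : Y)) (y := ⟨y, hyY⟩) ?_ ?_ ?_ h2
    · intro h3
      have h4 : x = 1 := congrArg Subtype.val h3
      apply x5_ne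
      rw [← hx, h4]
      rfl
    · apply Subtype.ext
      apply Subtype.ext
      apply Equiv.ext
      intro q
      change ((x : Equiv.Perm GolayPt) ^ 5) q = q
      simp only [pow_succ, pow_zero, one_mul, Equiv.Perm.mul_apply, hx]
      exact x5_pow q
    · have h5 : x * y * x = y := by
        apply Subtype.ext
        apply Equiv.ext
        intro q
        change (x : Equiv.Perm GolayPt) ((y : Equiv.Perm GolayPt) ((x : Equiv.Perm GolayPt) q))
          = (y : Equiv.Perm GolayPt) q
        rw [hx, hy, hx, hy]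
        exact y5_x5 q
      apply Subtype.ext
      change y * x * y⁻¹ = x⁻¹
      calc y * x * y⁻¹ = x⁻¹ * (x * y * x) * y⁻¹ := by group
        _ = x⁻¹ := by rw [h5, mul_inv_cancel_right]
  · have h2 : M.index ∣ Y.index := Subgroup.index_dvd_of_le hYM
    rw [h1, hYi] at h2
    revert h2
    decide

/-! ### `M23` -/

theorem mem_M23 {g : Equiv.Perm GolayPt} : g ∈ Spor.M23 ↔ g ∈ M24 ∧ g none = none := by
  rw [Spor.M23, Subgroup.mem_inf, MulAction.mem_stabilizer_iff]
  rfl

theorem exists_M23 (l : List ℕ) (h1 : okTab l = true) (h2 : m24Tab l = true)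
    (h4 : ev l none = none) :
    ∃ g : Spor.M23, (∀ q, (g : Equiv.Perm GolayPt) q = ev l q) ∧
      ∀ m, g • fin m = fin (act l m) := by
  obtain ⟨g, hg1, hg2, hg3⟩ := exists_perm l h1 h2
  exact ⟨⟨g, mem_M23.2 ⟨hg1, by rw [hg2, h4]⟩⟩, hg2, hg3⟩

theorem o1_ok : ∀ l ∈ o1, okTab l = true ∧ m24Tab l = true ∧ act l 340831 = 340831 ∧
    ev l none = none := by (refine of_decide_eq_true ?_; (try (rewrite [Cfsg.Agent.LsF.fa94fc0_0.2, Cfsg.Agent.LsF.fa94fc0_4.2, Cfsg.Agent.LsF.fa94fc0_3.2, Cfsg.Agent.LsF.fa94fc0_7.2, Cfsg.Agent.LsF.instDecEq_eq, Cfsg.Agent.LsF.dAnd_eq, Cfsg.Agent.LsF.dBoolEq_eq, Cfsg.Agent.LsF.dBAll_eq, Cfsg.Agent.LsF.decide_eq])); decide +kernel)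

theorem o1_all : ∀ q : GolayPt, q ∈ fin 340831 → ∃ l ∈ o1, ev l (some 0) = q := by decide +kernel

theorem o2_ok : ∀ l ∈ o2, okTab l = true ∧ m24Tab l = true ∧ act l 340831 = 340831 ∧
    ev l none = none := by (refine of_decide_eq_true ?_; (try (rewrite [Cfsg.Agent.LsF.fa94fc0_0.2, Cfsg.Agent.LsF.fa94fc0_4.2, Cfsg.Agent.LsF.fa94fc0_3.2, Cfsg.Agent.LsF.fa94fc0_7.2, Cfsg.Agent.LsF.instDecEq_eq, Cfsg.Agent.LsF.dAnd_eq, Cfsg.Agent.LsF.dBoolEq_eq, Cfsg.Agent.LsF.dBAll_eq, Cfsg.Agent.LsF.decide_eq])); decide +kernel)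

theorem o2_all : ∀ q : GolayPt, q ∉ fin 340831 → q ≠ none → ∃ l ∈ o2, ev l (some 5) = q := by
  decide +kernel

theorem imgs_ok : ∀ l ∈ imgs, okTab l = true ∧ m24Tab l = true ∧ ev l none = none := by
  (refine of_decide_eq_true ?_; (try (rewrite [Cfsg.Agent.LsF.fa94fc0_0.2, Cfsg.Agent.LsF.fa94fc0_4.2, Cfsg.Agent.LsF.fa94fc0_7.2, Cfsg.Agent.LsF.dAnd_eq, Cfsg.Agent.LsF.dBoolEq_eq, Cfsg.Agent.LsF.dBAll_eq, Cfsg.Agent.LsF.decide_eq])); decide +kernel)

theorem imgs_nodup : (imgs.map fun l => act l 340831).Nodup := by decide +kernel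

theorem imgs_lt : ∀ m ∈ (imgs.map fun l => act l 340831), m < 2 ^ 24 := by decide +kernel

theorem imgs_length : imgs.length = 24 := by decide +kernel

theorem x11_ok : okTab x11 = true ∧ m24Tab x11 = true ∧ act x11 340831 = 340831 ∧
    ev x11 none = none := by decide +kernel

theorem y11_ok : okTab y11 = true ∧ m24Tab y11 = true ∧ act y11 340831 = 340831 ∧
    ev y11 none = none := by decide +kernel

theorem x11_pow : ∀ q, (ev x11)^[11] q = q := by decide +kernel

theorem x11_ne : ev x11 (some 0) ≠ some 0 := by decide +kernel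

theorem y11_pow : ∀ q, (ev y11)^[5] q = q := by decide +kernel

theorem y11_x11 : ∀ q, ev y11 (ev x11 q) = (ev x11)^[5] (ev y11 q) := by decide +kernel

theorem iterate_eq {g : Equiv.Perm GolayPt} {l : List ℕ} (h : ∀ q, g q = ev l q) (k : ℕ)
    (q : GolayPt) : (g ^ k) q = (ev l)^[k] q := by
  rw [Equiv.Perm.coe_pow]
  congr 1
  funext x
  exact h x

/-- The orbit of the dodecad is large. -/
theorem index_stab23 : (MulAction.stabilizer Spor.M23 (fin 340831)).index ≠ 23 := by
  rw [MulAction.index_stabilizer]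
  intro h
  have h1 : (((imgs.map fun l => act l 340831).toFinset.image fin : Finset (Finset GolayPt)) :
      Set (Finset GolayPt)) ⊆ MulAction.orbit Spor.M23 (fin 340831) := by
    intro t ht
    rw [Finset.mem_coe, Finset.mem_image] at ht
    obtain ⟨m, hm, rfl⟩ := ht
    rw [List.mem_toFinset, List.mem_map] at hm
    obtain ⟨l, hl, rfl⟩ := hm
    obtain ⟨h2, h3, h4⟩ := imgs_ok l hl
    obtain ⟨g, -, hg⟩ := exists_M23 l h2 h3 h4
    exact ⟨g, hg _⟩
  have h2 := Set.ncard_le_ncard h1 (Set.toFinite _)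
  rw [Set.ncard_coe_finset, Finset.card_image_of_injOn, List.toFinset_card_of_nodup imgs_nodup,
    List.length_map, imgs_length, h] at h2
  · omega
  · intro m hm m' hm' hmm
    rw [Finset.mem_coe, List.mem_toFinset] at hm hm'
    exact fin_injOn m m' (imgs_lt m hm) (imgs_lt m' hm') hmm

/-- The order of `M23` is not divisible by `23 ^ 2`. -/
theorem not_sq_dvd : ¬ 23 ^ 2 ∣ Nat.card Spor.M23 := by
  intro h
  let f : Spor.M23 →* Equiv.Perm {q : GolayPt // q ≠ none} :=
    { toFun := fun g => (g : Equiv.Perm GolayPt).subtypePerm (fun q => by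
        have h1 := (mem_M23.1 g.2).2
        constructor
        · intro h2 h3
          apply h2
          rw [h3, h1]
        · intro h2 h3
          apply h2
          apply (g : Equiv.Perm GolayPt).injective
          rw [h3, h1])
      map_one' := by
        apply Equiv.ext
        intro q
        rfl
      map_mul' := fun g g' => by
        apply Equiv.ext
        intro q
        rfl }
  have hf : Function.Injective f := by
    intro g g' hgg
    apply Subtype.ext
    apply Equiv.ext
    intro q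
    by_cases hq : q = none
    · rw [hq, (mem_M23.1 g.2).2, (mem_M23.1 g'.2).2]
    · have h1 := congrArg (fun σ : Equiv.Perm {q : GolayPt // q ≠ none} => (σ ⟨q, hq⟩ : GolayPt))
        hgg
      exact h1
  have h1 := Subgroup.card_dvd_of_injective f hf
  have h2 : Nat.card (Equiv.Perm {q : GolayPt // q ≠ none}) = Nat.factorial 23 := by
    rw [Nat.card_perm, Nat.card_eq_fintype_card]
    congr 1
  rw [h2] at h1
  have h3 := h.trans h1
  revert h3
  decide +kernel

/-- **`M23` is excluded.** -/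
theorem m23_false [Fact (Nat.Prime 11)] (h : ∀ M : Subgroup Spor.M23, IsCoatom M →
    HasNormalPComplement 11 M ∨ M.index = 23) : False := by
  set Y := MulAction.stabilizer Spor.M23 (fin 340831) with hY
  -- elements of `Y`
  have hYmem : ∀ (l : List ℕ), okTab l = true → m24Tab l = true → act l 340831 = 340831 →
      ev l none = none → ∃ g ∈ Y, ∀ q, (g : Equiv.Perm GolayPt) q = ev l q := by
    intro l h1 h2 h3 h4
    obtain ⟨g, hg1, hg2⟩ := exists_M23 l h1 h2 h4
    exact ⟨g, MulAction.mem_stabilizer_iff.2 (by rw [hg2, h3]), hg1⟩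
  have hYpt : ∀ g ∈ Y, ∀ q ∈ fin 340831, (g : Equiv.Perm GolayPt) q ∈ fin 340831 := by
    intro g hg q hq
    have h1 : g • fin 340831 = fin 340831 := MulAction.mem_stabilizer_iff.1 hg
    rw [← h1]
    exact Finset.smul_mem_smul_finset hq
  have hY1 : Y ≠ ⊤ := by
    intro h1
    -- the second image differs
    have h2 : ∀ l ∈ imgs, act l 340831 = 340831 := by
      intro l hl
      obtain ⟨h3, h4, h5⟩ := imgs_ok l hl
      obtain ⟨g, -, hg⟩ := exists_M23 l h3 h4 h5
      have h6 : g ∈ Y := h1 ▸ Subgroup.mem_top g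
      have h7 : g • fin 340831 = fin 340831 := MulAction.mem_stabilizer_iff.1 h6
      rw [hg] at h7
      exact fin_injOn _ _ (imgs_lt _ (List.mem_map.2 ⟨l, hl, rfl⟩)) (by decide) h7
    revert h2
    decide +kernel
  obtain ⟨M, hM, hYM⟩ := (eq_top_or_exists_le_coatom Y).resolve_left hY1
  rcases h M hM with h1 | h1
  · have h2 : HasNormalPComplement 11 Y := hnc_of_le hYM h1
    obtain ⟨a1, a2, a3, a4⟩ := x11_ok
    obtain ⟨b1, b2, b3, b4⟩ := y11_ok
    obtain ⟨x, hxY, hx⟩ := hYmem x11 a1 a2 a3 a4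
    obtain ⟨y, hyY, hy⟩ := hYmem y11 b1 b2 b3 b4
    refine not_hnc_of_normalizes (x := (⟨x, hxY⟩ : Y)) (y := ⟨y, hyY⟩) (k := 4) (m := 5)
      ?_ ?_ ?_ (by decide) ?_ (by decide) h2
    · intro h3
      have h4 : x = 1 := congrArg Subtype.val h3
      apply x11_ne
      rw [← hx, h4]
      rfl
    · apply Subtype.ext
      apply Subtype.ext
      apply Equiv.ext
      intro q
      change ((x : Equiv.Perm GolayPt) ^ 11) q = q
      rw [iterate_eq hx]
      exact x11_pow q
    · rw [mul_inv_eq_iff_eq_mul]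
      apply Subtype.ext
      apply Subtype.ext
      apply Equiv.ext
      intro q
      change (y : Equiv.Perm GolayPt) ((x : Equiv.Perm GolayPt) q)
        = ((x : Equiv.Perm GolayPt) ^ 5) ((y : Equiv.Perm GolayPt) q)
      rw [iterate_eq hx, hy, hy, hx]
      exact y11_x11 q
    · apply Subtype.ext
      apply Subtype.ext
      apply Equiv.ext
      intro q
      change ((y : Equiv.Perm GolayPt) ^ 5) q = q
      rw [iterate_eq hy]
      exact y11_pow q
  · -- `M` preserves the dodecad
    have hMD : M ≤ Y := by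
      by_contra hnot
      obtain ⟨g, hgM, hgY⟩ := SetLike.not_le_iff_exists.1 hnot
      -- a point of the dodecad moved outside
      obtain ⟨q, hq, hgq⟩ : ∃ q ∈ fin 340831, (g : Equiv.Perm GolayPt) q ∉ fin 340831 := by
        by_contra hno
        push Not at hno
        apply hgY
        rw [hY, MulAction.mem_stabilizer_iff]
        apply Finset.eq_of_subset_of_card_le
        · intro z hz
          rw [Finset.mem_smul_finset] at hz
          obtain ⟨w, hw, rfl⟩ := hz
          exact hno w hw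
        · rw [Finset.card_smul_finset]
      have hg0 : (g : Equiv.Perm GolayPt) q ≠ none := by
        intro h2
        have h3 : q = none := by
          apply (g : Equiv.Perm GolayPt).injective
          rw [h2, (mem_M23.1 g.2).2]
        rw [h3] at hq
        revert hq
        decide +kernel
      -- the orbit of `0` is everything but the extra point
      have horb : MulAction.orbit M (some 0 : GolayPt) = {z | z ≠ none} := by
        have horb1 : ∀ z ∈ fin 340831, z ∈ MulAction.orbit M (some 0 : GolayPt) := by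
          intro z hz
          obtain ⟨l, hl, hlz⟩ := o1_all z hz
          obtain ⟨c1, c2, c3, c4⟩ := o1_ok l hl
          obtain ⟨u, hu, hul⟩ := hYmem l c1 c2 c3 c4
          exact ⟨⟨u, hYM hu⟩, (hul _).trans hlz⟩
        have horb2 : ∀ z, z ∉ fin 340831 → z ≠ none → ∃ u ∈ Y, (u : Equiv.Perm GolayPt) (some 5) = z := by
          intro z hz hz0
          obtain ⟨l, hl, hlz⟩ := o2_all z hz hz0
          obtain ⟨c1, c2, c3, c4⟩ := o2_ok l hl
          obtain ⟨u, hu, hul⟩ := hYmem l c1 c2 c3 c4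
          exact ⟨u, hu, (hul _).trans hlz⟩
        ext z
        constructor
        · rintro ⟨u, rfl⟩ h2
          have h3 : (u.1 : Equiv.Perm GolayPt) (some 0) = none := h2
          have h4 : (some 0 : GolayPt) = none := by
            apply (u.1 : Equiv.Perm GolayPt).injective
            rw [h3, (mem_M23.1 u.1.2).2]
          exact absurd h4 (by simp)
        · intro hz
          by_cases hzD : z ∈ fin 340831
          · exact horb1 z hzD
          · obtain ⟨u, hu, hu5⟩ := horb2 z hzD hz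
            obtain ⟨v, hv, hv5⟩ := horb2 _ hgq hg0
            obtain ⟨w, hw⟩ := horb1 q hq
            refine ⟨⟨u, hYM hu⟩ * ⟨v, hYM hv⟩⁻¹ * ⟨g, hgM⟩ * w, ?_⟩
            change (u : Equiv.Perm GolayPt) ((v : Equiv.Perm GolayPt)⁻¹ ((g : Equiv.Perm GolayPt)
              ((w.1 : Equiv.Perm GolayPt) (some 0)))) = z
            have hw' : (w.1 : Equiv.Perm GolayPt) (some 0) = q := hw
            rw [hw', ← hv5]
            exact (congrArg (u : Equiv.Perm GolayPt)
              ((v : Equiv.Perm GolayPt).symm_apply_apply (some 5))).trans hu5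
      have h2 : 23 ∣ Nat.card M := by
        have h3 : Nat.card (MulAction.orbit M (some 0 : GolayPt)) ∣ Nat.card M := by
          rw [Nat.card_congr (MulAction.orbitEquivQuotientStabilizer M (some 0 : GolayPt))]
          exact Subgroup.card_quotient_dvd_card _
        rw [horb] at h3
        have h4 : Nat.card {z : GolayPt | z ≠ none} = 23 := by
          rw [Nat.card_eq_fintype_card]
          decide
        rwa [h4] at h3
      apply not_sq_dvd
      rw [← Subgroup.card_mul_index M, h1, pow_two]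
      exact Nat.mul_dvd_mul_right h2 23
    have h2 : M = Y := le_antisymm hMD hYM
    rw [h2] at h1
    exact index_stab23 h1

end Cfsg.Agent.H579.MathieuTab

private theorem dce_c8e5735e437b : _root_.True := by
  try have : _root_.True := by simp only [_root_.Cfsg.Spor.squareDodecad.eq_1]
  try have : _root_.True := by simp only [_root_.Cfsg.Spor.M12.eq_1]
  try have : _root_.True := by simp only [_root_.Cfsg.Spor.M23.eq_1]
  try have : _root_.True := by simp only [_root_.Cfsg.Agent.H579.MathieuTab.ev.eq_1]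
  try have : _root_.True := by simp only [_root_.Cfsg.Spor.M11.eq_1]
  exact _root_.True.intro
end

-- part: H579/SLSubfield
section
prune_inst 0x2
set_option linter.all false
open scoped Cfsg.Agent.FastGrp

set_option autoImplicit false

namespace Cfsg.Agent.H579.SLRed

open Cfsg Subgroup Cfsg.Agent.Transfer.PNilpotentBasic Matrix
open Cfsg.Agent.H579.MaxPNilRed Cfsg.Agent.H579.SLStab Cfsg.Agent.H579.SLAut
open Cfsg.Agent.ClassicalGeometry.AutPSL.Root
open Cfsg.Agent.ClassicalGeometry.AutPSL.Auto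

section sub

variable {n : ℕ} {K F : Type*} [Field K] [Fintype K] [Field F] [Fintype F] (φ : K →+* F)

/-- The image of `SL_n(K)`. -/
def subSL (n : ℕ) : Subgroup (Matrix.SpecialLinearGroup (Fin n) F) :=
  (Matrix.SpecialLinearGroup.map φ : Matrix.SpecialLinearGroup (Fin n) K →* _).range

/-- The image of `K` consists of the roots of `X ^ |K| - X`. -/
theorem mem_range_iff (x : F) : x ∈ Set.range φ ↔ x ^ Fintype.card K = x := by
  classical
  constructor
  · rintro ⟨y, rfl⟩
    rw [← map_pow, FiniteField.pow_card]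
  · intro hx
    have hq : 1 < Fintype.card K := Fintype.one_lt_card
    let P : Polynomial F := Polynomial.X ^ Fintype.card K - Polynomial.X
    have hP : P ≠ 0 := FiniteField.X_pow_card_sub_X_ne_zero F hq
    have hdeg : P.natDegree = Fintype.card K := FiniteField.X_pow_card_sub_X_natDegree_eq F hq
    have h1 : Finset.univ.image φ ⊆ P.roots.toFinset := by
      intro y hy
      obtain ⟨z, -, rfl⟩ := Finset.mem_image.1 hy
      rw [Multiset.mem_toFinset, Polynomial.mem_roots hP, Polynomial.IsRoot.def]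
      simp only [P, Polynomial.eval_sub, Polynomial.eval_pow, Polynomial.eval_X]
      rw [← map_pow, FiniteField.pow_card, sub_self]
    have h2 : P.roots.toFinset.card ≤ Fintype.card K :=
      (Multiset.toFinset_card_le _).trans ((Polynomial.card_roots' P).trans_eq hdeg)
    have h3 : (Finset.univ.image φ).card = Fintype.card K := by
      rw [Finset.card_image_of_injective _ φ.injective, Finset.card_univ]
    have h4 := Finset.eq_of_subset_of_card_le h1 (by rw [h3]; exact h2)
    have h5 : x ∈ P.roots.toFinset := by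
      rw [Multiset.mem_toFinset, Polynomial.mem_roots hP, Polynomial.IsRoot.def]
      simp only [P, Polynomial.eval_sub, Polynomial.eval_pow, Polynomial.eval_X]
      rw [hx, sub_self]
    rw [← h4] at h5
    obtain ⟨z, -, hz⟩ := Finset.mem_image.1 h5
    exact ⟨z, hz⟩

theorem subSL_fld (σ : F ≃+* F) (g : Matrix.SpecialLinearGroup (Fin n) F) (hg : g ∈ subSL φ n) :
    fld σ g ∈ subSL φ n := by
  obtain ⟨A, rfl⟩ := hg
  have h1 : ∀ a : K, ∃ b : K, φ b = σ (φ a) := by
    intro a
    have h2 : σ (φ a) ∈ Set.range φ := by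
      rw [mem_range_iff, ← map_pow, ← map_pow, FiniteField.pow_card]
    exact h2
  choose τ hτ using h1
  let B : Matrix (Fin n) (Fin n) K := fun i j => τ (A.1 i j)
  have hB : (B.map φ) = (fld σ (Matrix.SpecialLinearGroup.map φ A)).1 := by
    ext i j
    change φ (τ (A.1 i j)) = σ (φ (A.1 i j))
    exact hτ _
  have hdet : B.det = 1 := by
    apply φ.injective
    rw [RingHom.map_det, map_one]
    change (B.map φ).det = 1
    rw [hB]
    exact (fld σ (Matrix.SpecialLinearGroup.map φ A)).2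
  exact ⟨⟨B, hdet⟩, Subtype.ext hB⟩

theorem transvection_mem_subSL {i j : Fin n} (hij : i ≠ j) :
    Matrix.SpecialLinearGroup.transvection hij (1 : F) ∈ subSL φ n := by
  refine ⟨Matrix.SpecialLinearGroup.transvection hij (1 : K), ?_⟩
  apply Subtype.ext
  ext k l
  change φ (((1 : Matrix (Fin n) (Fin n) K) + single i j (1 : K) : Matrix (Fin n) (Fin n) K) k l)
    = ((1 : Matrix (Fin n) (Fin n) F) + single i j (1 : F) : Matrix (Fin n) (Fin n) F) k l
  rw [Matrix.add_apply, Matrix.add_apply, map_add, one_apply, single_apply, one_apply,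
    single_apply]
  split_ifs <;> simp

theorem subSL_irr (hn : 2 ≤ n) : Irr (subSL φ n) := by
  intro U hU
  by_cases hU1 : U = ⊥
  · exact Or.inl hU1
  right
  obtain ⟨v, hv, hv0⟩ := Submodule.exists_mem_ne_zero_of_ne_bot hU1
  obtain ⟨j, hj⟩ := Function.ne_iff.1 hv0
  have hj' : v j ≠ 0 := hj
  have h1 : ∀ i, i ≠ j → (ev i : Fin n → F) ∈ U := by
    intro i hij
    have h2 := hU _ (transvection_mem_subSL φ hij) v hv
    rw [Cfsg.Agent.LieClassical.SLGen.transvection_smul, U.add_mem_iff_right hv, one_mul,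
      U.smul_mem_iff hj'] at h2
    exact h2
  have hnt : Nontrivial (Fin n) := Fin.nontrivial_iff_two_le.2 hn
  obtain ⟨k, hk⟩ := exists_ne j
  apply eq_top_of_ev
  intro i
  by_cases hij : i = j
  · subst hij
    have h2 := hU _ (transvection_mem_subSL φ hk.symm) _ (h1 k hk)
    rw [Cfsg.Agent.LieClassical.SLGen.transvection_smul, U.add_mem_iff_right (h1 k hk), one_mul,
      show (ev k : Fin n → F) k = 1 from Pi.single_eq_same _ _, one_smul] at h2
    exact h2
  · exact h1 i hij

theorem subSL_ne_top (hn : 2 ≤ n) (h : Fintype.card K < Fintype.card F) : subSL φ n ≠ ⊤ := by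
  intro htop
  have hnt : Nontrivial (Fin n) := Fin.nontrivial_iff_two_le.2 hn
  obtain ⟨i, j, hij⟩ := exists_pair_ne (Fin n)
  have hns : ¬ Function.Surjective φ := by
    intro hs
    exact absurd (Fintype.card_le_of_surjective φ hs) (not_le.2 h)
  apply hns
  intro c
  have h1 : Matrix.SpecialLinearGroup.transvection hij c ∈ subSL φ n := htop ▸ Subgroup.mem_top _
  obtain ⟨A, hA⟩ := h1
  refine ⟨A.1 i j, ?_⟩
  have h2 : φ (A.1 i j) = ((1 : Matrix (Fin n) (Fin n) F) + single i j c) i j :=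
    congrFun (congrFun (congrArg Subtype.val hA) i) j
  rw [h2, Matrix.add_apply, one_apply, single_apply, if_neg hij, if_pos ⟨rfl, rfl⟩, zero_add]

theorem subSL_not_hnc {p : ℕ} [hp : Fact p.Prime] (hn : 3 ≤ n)
    (h : p ∣ Nat.card (Matrix.SpecialLinearGroup (Fin n) K)) :
    ¬ HasNormalPComplement p (subSL φ n) := by
  intro hh
  apply sl_not_hnc hn h
  refine hnc_of_injective ((Matrix.SpecialLinearGroup.map φ :
    Matrix.SpecialLinearGroup (Fin n) K →* Matrix.SpecialLinearGroup (Fin n) F).codRestrict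
    (subSL φ n) fun A => ⟨A, rfl⟩) ?_ hh
  intro A B hAB
  have h1 : Matrix.SpecialLinearGroup.map φ A = Matrix.SpecialLinearGroup.map φ B :=
    congrArg Subtype.val hAB
  apply Subtype.ext
  ext i j
  exact φ.injective (congrFun (congrFun (congrArg Subtype.val h1) i) j)

end sub

section ctx4

variable {Q : Type*} [Group Q] [Finite Q] {p : ℕ} [hp : Fact p.Prime]
variable {n : ℕ} {F : Type*} [Field F] [Fintype F] {N : Subgroup Q} {r : ℕ}

/-- Subfields. -/
theorem Ctx.not_dvd_subfield (C : Ctx p Q N r n F) (e : Matrix.SpecialLinearGroup (Fin n) F ≃* N)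
    (hn : 3 ≤ n) (hp2 : p ≠ 2) {ℓ d g : ℕ} [hℓ : Fact ℓ.Prime] [CharP F ℓ]
    (hF : Fintype.card F = ℓ ^ d) (hgd : g ∣ d) (hg0 : 0 < g) (hgd' : g < d) :
    ¬ p ∣ (ℓ ^ g) ^ (n - 1) - 1 := by
  classical
  intro h
  let K := GaloisField ℓ g
  have hKfin : Fintype K := Fintype.ofFinite K
  have hK : Fintype.card K = ℓ ^ g := by
    rw [← Nat.card_eq_fintype_card]
    exact GaloisField.card ℓ g hg0.ne'
  let _ : Algebra (ZMod ℓ) F := ZMod.algebra F ℓ
  have hfr : Module.finrank (ZMod ℓ) F = d := by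
    have h1 := FiniteField.pow_finrank_eq_card ℓ F
    rw [hF] at h1
    exact Nat.pow_right_injective hℓ.out.two_le h1
  obtain ⟨φ⟩ : Nonempty (K →ₐ[ZMod ℓ] F) := by
    apply FiniteField.nonempty_algHom_of_finrank_dvd
    rw [hfr, GaloisField.finrank ℓ hg0.ne']
    exact hgd
  have hlt : Fintype.card K < Fintype.card F := by
    rw [hK, hF]
    exact Nat.pow_lt_pow_right hℓ.out.one_lt hgd'
  -- `p` does not divide `|K| - 1`
  have hnd : ¬ p ∣ Fintype.card K - 1 := by
    intro h1
    apply C.not_dvd e hp2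
    rw [hK] at h1
    rw [hF]
    obtain ⟨c, rfl⟩ := hgd
    rw [pow_mul]
    exact h1.trans (by simpa using Nat.sub_dvd_pow_sub_pow (ℓ ^ g) 1 c)
  refine subSL_not_hnc (n := n) (φ : K →+* F) hn (p := p) ?_ ?_
  · exact dvd_card_SL (i := n - 1) (by omega) (by omega) (by rw [hK]; exact h) hnd
  · exact C.irr_hnc e (subSL (φ : K →+* F) n) (fun σ y hy => subSL_fld _ σ y hy)
      (subSL_irr _ C.two) (subSL_ne_top _ C.two hlt)

end ctx4

end Cfsg.Agent.H579.SLRed
end

-- part: H579/ElevenRed
section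
prune_inst 0x40030304403c012000000001260003c76da000500002b880159600f020c86ff6205022f60cc801e021a2aa28400310008130000700010000000000000411d05a1802b56069318ad0c36008f80b087180c00000000000000000000000000041000200000002
set_option linter.all false
open scoped Cfsg.Agent.FastGrp

set_option autoImplicit false

namespace Cfsg.Agent.H579.ElevenRed

open Cfsg Subgroup
open Cfsg.Agent.H579.MaxPNilRed Cfsg.Agent.H579.ElevenMat

instance fact5 : Fact (Nat.Prime 5) := ⟨by norm_num⟩

set_option linter.unusedSectionVars false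

section abstract

variable {Γ : Type*} [Group Γ] [Finite Γ] {H : Subgroup Γ} [hH : H.Normal]

/-- The action of `Γ` on the Sylow subgroups of the normal subgroup `H`. -/
noncomputable def ac (g : Γ) (P : Sylow 5 H) : Sylow 5 H := (MulAut.conjNormal g : MulAut H) • P

theorem ac_mul (g h : Γ) (P : Sylow 5 H) : ac (g * h) P = ac g (ac h P) := by
  rw [ac, ac, ac, map_mul, mul_smul]

theorem ac_one (P : Sylow 5 H) : ac (1 : Γ) P = P := by
  rw [ac, map_one, one_smul]

theorem mem_ac (g : Γ) (P : Sylow 5 H) (x : H) :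
    MulAut.conjNormal g x ∈ ac g P ↔ x ∈ P := by
  have h1 : (MulAut.conjNormal g : MulAut H) x ∈
      (((MulAut.conjNormal g : MulAut H) • P : Sylow 5 H) : Subgroup H) ↔ x ∈ (P : Subgroup H) := by
    rw [Sylow.pointwise_smul_def, Subgroup.mem_pointwise_smul_iff_inv_smul_mem]
    have : (MulAut.conjNormal g : MulAut H)⁻¹ • (MulAut.conjNormal g : MulAut H) x = x :=
      (MulAut.conjNormal g : MulAut H).symm_apply_apply x
    rw [this]
  exact h1

theorem ac_inj (g : Γ) {P P' : Sylow 5 H} (h : ac g P = ac g P') : P = P' := by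
  have h1 := congrArg (ac g⁻¹) h
  rw [← ac_mul, ← ac_mul, inv_mul_cancel, ac_one, ac_one] at h1
  exact h1

/-- `H` is transitive on its Sylow subgroups. -/
theorem exists_ac (P P' : Sylow 5 H) : ∃ h : H, ac (h : Γ) P = P' := by
  obtain ⟨h, hh⟩ := MulAction.exists_smul_eq H P P'
  refine ⟨h, ?_⟩
  rw [← hh]
  apply Sylow.ext
  ext x
  rw [Sylow.coe_subgroup_smul, Subgroup.mem_pointwise_smul_iff_inv_smul_mem, ac,
    Sylow.pointwise_smul_def, Subgroup.mem_pointwise_smul_iff_inv_smul_mem]
  have h1 : (MulAut.conjNormal (h : Γ) : MulAut H)⁻¹ • x = (MulAut.conj h)⁻¹ • x := by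
    apply Subtype.ext
    change ((MulAut.conjNormal (h : Γ) : MulAut H)⁻¹ x : Γ) = (((MulAut.conj h)⁻¹ x : H) : Γ)
    rw [← map_inv, ← map_inv, MulAut.conjNormal_apply, MulAut.conj_apply]
    rfl
  rw [h1]

/-- The hypotheses on the pair `H ≤ Γ`. -/
structure Hy (Γ : Type*) [Group Γ] (H : Subgroup Γ) [H.Normal] : Prop where
  card : Nat.card H = 60
  h1 : ∀ x n : H, x ^ 5 = 1 → x ≠ 1 → n * x = x * n → ∃ i : ℕ, n = x ^ i
  h2 : ∀ (g : Γ) (x : H), x ^ 5 = 1 → x ≠ 1 → MulAut.conjNormal g x ≠ x ^ 2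
  h3 : ∀ g : Γ, g ≠ 1 → ∀ x y : H, x ^ 5 = 1 → y ^ 5 = 1 → MulAut.conjNormal g x = x →
    MulAut.conjNormal g y = y → x * y = y * x

/-- Different Sylow subgroups do not normalise each other. -/
theorem eq_of_ac (P P' : Sylow 5 H) (hP : Nat.card P = 5) {y : H} (hy : y ∈ P) (hy1 : y ≠ 1)
    (h : ac (y : Γ) P' = P') : P = P' := by
  have h1 : y ∈ normalizer ((P' : Subgroup H) : Set H) := by
    rw [Subgroup.mem_normalizer_iff]
    intro z
    have h2 := mem_ac (y : Γ) P' z
    rw [h, MulAut.conjNormal_val, MulAut.conj_apply] at h2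
    exact h2.symm
  have h2 : zpowers y = (P : Subgroup H) := by
    apply Subgroup.eq_of_le_of_card_ge
    · rw [zpowers_le]
      exact hy
    · have h3 : orderOf y ∣ 5 := by
        rw [← hP]
        have : orderOf (⟨y, hy⟩ : (P : Subgroup H)) = orderOf y := Subgroup.orderOf_mk y hy
        rw [← this]
        exact orderOf_dvd_natCard _
      have h4 : orderOf y = 5 := by
        rcases (Nat.dvd_prime fact5.out).1 h3 with h5 | h5
        · exact absurd (orderOf_eq_one_iff.1 h5) hy1
        · exact h5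
      change Nat.card P ≤ _
      rw [hP, Nat.card_zpowers, h4]
  have h3 : (P : Subgroup H) ≤ normalizer ((P' : Subgroup H) : Set H) := by
    rw [← h2, zpowers_le]
    exact h1
  have h4 := P.isPGroup'.inf_normalizer_sylow P'
  have h5 : (P : Subgroup H) ≤ P' := by
    have h6 : (P : Subgroup H) ≤ (P : Subgroup H) ⊓ normalizer ((P' : Subgroup H) : Set H) :=
      le_inf le_rfl h3
    exact h6.trans (h4.le.trans inf_le_right)
  exact Sylow.ext (P.is_maximal' P'.isPGroup' h5).symm

/-- Elements normalising a Sylow subgroup fix it. -/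
theorem ac_of_mem (A : Sylow 5 H) (h : H) (hh : h ∈ normalizer ((A : Subgroup H) : Set H)) :
    ac (h : Γ) A = A := by
  apply Sylow.ext
  ext z
  rw [Subgroup.mem_normalizer_iff] at hh
  have h2 : z = MulAut.conjNormal (h : Γ) (h⁻¹ * z * h) := by
    rw [MulAut.conjNormal_val, MulAut.conj_apply]
    group
  have h3 := mem_ac (h : Γ) A (h⁻¹ * z * h)
  rw [← h2] at h3
  have h4 := hh (h⁻¹ * z * h)
  have h5 : h * (h⁻¹ * z * h) * h⁻¹ = z := by group
  rw [h5] at h4
  exact h3.trans h4

/-- The main argument. -/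
theorem eq_top (D : Hy Γ H) : H = ⊤ := by
  classical
  obtain ⟨P⟩ : Nonempty (Sylow 5 H) := inferInstance
  have hcard : ∀ A : Sylow 5 H, Nat.card A = 5 := by
    intro A
    have h1 := Sylow.card_eq_multiplicity A
    rw [D.card] at h1
    have h2 : (60 : ℕ).factorization 5 = 1 := by
      rw [show (60 : ℕ) = 5 * 12 by norm_num, Nat.factorization_mul (by norm_num) (by norm_num),
        Finsupp.add_apply, Nat.Prime.factorization_self fact5.out,
        Nat.factorization_eq_zero_of_not_dvd (by norm_num)]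
    rw [h2, pow_one] at h1
    exact h1
  -- generators
  have hgen : ∀ A : Sylow 5 H, ∃ x : H, x ∈ A ∧ x ≠ 1 ∧ x ^ 5 = 1 ∧ ∀ y ∈ A, ∃ i < 5, y = x ^ i := by
    intro A
    obtain ⟨x, hx⟩ := exists_prime_orderOf_dvd_card' (G := (A : Subgroup H)) 5
      (by rw [show Nat.card (A : Subgroup H) = 5 from hcard A])
    refine ⟨x, x.2, ?_, ?_, ?_⟩
    · intro h
      have h2 : x = 1 := Subtype.ext h
      rw [h2, orderOf_one] at hx
      omega
    · have h2 : x ^ 5 = 1 := by
        have h3 := pow_orderOf_eq_one x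
        rwa [hx] at h3
      exact congrArg Subtype.val h2
    · intro y hy
      have h3 : (⟨y, hy⟩ : (A : Subgroup H)) ∈ zpowers x := by
        have h4 : zpowers x = ⊤ := by
          apply Subgroup.eq_top_of_card_eq
          rw [Nat.card_zpowers, hx]
          exact (hcard A).symm
        rw [h4]
        exact Subgroup.mem_top _
      rw [mem_zpowers_iff_mem_range_orderOf, Finset.mem_image] at h3
      obtain ⟨i, hi, hix⟩ := h3
      rw [hx, Finset.mem_range] at hi
      exact ⟨i, hi, (congrArg Subtype.val hix).symm⟩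
  -- elements normalising a Sylow subgroup act by `±1`
  have hpm : ∀ (A : Sylow 5 H) (x : H), x ∈ A → x ≠ 1 → x ^ 5 = 1 →
      (∀ y ∈ A, ∃ i < 5, y = x ^ i) → ∀ g : Γ, ac g A = A →
      MulAut.conjNormal g x = x ∨ MulAut.conjNormal g x = x⁻¹ := by
    intro A x hxA hx1 hx5 hxg g hg
    have h1 : MulAut.conjNormal g x ∈ A := by
      rw [← hg, mem_ac]
      exact hxA
    obtain ⟨i, hi, hix⟩ := hxg _ h1
    have hinv : x⁻¹ = x ^ 4 := by
      rw [inv_eq_iff_mul_eq_one, ← pow_succ', hx5]
    interval_cases i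
    · exfalso
      rw [pow_zero] at hix
      exact hx1 ((MulAut.conjNormal g : MulAut H).injective (hix.trans (map_one _).symm))
    · left
      rw [hix, pow_one]
    · exact absurd hix (D.h2 g x hx5 hx1)
    · exfalso
      -- `g⁻¹` squares `x`
      apply D.h2 g⁻¹ x hx5 hx1
      have h2 : MulAut.conjNormal g (x ^ 2) = x := by
        rw [map_pow, hix, ← pow_mul]
        calc x ^ (3 * 2) = x ^ 5 * x := by rw [← pow_succ]
          _ = x := by rw [hx5, one_mul]
      rw [map_inv]
      change (MulAut.conjNormal g : MulAut H).symm x = x ^ 2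
      rw [MulEquiv.symm_apply_eq]
      exact h2.symm
    · right
      rw [hix, hinv]
  -- the normaliser of a Sylow subgroup has order at most `10`
  have hnorm : ∀ A : Sylow 5 H, Nat.card (normalizer ((A : Subgroup H) : Set H)) ≤ 10 := by
    intro A
    obtain ⟨x, hxA, hx1, hx5, hxg⟩ := hgen A
    have hac : ∀ h : H, h ∈ normalizer ((A : Subgroup H) : Set H) → ac (h : Γ) A = A := by
      intro h hh
      apply Sylow.ext
      ext z
      rw [Subgroup.mem_normalizer_iff] at hh
      have h2 : z = MulAut.conjNormal (h : Γ) (h⁻¹ * z * h) := by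
        rw [MulAut.conjNormal_val, MulAut.conj_apply]
        group
      have h3 := mem_ac (h : Γ) A (h⁻¹ * z * h)
      rw [← h2] at h3
      have h4 := hh (h⁻¹ * z * h)
      have h5 : h * (h⁻¹ * z * h) * h⁻¹ = z := by group
      rw [h5] at h4
      exact h3.trans h4
    by_cases hall : ∀ h ∈ normalizer ((A : Subgroup H) : Set H), h ∈ (A : Subgroup H)
    · have h2 : normalizer ((A : Subgroup H) : Set H) ≤ A := hall
      have h3 := Subgroup.card_le_of_le h2
      have h4 : Nat.card (A : Subgroup H) = 5 := hcard A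
      omega
    · push Not at hall
      obtain ⟨h0, hh0, hh0A⟩ := hall
      have h2 : (normalizer ((A : Subgroup H) : Set H) : Set H) ⊆
          (A : Set H) ∪ (fun z => h0 * z) '' (A : Set H) := by
        intro h hh
        have hmem : ∀ n : H, n * x = x * n → n ∈ (A : Set H) := by
          intro n hn
          obtain ⟨i, rfl⟩ := D.h1 x n hx5 hx1 hn
          exact (A : Subgroup H).pow_mem hxA i
        have hconj : ∀ n : H, MulAut.conjNormal (n : Γ) x = n * x * n⁻¹ := by
          intro n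
          rw [MulAut.conjNormal_val, MulAut.conj_apply]
        rcases hpm A x hxA hx1 hx5 hxg h (hac h hh) with h3 | h3
        · left
          apply hmem
          rw [hconj] at h3
          exact mul_inv_eq_iff_eq_mul.1 h3
        · right
          refine ⟨h0⁻¹ * h, ?_, by group⟩
          apply hmem
          have h4 : MulAut.conjNormal (h0 : Γ) x = x⁻¹ := by
            rcases hpm A x hxA hx1 hx5 hxg h0 (hac h0 hh0) with h5 | h5
            · exfalso
              apply hh0A
              apply hmem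
              rw [hconj] at h5
              exact mul_inv_eq_iff_eq_mul.1 h5
            · exact h5
          rw [hconj] at h3 h4
          have h5 : h0 * x⁻¹ * h0⁻¹ = x := by
            have := congrArg (·⁻¹) h4
            simpa [mul_assoc] using this
          have h6 : h0⁻¹ * x * h0 = x⁻¹ := by
            calc h0⁻¹ * x * h0 = h0⁻¹ * (h0 * x⁻¹ * h0⁻¹) * h0 := by rw [h5]
              _ = x⁻¹ := by group
          have h7 : h * x = x⁻¹ * h := mul_inv_eq_iff_eq_mul.1 h3
          have h8 : h0⁻¹ * x⁻¹ * h0 = x := by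
            have := congrArg (·⁻¹) h6
            simpa [mul_assoc] using this
          calc h0⁻¹ * h * x = h0⁻¹ * (h * x) := by group
            _ = (h0⁻¹ * x⁻¹ * h0) * (h0⁻¹ * h) := by rw [h7]; group
            _ = x * (h0⁻¹ * h) := by rw [h8]
      have h3 := Set.ncard_le_ncard h2 (Set.toFinite _)
      have h4 := Set.ncard_union_le (A : Set H) ((fun z => h0 * z) '' (A : Set H))
      have h5 : ((fun z => h0 * z) '' (A : Set H)).ncard = (A : Set H).ncard :=
        Set.ncard_image_of_injective _ (mul_right_injective h0)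
      have h6 : (A : Set H).ncard = 5 := hcard A
      have h7 : (normalizer ((A : Subgroup H) : Set H) : Set H).ncard
        = Nat.card (normalizer ((A : Subgroup H) : Set H)) := rfl
      omega
  -- there are six Sylow subgroups
  have hsix : Nat.card (Sylow 5 H) = 6 := by
    have h1 : Nat.card (Sylow 5 H) ∣ (P : Subgroup H).index := Sylow.card_dvd_index P
    have h2 : Nat.card (P : Subgroup H) * (P : Subgroup H).index = 60 := by
      rw [Subgroup.card_mul_index, D.card]
    rw [show Nat.card (P : Subgroup H) = 5 from hcard P] at h2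
    have h3 : (P : Subgroup H).index = 12 := by omega
    rw [h3] at h1
    have h4 := card_sylow_modEq_one 5 H
    have h5 : Nat.card (Sylow 5 H) ≤ 12 := Nat.le_of_dvd (by norm_num) h1
    have h6 : Nat.card (Sylow 5 H) = (normalizer ((P : Subgroup H) : Set H)).index :=
      Sylow.card_eq_index_normalizer P
    have h7 : Nat.card (normalizer ((P : Subgroup H) : Set H)) *
        (normalizer ((P : Subgroup H) : Set H)).index = 60 := by
      rw [Subgroup.card_mul_index, D.card]
    rw [← h6] at h7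
    have h8 := hnorm P
    set n := Nat.card (Sylow 5 H) with hn
    have h9 : 6 ≤ n := by
      by_contra hlt
      have : Nat.card (normalizer ((P : Subgroup H) : Set H)) * n ≤ 10 * 5 :=
        Nat.mul_le_mul h8 (by omega)
      omega
    unfold Nat.ModEq at h4
    interval_cases n <;> omega
  -- setup
  obtain ⟨x, hxP, hx1, hx5, hxg⟩ := hgen P
  have hmemP : ∀ n : H, n * x = x * n → n ∈ P := by
    intro n hn
    obtain ⟨i, rfl⟩ := D.h1 x n hx5 hx1 hn
    exact (P : Subgroup H).pow_mem hxP i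
  have hconj : ∀ n z : H, MulAut.conjNormal (n : Γ) z = n * z * n⁻¹ := by
    intro n z
    rw [MulAut.conjNormal_val, MulAut.conj_apply]
  have hPfix : ∀ y ∈ P, ac ((y : H) : Γ) P = P := fun y hy =>
    ac_of_mem P y (Subgroup.le_normalizer hy)
  obtain ⟨n0, hn0⟩ : ∃ n0 : H, MulAut.conjNormal (n0 : Γ) x = x⁻¹ := by
    have h6 : Nat.card (Sylow 5 H) = (normalizer ((P : Subgroup H) : Set H)).index :=
      Sylow.card_eq_index_normalizer P
    have h7 : Nat.card (normalizer ((P : Subgroup H) : Set H)) *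
        (normalizer ((P : Subgroup H) : Set H)).index = 60 := by
      rw [Subgroup.card_mul_index, D.card]
    rw [← h6, hsix] at h7
    by_contra hno
    push Not at hno
    have h8 : normalizer ((P : Subgroup H) : Set H) ≤ P := by
      intro h hh
      rcases hpm P x hxP hx1 hx5 hxg h (ac_of_mem P h hh) with h3 | h3
      · rw [hconj] at h3
        exact hmemP h (mul_inv_eq_iff_eq_mul.1 h3)
      · exact absurd h3 (hno h)
    have h9 := Subgroup.card_le_of_le h8
    have h10 : Nat.card (P : Subgroup H) = 5 := hcard P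
    omega
  by_contra htop
  obtain ⟨m, hm⟩ : ∃ m : Γ, m ∉ H := by
    by_contra h
    push Not at h
    exact htop (eq_top_iff.2 fun x _ => h x)
  obtain ⟨h, hh⟩ := exists_ac (ac m P) P
  obtain ⟨g, hgH, hgP, hgx⟩ : ∃ g : Γ, g ∉ H ∧ ac g P = P ∧ MulAut.conjNormal g x = x := by
    have h1 : (h : Γ) * m ∉ H := fun h2 => hm ((H.mul_mem_cancel_left h.2).1 h2)
    have h2 : ac ((h : Γ) * m) P = P := by rw [ac_mul, hh]
    rcases hpm P x hxP hx1 hx5 hxg _ h2 with h3 | h3
    · exact ⟨_, h1, h2, h3⟩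
    · refine ⟨(n0 : Γ) * (h * m), fun h4 => h1 ((H.mul_mem_cancel_left n0.2).1 h4), ?_, ?_⟩
      · rw [ac_mul, h2]
        apply Sylow.ext
        apply Subgroup.eq_of_le_of_card_ge
        · intro y hy
          have h4 : y = MulAut.conjNormal (n0 : Γ) ((MulAut.conjNormal (n0 : Γ) : MulAut H).symm y) :=
            ((MulAut.conjNormal (n0 : Γ) : MulAut H).apply_symm_apply y).symm
          have h5 : (MulAut.conjNormal (n0 : Γ) : MulAut H).symm y ∈ P := by
            rw [← mem_ac (n0 : Γ), ← h4]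
            exact hy
          obtain ⟨i, -, hi⟩ := hxg _ h5
          rw [h4, hi, map_pow, hn0]
          exact (P : Subgroup H).pow_mem ((P : Subgroup H).inv_mem hxP) i
        · exact ((hcard P).trans (hcard _).symm).le
      · rw [map_mul]
        change MulAut.conjNormal (n0 : Γ) (MulAut.conjNormal ((h : Γ) * m) x) = x
        rw [h3, map_inv, hn0, inv_inv]
  -- another Sylow subgroup
  obtain ⟨P₂, hP₂⟩ : ∃ P₂ : Sylow 5 H, P₂ ≠ P := by
    have h1 : Nontrivial (Sylow 5 H) := by
      rw [← Finite.one_lt_card_iff_nontrivial, hsix]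
      norm_num
    exact exists_ne P
  have hxi : ∀ i : ℕ, 0 < i → i < 5 → x ^ i ≠ 1 := by
    intro i hi hi5 h1
    have h2 : orderOf x = 5 := orderOf_eq_prime hx5 hx1
    have h3 := Nat.le_of_dvd hi (orderOf_dvd_of_pow_eq_one h1)
    omega
  have hpowP : ∀ i : ℕ, x ^ i ∈ P := fun i => (P : Subgroup H).pow_mem hxP i
  have hinj : Function.Injective (fun o : Option (Fin 5) =>
      (o.elim P (fun i => ac (((x ^ (i : ℕ) : H)) : Γ) P₂) : Sylow 5 H)) := by
    have h0 : ∀ i : ℕ, ac (((x ^ i : H)) : Γ) P₂ ≠ P := by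
      intro i h1
      apply hP₂
      apply ac_inj (((x ^ i : H)) : Γ)
      rw [h1, hPfix _ (hpowP i)]
    have h1 : ∀ i j : ℕ, i < j → j < 5 →
        ac (((x ^ i : H)) : Γ) P₂ ≠ ac (((x ^ j : H)) : Γ) P₂ := by
      intro i j hij hj h2
      apply hP₂
      symm
      have h3 : ac (((x ^ (j - i) : H)) : Γ) P₂ = P₂ := by
        apply ac_inj (((x ^ i : H)) : Γ)
        rw [← ac_mul, ← Subgroup.coe_mul, ← pow_add, h2]
        congr 3
        omega
      exact eq_of_ac P P₂ (hcard P) (hpowP (j - i)) (hxi _ (by omega) (by omega)) h3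
    intro a b hab
    rcases a with _ | a <;> rcases b with _ | b
    · rfl
    · exact absurd hab.symm (h0 b)
    · exact absurd hab (h0 a)
    · rcases lt_trichotomy (a : ℕ) b with h | h | h
      · exact absurd hab (h1 _ _ h b.2)
      · rw [Fin.ext h]
      · exact absurd hab.symm (h1 _ _ h a.2)
  have hbij := hinj.bijective_of_nat_card_le (by rw [hsix]; simp)
  have hall : ∀ A : Sylow 5 H, A ≠ P → ∃ i : ℕ, A = ac (((x ^ i : H)) : Γ) P₂ := by
    intro A hA
    obtain ⟨o, ho⟩ := hbij.2 A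
    rcases o with _ | i
    · exact absurd ho.symm hA
    · exact ⟨i, ho.symm⟩
  obtain ⟨a, ha⟩ := hall (ac g P₂) (fun h1 => hP₂ (ac_inj g (h1.trans hgP.symm)))
  -- an element fixing all Sylow subgroups
  obtain ⟨z, hzH, hzx, hzP, hzP₂⟩ : ∃ z : Γ, z ∉ H ∧ MulAut.conjNormal z x = x ∧ ac z P = P ∧
      ac z P₂ = P₂ := by
    refine ⟨((x ^ a : H) : Γ)⁻¹ * g, ?_, ?_, ?_, ?_⟩
    · intro h1
      exact hgH ((H.mul_mem_cancel_left (H.inv_mem (x ^ a).2)).1 h1)
    · rw [map_mul]
      change MulAut.conjNormal ((x ^ a : H) : Γ)⁻¹ (MulAut.conjNormal g x) = x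
      rw [hgx, ← Subgroup.coe_inv, hconj, inv_inv]
      have h1 : Commute ((x ^ a)⁻¹) x := ((Commute.refl x).pow_left a).inv_left
      rw [h1.eq]
      group
    · rw [ac_mul, hgP]
      have h1 := hPfix _ (hpowP a)
      conv_lhs => rw [← h1]
      rw [← ac_mul, inv_mul_cancel, ac_one]
    · rw [ac_mul, ha, ← ac_mul, inv_mul_cancel, ac_one]
  have hzx' : ∀ i : ℕ, z * ((x ^ i : H) : Γ) = ((x ^ i : H) : Γ) * z := by
    intro i
    have h1 : MulAut.conjNormal z (x ^ i) = x ^ i := by rw [map_pow, hzx]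
    have h2 := congrArg Subtype.val h1
    rw [MulAut.conjNormal_apply] at h2
    exact mul_inv_eq_iff_eq_mul.1 h2
  have hzall : ∀ A : Sylow 5 H, ac z A = A := by
    intro A
    by_cases hA : A = P
    · rw [hA, hzP]
    · obtain ⟨i, hi⟩ := hall A hA
      rw [hi, ← ac_mul, hzx', ac_mul, hzP₂]
  obtain ⟨u, hu⟩ := exists_ac P P₂
  have hz2all : ∀ A : Sylow 5 H, ac ((u : Γ)⁻¹ * z * u) A = A := by
    intro A
    rw [ac_mul, ac_mul, hzall, ← ac_mul, inv_mul_cancel, ac_one]
  rcases hpm P x hxP hx1 hx5 hxg _ (hz2all P) with h1 | h1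
  · -- `z` centralises `x` and `u x u⁻¹`
    have h2 : MulAut.conjNormal z (u * x * u⁻¹) = u * x * u⁻¹ := by
      have h3 : MulAut.conjNormal (u : Γ) (MulAut.conjNormal ((u : Γ)⁻¹ * z * u) x)
          = MulAut.conjNormal (u : Γ) x := by rw [h1]
      have h4 : MulAut.conjNormal (u : Γ) (MulAut.conjNormal ((u : Γ)⁻¹ * z * u) x)
          = MulAut.conjNormal z (MulAut.conjNormal (u : Γ) x) := by
        rw [← MulAut.mul_apply, ← MulAut.mul_apply, ← map_mul, ← map_mul]
        congr 2
        group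
      rw [h4, hconj] at h3
      exact h3
    have h3 : (u * x * u⁻¹) ^ 5 = 1 := by rw [conj_pow, hx5, mul_one, mul_inv_cancel]
    have hz1 : z ≠ 1 := fun h4 => hzH (h4 ▸ H.one_mem)
    have h4 := D.h3 z hz1 x (u * x * u⁻¹) hx5 h3 hzx h2
    have h5 : u * x * u⁻¹ ∈ P := hmemP _ h4.symm
    have h6 : u * x * u⁻¹ ∈ P₂ := by
      rw [← hu, ← hconj, mem_ac]
      exact hxP
    have h7 : u * x * u⁻¹ ≠ 1 := by
      intro h8
      apply hx1
      have h9 := congrArg (fun t => u⁻¹ * t * u) h8
      simpa [mul_assoc] using h9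
    exact hP₂ (eq_of_ac P P₂ (hcard P) h5 h7
      (ac_of_mem P₂ _ (Subgroup.le_normalizer h6))).symm
  · -- `u⁻¹ z u` inverts `x`
    set w := (u : Γ)⁻¹ * z * u with hw
    have h2 : w * (x : Γ) * w⁻¹ = (x : Γ)⁻¹ := by
      have h3 := congrArg Subtype.val h1
      rw [MulAut.conjNormal_apply] at h3
      exact h3
    have h3 : ac (x : Γ)⁻¹ P₂ = ac (x : Γ) P₂ := by
      have hwi : ac w⁻¹ P₂ = P₂ := by
        apply ac_inj w
        rw [← ac_mul, mul_inv_cancel, ac_one, hz2all]
      rw [← h2, ac_mul, ac_mul, hwi, hz2all]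
    have h4 : ac ((x ^ 2 : H) : Γ) P₂ = P₂ := by
      rw [pow_two, Subgroup.coe_mul, ac_mul, ← h3, ← ac_mul, mul_inv_cancel, ac_one]
    exact hP₂ (eq_of_ac P P₂ (hcard P) (hpowP 2) (hxi 2 (by norm_num) (by norm_num)) h4).symm

end abstract

/-- In the reduced situation with socle `PSL_2(11)` and `p = 5`, `r = 11`, the group is simple. -/
theorem eleven_top {Q : Type*} [Group Q] [Finite Q] {N : Subgroup Q} (R : Red 5 Q N 11)
    (e : N ≃* PS) : N = ⊤ := by
  classical
  have hN := R.normal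
  obtain ⟨M, hM, hNM, hidx⟩ := R.ex
  have hsup : N ⊔ M = ⊤ := by
    rw [sup_comm]
    exact hM.2 _ (left_lt_sup.2 hNM)
  have hrel : M.relIndex N = 11 := by rw [← index_eq_relIndex hsup, hidx]
  have hNc : Nat.card N = 660 := by rw [Nat.card_congr e.toEquiv, card_PS]
  have hcard : Nat.card (N.subgroupOf M) = 60 := by
    have h1 : Nat.card (N.subgroupOf M) = Nat.card (M.subgroupOf N) := by
      have h3 := Nat.card_congr (Subgroup.subgroupOfEquivOfLe (inf_le_left : N ⊓ M ≤ N)).toEquiv
      have h4 := Nat.card_congr (Subgroup.subgroupOfEquivOfLe (inf_le_right : N ⊓ M ≤ M)).toEquiv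
      rw [Subgroup.inf_subgroupOf_left] at h3
      rw [Subgroup.inf_subgroupOf_right] at h4
      rw [h3, h4]
    have h2 : Nat.card (M.subgroupOf N) * M.relIndex N = Nat.card N :=
      Subgroup.card_mul_index (M.subgroupOf N)
    rw [hrel, hNc] at h2
    omega
  -- the inclusion and the action
  let ι : (N.subgroupOf M) → N := fun x => ⟨x.1.1, Subgroup.mem_subgroupOf.1 x.2⟩
  have hι : Function.Injective ι := by
    intro x y h
    apply Subtype.ext
    apply Subtype.ext
    have h1 : ((ι x : N) : Q) = ((ι y : N) : Q) := congrArg Subtype.val h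
    exact h1
  have hιm : ∀ x y, ι (x * y) = ι x * ι y := fun x y => rfl
  have hι1 : ι 1 = 1 := rfl
  have hιp : ∀ x (i : ℕ), ι (x ^ i) = ι x ^ i := by
    intro x i
    apply Subtype.ext
    change (((x ^ i : N.subgroupOf M) : M) : Q) = ((ι x ^ i : N) : Q)
    push_cast
    rfl
  let β : Q →* MulAut N := MulAut.conjNormal
  let α : Q → MulAut PS := fun g => (e.symm.trans (β g)).trans e
  have hα : ∀ g y, α g (e y) = e (β g y) := by
    intro g y
    change e (β g (e.symm (e y))) = _
    rw [e.symm_apply_apply]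
  have hιc : ∀ (g : M) (x : N.subgroupOf M), ι (MulAut.conjNormal g x) = β g (ι x) := by
    intro g x
    apply Subtype.ext
    change (((MulAut.conjNormal g x : N.subgroupOf M) : M) : Q) =
      ((MulAut.conjNormal (g : Q) (ι x) : N) : Q)
    rw [MulAut.conjNormal_apply, MulAut.conjNormal_apply]
    rfl
  have hα1 : ∀ g : Q, g ≠ 1 → α g ≠ 1 := by
    intro g hg h
    apply hg
    have h1 : g ∈ centralizer (N : Set Q) := by
      rw [Subgroup.mem_centralizer_iff]
      intro y hy
      have h2 := hα g ⟨y, hy⟩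
      rw [h] at h2
      have h3 : (β g ⟨y, hy⟩ : N) = ⟨y, hy⟩ := (e.injective h2).symm
      have h4 := congrArg Subtype.val h3
      change ((MulAut.conjNormal g ⟨y, hy⟩ : N) : Q) = y at h4
      rw [MulAut.conjNormal_apply] at h4
      exact (mul_inv_eq_iff_eq_mul.1 h4).symm
    rw [R.cent] at h1
    exact Subgroup.mem_bot.1 h1
  have h5 : ∀ x : N.subgroupOf M, x ^ 5 = 1 → e (ι x) ^ 5 = 1 := by
    intro x hx
    rw [← map_pow, ← hιp, hx, hι1, map_one]
  have h51 : ∀ x : N.subgroupOf M, x ≠ 1 → e (ι x) ≠ 1 := by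
    intro x hx h
    apply hx
    apply hι
    apply e.injective
    rw [h, hι1, map_one]
  have D : Hy M (N.subgroupOf M) := by
    refine ⟨hcard, ?_, ?_, ?_⟩
    · intro x n hx hx1 hn
      obtain ⟨i, hi⟩ := mem_zpowers (h5 x hx) (h51 x hx1) (n := e (ι n))
        (by rw [← map_mul, ← map_mul, ← hιm, hn, hιm])
      refine ⟨i, hι (e.injective ?_)⟩
      rw [hi, hιp, map_pow]
    · intro g x hx hx1 h
      apply not_sq (α g) (h5 x hx) (h51 x hx1)
      rw [hα, ← hιc, h, hιp, map_pow]
    · intro g hg x y hx hy hgx hgy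
      have h1 : (g : Q) ≠ 1 := fun h => hg (Subtype.ext h)
      have h2 := commute_of_fixed (hα1 g h1) (h5 x hx) (h5 y hy)
        (by rw [hα, ← hιc, hgx]) (by rw [hα, ← hιc, hgy])
      rw [← map_mul, ← map_mul, ← hιm, ← hιm] at h2
      exact hι (e.injective h2)
  have h1 := eq_top D
  rw [Subgroup.subgroupOf_eq_top] at h1
  rw [← hsup]
  exact (sup_eq_left.2 h1).symm

end Cfsg.Agent.H579.ElevenRed

private theorem dce_233a6dd7a4ee : _root_.True := by
  try have : _root_.True := by simp only [_root_.Cfsg.Agent.H579.ElevenRed.ac.eq_1]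
  exact _root_.True.intro
end

-- part: H579/AltCase
section
prune_inst 0x1020314456c012000018000240003c76ea000502006b880159200e00058fff2205002761f4a01e000a18a64440390048131000700000000000000000011905a1802a56061320a10c26008f808086000000000000000000000000000000041000200000002
set_option linter.all false
open scoped Cfsg.Agent.FastGrp

set_option autoImplicit false

namespace Cfsg.Agent.H579.AltCase

open Cfsg Subgroup Cfsg.Agent.Transfer.PNilpotentBasic
open Cfsg.Agent.H579.MaxPNilRed
open scoped Pointwise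

section perm

variable {Ω : Type*} [Fintype Ω] [DecidableEq Ω] {p : ℕ} [hp : Fact p.Prime]

/-- A `p`-element fixing two given points and an even permutation inverting it, preserving the pair
of points. -/
theorem exists_perms (hp2 : p ≠ 2) {a b : Ω} (hab : a ≠ b) (hc : p + 2 ≤ Fintype.card Ω) :
    ∃ x y : Equiv.Perm Ω, x ∈ alternatingGroup Ω ∧ y ∈ alternatingGroup Ω ∧ x ≠ 1 ∧ x ^ p = 1 ∧
      y * x * y⁻¹ = x⁻¹ ∧ x a = a ∧ x b = b ∧ ((y a = a ∧ y b = b) ∨ (y a = b ∧ y b = a)) := by
  have hcard : Fintype.card (ZMod p) ≤ Fintype.card {z : Ω // z ≠ a ∧ z ≠ b} := by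
    rw [ZMod.card, Fintype.card_subtype]
    have h1 : (Finset.univ.filter fun z : Ω => z ≠ a ∧ z ≠ b) = Finset.univ \ {a, b} := by
      ext z
      simp
    rw [h1, Finset.card_sdiff_of_subset (Finset.subset_univ _), Finset.card_univ, Finset.card_pair hab]
    omega
  obtain ⟨g⟩ := Function.Embedding.nonempty_of_card_le hcard
  let g' : ZMod p → Ω := fun i => (g i : Ω)
  have hg' : Function.Injective g' := Subtype.val_injective.comp g.injective
  let f : ZMod p ≃ {z : Ω // z ∈ Set.range g'} := Equiv.ofInjective g' hg'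
  let H : Equiv.Perm (ZMod p) →* Equiv.Perm Ω := Equiv.Perm.extendDomainHom f
  have hH : Function.Injective H := Equiv.Perm.extendDomainHom_injective f
  have hfix : ∀ (σ : Equiv.Perm (ZMod p)) (z : Ω), z ∉ Set.range g' → H σ z = z := by
    intro σ z hz
    exact Equiv.Perm.extendDomain_apply_not_subtype σ f hz
  have ha : a ∉ Set.range g' := by
    rintro ⟨i, hi⟩
    exact (g i).2.1 hi
  have hb : b ∉ Set.range g' := by
    rintro ⟨i, hi⟩
    exact (g i).2.2 hi
  let x₀ : Equiv.Perm (ZMod p) := Equiv.addRight 1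
  let y₀ : Equiv.Perm (ZMod p) := Equiv.neg (ZMod p)
  have hxy : y₀ * x₀ * y₀⁻¹ = x₀⁻¹ := by
    ext i
    change -((-i) + 1) = i + -1
    ring
  have hxp : x₀ ^ p = 1 := by
    have h1 : ∀ k : ℕ, ∀ i, (x₀ ^ k) i = i + k := by
      intro k
      induction k with
      | zero => intro i; simp
      | succ k ih =>
        intro i
        rw [pow_succ', Equiv.Perm.mul_apply, ih]
        change i + k + 1 = _
        push_cast
        ring
    ext i
    rw [h1, ZMod.natCast_self, add_zero]
    rfl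
  have hx1 : x₀ ≠ 1 := by
    intro h
    have h1 := congrArg (fun σ : Equiv.Perm (ZMod p) => σ 0) h
    have h2 : (0 : ZMod p) + 1 = 0 := h1
    rw [zero_add] at h2
    exact one_ne_zero h2
  have hsw : ∀ σ, Equiv.swap a b * H σ = H σ * Equiv.swap a b := by
    intro σ
    have h1 : Equiv.swap (H σ a) (H σ b) = H σ * Equiv.swap a b * (H σ)⁻¹ :=
      Equiv.swap_apply_apply (H σ) a b
    rw [hfix σ a ha, hfix σ b hb] at h1
    exact mul_inv_eq_iff_eq_mul.1 h1.symm |>.symm
  have hxA : H x₀ ∈ alternatingGroup Ω := by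
    rw [Equiv.Perm.mem_alternatingGroup]
    have h1 : (Equiv.Perm.sign (H x₀)) ^ p = 1 := by
      rw [← map_pow, ← map_pow, hxp, map_one, map_one]
    rcases Int.units_eq_one_or (Equiv.Perm.sign (H x₀)) with h2 | h2
    · exact h2
    · rw [h2, (hp.out.odd_of_ne_two hp2).neg_one_pow] at h1
      exact absurd h1 (by decide)
  by_cases hy : Equiv.Perm.sign (H y₀) = 1
  · refine ⟨H x₀, H y₀, hxA, Equiv.Perm.mem_alternatingGroup.2 hy, ?_, ?_, ?_, hfix _ a ha,
      hfix _ b hb, Or.inl ⟨hfix _ a ha, hfix _ b hb⟩⟩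
    · intro h
      exact hx1 (hH (by rw [h, map_one]))
    · rw [← map_pow, hxp, map_one]
    · rw [← map_mul, ← map_inv, ← map_mul, hxy, map_inv]
  · have hy' : Equiv.Perm.sign (H y₀) = -1 := (Int.units_eq_one_or _).resolve_left hy
    refine ⟨H x₀, Equiv.swap a b * H y₀, hxA, ?_, ?_, ?_, ?_, hfix _ a ha,
      hfix _ b hb, Or.inr ⟨?_, ?_⟩⟩
    · rw [Equiv.Perm.mem_alternatingGroup, map_mul, Equiv.Perm.sign_swap hab, hy']
      decide
    · intro h
      exact hx1 (hH (by rw [h, map_one]))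
    · rw [← map_pow, hxp, map_one]
    · have h1 : Equiv.swap a b * H y₀ * H x₀ * (Equiv.swap a b * H y₀)⁻¹
          = Equiv.swap a b * (H (y₀ * x₀ * y₀⁻¹)) * (Equiv.swap a b)⁻¹ := by
        rw [map_mul, map_mul, map_inv]
        group
      rw [h1, hxy, hsw, mul_inv_cancel_right, map_inv]
    · rw [Equiv.Perm.mul_apply, hfix _ a ha, Equiv.swap_apply_left]
    · rw [Equiv.Perm.mul_apply, hfix _ b hb, Equiv.swap_apply_right]

end perm

variable {Q : Type*} [Group Q] [Finite Q] {p : ℕ} [hp : Fact p.Prime]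

/-- The action of `Q` on the cosets of a supplement of the socle is faithful. -/
theorem toPermHom_injective {N : Subgroup Q} {r : ℕ} (R : Red p Q N r) {M : Subgroup Q}
    (hNM : ¬ N ≤ M) : Function.Injective (MulAction.toPermHom Q (Q ⧸ M)) := by
  have hN := R.normal
  have hsimple := R.simple
  rw [← MonoidHom.ker_eq_bot_iff]
  set K := (MulAction.toPermHom Q (Q ⧸ M)).ker with hK
  have hKM : K ≤ M := by
    intro k hk
    have h1 : MulAction.toPermHom Q (Q ⧸ M) k = 1 := hk
    have h2 := congrArg (fun σ : Equiv.Perm (Q ⧸ M) => σ ((1 : Q) : Q ⧸ M)) h1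
    have h3 : ((k * 1 : Q) : Q ⧸ M) = ((1 : Q) : Q ⧸ M) := h2
    rw [mul_one, QuotientGroup.eq, mul_one] at h3
    exact (M.inv_mem_iff).1 h3
  have hKn : K.Normal := MonoidHom.normal_ker _
  have h1 : (K.subgroupOf N).Normal := inferInstance
  rcases h1.eq_bot_or_eq_top with h2 | h2
  · rw [Subgroup.subgroupOf_eq_bot] at h2
    rw [eq_bot_iff, ← R.cent]
    intro k hk
    rw [Subgroup.mem_centralizer_iff]
    intro y hy
    exact (Subgroup.commute_of_normal_of_disjoint N K hN hKn h2.symm y k hy hk)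
  · rw [Subgroup.subgroupOf_eq_top] at h2
    exact absurd (h2.trans hKM) hNM

/-- **Alternating socles do not occur.** -/
theorem alt_case (hp2 : p ≠ 2) {N : Subgroup Q} {r : ℕ} (R : Red p Q N r)
    (e : N ≃* alternatingGroup (Fin r)) : False := by
  classical
  have hN := R.normal
  have hr := R.prime
  have hfr : Fintype.card (Fin r) = r := Fintype.card_fin r
  have hnt : Nontrivial (Fin r) := Fin.nontrivial_iff_two_le.2 hr.two_le
  have hcN : Nat.card N = r.factorial / 2 := by
    rw [Nat.card_congr e.toEquiv, nat_card_alternatingGroup, Nat.card_eq_fintype_card, hfr]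
  have h2c : 2 * Nat.card N = r.factorial := by
    rw [Nat.card_congr e.toEquiv, two_mul_nat_card_alternatingGroup, Nat.card_perm,
      Nat.card_eq_fintype_card, hfr]
  have hpr : p ≤ r := by
    have h1 : p ∣ r.factorial := h2c ▸ Dvd.dvd.mul_left R.dvd 2
    exact (hp.out.dvd_factorial).1 h1
  have hpr' : p < r := lt_of_le_of_ne hpr R.ne.symm
  have hp3 : 3 ≤ p := by
    have := hp.out.two_le
    omega
  have hrodd : Odd r := hr.odd_of_ne_two (by omega)
  have hpodd : Odd p := hp.out.odd_of_ne_two hp2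
  have hpr2 : p + 2 ≤ r := by
    obtain ⟨s, hs⟩ := hrodd
    obtain ⟨t, ht⟩ := hpodd
    omega
  obtain ⟨M, hM, hNM, hi⟩ := R.ex
  have hΩ : Nat.card (Q ⧸ M) = r := by
    rw [← hi]
    rfl
  let _ : Fintype (Q ⧸ M) := Fintype.ofFinite _
  have hΩ' : Fintype.card (Q ⧸ M) = r := by rw [← Nat.card_eq_fintype_card, hΩ]
  set φ := MulAction.toPermHom Q (Q ⧸ M) with hφ
  have hinj : Function.Injective φ := toPermHom_injective R hNM
  have hntΩ : Nontrivial (Q ⧸ M) := by
    rw [← Fintype.one_lt_card_iff_nontrivial, hΩ']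
    exact hr.one_lt
  -- the image of `N` is the alternating group
  have hNA : N.map φ = alternatingGroup (Q ⧸ M) := by
    apply Equiv.Perm.eq_alternatingGroup_of_index_eq_two
    have h1 := Subgroup.card_mul_index (N.map φ)
    rw [Nat.card_perm, hΩ, Nat.card_congr (N.equivMapOfInjective φ hinj).symm.toEquiv,
      ← h2c] at h1
    have h2 : Nat.card N * (N.map φ).index = Nat.card N * 2 := by rw [h1, mul_comm]
    exact Nat.eq_of_mul_eq_mul_left Nat.card_pos h2
  have hlift : ∀ σ ∈ alternatingGroup (Q ⧸ M), ∃ n ∈ N, φ n = σ := by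
    intro σ hσ
    rw [← hNA] at hσ
    exact hσ
  obtain ⟨a, b, hab⟩ := exists_pair_ne (Q ⧸ M)
  obtain ⟨x, y, hxA, hyA, hx1, hxp, hxy, hxa, hxb, hyab⟩ :=
    exists_perms hp2 hab (by rw [hΩ']; exact hpr2)
  obtain ⟨x', hx'N, hx'⟩ := hlift x hxA
  obtain ⟨y', hy'N, hy'⟩ := hlift y hyA
  set s : Set (Q ⧸ M) := {a, b} with hs
  set D : Subgroup Q := MulAction.stabilizer Q s with hD
  have hsmul : ∀ (g : Q) (z : Q ⧸ M), g • z = φ g z := fun g z => rfl
  have hpair : ∀ g : Q, g • s = {g • a, g • b} := by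
    intro g
    rw [hs, Set.smul_set_insert, Set.smul_set_singleton]
  have hxD : x' ∈ D := by
    rw [hD, MulAction.mem_stabilizer_iff, hpair, hsmul, hsmul, hx', hxa, hxb]
  have hyD : y' ∈ D := by
    rw [hD, MulAction.mem_stabilizer_iff, hpair, hsmul, hsmul, hy']
    rcases hyab with ⟨h1, h2⟩ | ⟨h1, h2⟩
    · rw [h1, h2]
    · rw [h1, h2, Set.pair_comm]
  set X : Subgroup Q := D ⊓ N with hX
  have hXnot : ¬ HasNormalPComplement p X := by
    refine not_hnc_of_inverts hp2 (x := (⟨x', hxD, hx'N⟩ : X)) (y := ⟨y', hyD, hy'N⟩) ?_ ?_ ?_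
    · intro h
      apply hx1
      have h1 : x' = 1 := congrArg Subtype.val h
      rw [← hx', h1, map_one]
    · apply Subtype.ext
      apply hinj
      change φ (x' ^ p) = φ 1
      rw [map_pow, hx', hxp, map_one]
    · apply Subtype.ext
      apply hinj
      change φ (y' * x' * y'⁻¹) = φ x'⁻¹
      rw [map_mul, map_mul, map_inv, map_inv, hx', hy', hxy]
  have hDX : D ≤ normalizer (X : Set Q) := by
    intro g hg
    rw [Subgroup.mem_normalizer_iff]
    intro z
    rw [hX, Subgroup.mem_inf, Subgroup.mem_inf]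
    constructor
    · rintro ⟨h1, h2⟩
      exact ⟨D.mul_mem (D.mul_mem hg h1) (D.inv_mem hg), hN.conj_mem z h2 g⟩
    · rintro ⟨h1, h2⟩
      have h3 : z = g⁻¹ * (g * z * g⁻¹) * g := by group
      refine ⟨?_, ?_⟩
      · rw [h3]
        exact D.mul_mem (D.mul_mem (D.inv_mem hg) h1) hg
      · have h4 := hN.conj_mem _ h2 g⁻¹
        rw [inv_inv] at h4
        rw [h3]
        exact h4
  -- two-transitivity of the alternating group
  have h2t : ∀ {c d : Q ⧸ M}, c ≠ d → ∃ n ∈ N, n • a = c ∧ n • b = d := by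
    intro c d hcd
    have h1 := alternatingGroup.isMultiplyPretransitive (Q ⧸ M)
    have h2 : MulAction.IsMultiplyPretransitive (alternatingGroup (Q ⧸ M)) (Q ⧸ M) 2 := by
      refine MulAction.isMultiplyPretransitive_of_le (n := Nat.card (Q ⧸ M) - 2) ?_ ?_
      · rw [hΩ]; omega
      · rw [hΩ]; omega
    rw [MulAction.is_two_pretransitive_iff] at h2
    obtain ⟨σ, hσ1, hσ2⟩ := h2 hab hcd
    obtain ⟨n, hn, hnσ⟩ := hlift σ.1 σ.2
    refine ⟨n, hn, ?_, ?_⟩
    · rw [hsmul, hnσ]; exact hσ1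
    · rw [hsmul, hnσ]; exact hσ2
  have hND : N ⊔ normalizer (X : Set Q) = ⊤ := by
    rw [eq_top_iff]
    intro g _
    have hgab : g • a ≠ g • b := fun h => hab (smul_left_cancel g h)
    obtain ⟨n, hn, h1, h2⟩ := h2t hgab
    have h3 : n⁻¹ * g ∈ D := by
      rw [hD, MulAction.mem_stabilizer_iff, mul_smul, hpair g, ← h1, ← h2, ← hpair n,
        inv_smul_smul]
    have h4 : g = n * (n⁻¹ * g) := by group
    rw [h4]
    exact Subgroup.mul_mem_sup hn (hDX h3)
  have hX1 : X ≠ ⊥ := by
    intro h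
    apply hXnot
    apply hnc_of_coprime
    rw [h, Subgroup.card_bot]
    exact Nat.coprime_one_left p
  -- the stabiliser in the alternating group
  have hncard : s.ncard = 2 := Set.ncard_pair hab
  have hcoat : IsCoatom (MulAction.stabilizer (alternatingGroup (Q ⧸ M)) s) := by
    apply alternatingGroup.isCoatom_stabilizer_of_ncard_lt_ncard_compl
    · exact ⟨a, Or.inl rfl, b, Or.inr rfl, hab⟩
    · have h1 := Set.ncard_add_ncard_compl s
      rw [hΩ, hncard] at h1
      rw [hncard]
      omega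
  -- transport of subgroups of `N`
  let ψ : N →* alternatingGroup (Q ⧸ M) := (φ.comp N.subtype).codRestrict _ fun n => by
    rw [← hNA]
    exact ⟨n, n.2, rfl⟩
  have hψi : Function.Injective ψ := by
    intro u v huv
    apply Subtype.ext
    apply hinj
    exact congrArg Subtype.val huv
  have hψs : Function.Surjective ψ := by
    intro σ
    obtain ⟨n, hn, hnσ⟩ := hlift σ.1 σ.2
    exact ⟨⟨n, hn⟩, Subtype.ext hnσ⟩
  have hcomap : (MulAction.stabilizer (alternatingGroup (Q ⧸ M)) s).comap ψ = D.subgroupOf N := by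
    ext n
    rw [Subgroup.mem_comap, Subgroup.mem_subgroupOf, MulAction.mem_stabilizer_iff,
      MulAction.mem_stabilizer_iff]
    rfl
  have hX2 : ¬ N ≤ X := by
    intro h
    apply hcoat.1
    rw [eq_top_iff]
    intro σ _
    obtain ⟨n, rfl⟩ := hψs σ
    rw [← Subgroup.mem_comap, hcomap, Subgroup.mem_subgroupOf]
    exact (h n.2).1
  rcases R.sub hND hX1 hX2 inf_le_right with h | ⟨M', hM', hNM', hi', -, hXM'⟩
  · exact hXnot h
  · have hsup : N ⊔ M' = ⊤ := by
      rw [sup_comm]
      exact hM'.2 _ (left_lt_sup.2 hNM')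
    have h1 : M'.index = M'.relIndex N := index_eq_relIndex hsup
    set H := (M'.subgroupOf N).map ψ with hH
    have h2 : H.index = r := by
      have h3 : H.comap ψ = M'.subgroupOf N := Subgroup.comap_map_eq_self_of_injective hψi _
      rw [← Subgroup.index_comap_of_surjective H hψs, h3, ← hi', h1]
      rfl
    have h3 : MulAction.stabilizer (alternatingGroup (Q ⧸ M)) s ≤ H := by
      intro σ hσ
      obtain ⟨n, rfl⟩ := hψs σ
      rw [← Subgroup.mem_comap, hcomap, Subgroup.mem_subgroupOf] at hσ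
      exact ⟨n, hXM' ⟨hσ, n.2⟩, rfl⟩
    have h4 : H ≠ ⊤ := by
      intro h
      rw [h, Subgroup.index_top] at h2
      exact hr.one_lt.ne h2
    have h5 : H = MulAction.stabilizer (alternatingGroup (Q ⧸ M)) s := by
      rcases eq_or_lt_of_le h3 with h6 | h6
      · exact h6.symm
      · exact absurd (hcoat.2 _ h6) h4
    rw [h5, MulAction.index_stabilizer] at h2
    -- the orbit contains all pairs
    let F : Finset (Q ⧸ M) → Set (Q ⧸ M) := fun t => (t : Set (Q ⧸ M))
    have h6 : F '' ((Finset.powersetCard 2 (Finset.univ : Finset (Q ⧸ M)) :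
        Finset (Finset (Q ⧸ M))) : Set (Finset (Q ⧸ M)))
        ⊆ MulAction.orbit (alternatingGroup (Q ⧸ M)) s := by
      rintro _ ⟨t, ht, rfl⟩
      rw [Finset.mem_coe, Finset.mem_powersetCard] at ht
      obtain ⟨c, d, hcd, rfl⟩ := Finset.card_eq_two.1 ht.2
      obtain ⟨n, hn, hn1, hn2⟩ := h2t hcd
      refine ⟨ψ ⟨n, hn⟩, ?_⟩
      change n • s = _
      rw [hpair, hn1, hn2]
      simp [F]
    have h7 := Set.ncard_le_ncard h6 (Set.toFinite _)
    rw [Set.ncard_image_of_injective _ Finset.coe_injective, Set.ncard_coe_finset,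
      Finset.card_powersetCard, Finset.card_univ, hΩ', h2, Nat.choose_two_right] at h7
    have h8 : r * (r - 1) / 2 ≥ r * 2 := by
      rw [ge_iff_le, Nat.le_div_iff_mul_le (by omega), mul_assoc]
      exact Nat.mul_le_mul_left r (by omega)
    omega

end Cfsg.Agent.H579.AltCase
end

-- part: H579/SLFinal
section
prune_inst 0x410304540756212000018000242003c26f80005000063080068200c020d092f2285002f610e8014120aee22801801002813000050420000000a00000000050521802852041310ad0436008f801084000000000000000000000000000000000000200000002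
set_option linter.all false
open scoped Cfsg.Agent.FastGrp

set_option autoImplicit false

namespace Cfsg.Agent.H579.SLRed

open Cfsg Subgroup Cfsg.Agent.Transfer.PNilpotentBasic Matrix
open Cfsg.Agent.H579.MaxPNilRed Cfsg.Agent.H579.SLStab Cfsg.Agent.H579.SLAut
open Cfsg.Agent.ClassicalGeometry.AutPSL.Root
open Cfsg.Agent.ClassicalGeometry.AutPSL.Auto

section arith

theorem prime_of_geom {q n r : ℕ} (hq : 2 ≤ q) (hn : 2 ≤ n) (hr : r.Prime)
    (h : q ^ n - 1 = r * (q - 1)) : n.Prime := by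
  by_contra hnp
  obtain ⟨a, ⟨b, rfl⟩, ha1, ha2⟩ := Nat.exists_dvd_of_not_prime2 hn hnp
  have hb2 : 2 ≤ b := by
    by_contra hb
    have : b = 0 ∨ b = 1 := by omega
    rcases this with rfl | rfl
    · omega
    · omega
  obtain ⟨s, hs⟩ : (q - 1) ∣ q ^ a - 1 := by simpa only [_root_.one_pow] using Nat.sub_dvd_pow_sub_pow q 1 a
  obtain ⟨c, hc⟩ : (q ^ a - 1) ∣ q ^ (a * b) - 1 := by
    rw [pow_mul]
    simpa only [_root_.one_pow] using Nat.sub_dvd_pow_sub_pow (q ^ a) 1 b
  have h1 : r = s * c := by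
    have h2 : (q - 1) * r = (q - 1) * (s * c) := by
      rw [mul_comm, ← h, hc, hs, mul_assoc]
    exact Nat.eq_of_mul_eq_mul_left (by omega) h2
  have h3 : q ^ 1 < q ^ a := Nat.pow_lt_pow_right (by omega) (by omega)
  have h4 : q ^ a < q ^ (a * b) := Nat.pow_lt_pow_right (by omega) (by linarith only [ha2])
  rw [pow_one] at h3
  have hs1 : s ≠ 1 := by
    rintro rfl
    omega
  have hc1 : c ≠ 1 := by
    rintro rfl
    omega
  rw [h1] at hr
  rcases (Nat.prime_mul_iff.1 hr) with ⟨-, h5⟩ | ⟨-, h5⟩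
  · exact hc1 h5
  · exact hs1 h5

theorem coprime_of_geom {q n r : ℕ} (hq : 2 ≤ q) (hn : n.Prime) (hr : r.Prime)
    (h : q ^ n - 1 = r * (q - 1)) : Nat.Coprime n (q - 1) := by
  rw [Nat.Prime.coprime_iff_not_dvd hn]
  intro hd
  have h1 : r = ∑ i ∈ Finset.range n, q ^ i := by
    rw [Nat.geomSum_eq hq, h, Nat.mul_div_cancel _ (by omega)]
  have h2 : n ∣ r := by
    rw [← (ZMod.natCast_eq_zero_iff r n), h1, Nat.cast_sum]
    have h3 : (q : ZMod n) = 1 := by
      have h4 : ((q - 1 : ℕ) : ZMod n) = 0 := (ZMod.natCast_eq_zero_iff _ _).2 hd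
      rw [Nat.cast_sub (by omega), Nat.cast_one, sub_eq_zero] at h4
      exact h4
    simp [h3]
  have h3 : n = r := (Nat.prime_dvd_prime_iff_eq hn hr).1 h2
  have h4 : n < r := by
    conv_lhs => rw [← Finset.card_range n, Finset.card_eq_sum_ones]
    rw [h1]
    apply Finset.sum_lt_sum
    · intro i _
      exact Nat.one_le_pow _ _ (by omega)
    · refine ⟨1, Finset.mem_range.2 hn.one_lt, ?_⟩
      rw [pow_one]
      omega
  omega

end arith

section ctx5

variable {Q : Type*} [Group Q] [Finite Q] {p : ℕ} [hp : Fact p.Prime]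
variable {n : ℕ} {F : Type*} [Field F] [Fintype F] {N : Subgroup Q} {r : ℕ}

omit [Finite Q] in
/-- The possibilities for `p`. -/
theorem Ctx.cases (C : Ctx p Q N r n F) (e : Matrix.SpecialLinearGroup (Fin n) F ≃* N)
    (h0 : ¬ p ∣ Fintype.card F - 1) :
    p ∣ Fintype.card F ∨ ∃ j, 2 ≤ j ∧ j ≤ n - 1 ∧ p ∣ Fintype.card F ^ j - 1 := by
  have hne : Nonempty (Fin n) := ⟨⟨0, by have := C.two; omega⟩⟩
  have h1 : p ∣ Nat.card (Matrix.SpecialLinearGroup (Fin n) F) := by
    rw [Nat.card_congr e.toEquiv]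
    exact C.red.dvd
  have h2 : p ∣ Nat.card (GL (Fin n) F) := by
    rw [← Cfsg.Agent.ClassicalGeometry.PSL2Basic.card_SL_mul]
    exact Dvd.dvd.mul_right h1 _
  rw [Matrix.card_GL_field, hp.out.prime.dvd_finsetProd_iff] at h2
  obtain ⟨i, -, hi⟩ := h2
  have hi' : p ∣ Fintype.card F ^ n - Fintype.card F ^ (i : ℕ) := hi
  have h3 : Fintype.card F ^ n - Fintype.card F ^ (i : ℕ)
      = Fintype.card F ^ (i : ℕ) * (Fintype.card F ^ (n - i) - 1) := by
    rw [Nat.mul_sub, mul_one, ← pow_add, Nat.add_sub_cancel' i.2.le]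
  rw [h3] at hi'
  rcases hp.out.dvd_mul.1 hi' with h4 | h4
  · exact Or.inl (hp.out.dvd_of_dvd_pow h4)
  · right
    have hin : 1 ≤ n - i := by have := i.2; omega
    refine ⟨n - i, ?_, ?_, h4⟩
    · by_contra h5
      have h6 : n - i = 1 := by omega
      rw [h6, pow_one] at h4
      exact h0 h4
    · by_contra h5
      have h6 : n - i = n := by omega
      rw [h6, C.eq] at h4
      rcases hp.out.dvd_mul.1 h4 with h7 | h7
      · exact C.red.ne ((Nat.prime_dvd_prime_iff_eq hp.out C.red.prime).1 h7).symm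
      · exact h0 h7

/-- `|F|` is even. -/
theorem Ctx.not_odd (C : Ctx p Q N r n F) (e : Matrix.SpecialLinearGroup (Fin n) F ≃* N)
    (hn3 : 3 ≤ n) (hp2 : p ≠ 2) (h2 : (2 : F) ≠ 0)
    (h : p ∣ Fintype.card F ∨ (p ∣ Fintype.card F ^ (n - 1) - 1 ∧
      ∀ j, 1 ≤ j → j ≤ n - 2 → ¬ p ∣ Fintype.card F ^ j - 1)) : False := by
  have hodd : Odd n := by
    rcases C.odd with h3 | h3
    · omega
    · exact h3
  obtain ⟨m, hm⟩ := hodd
  have e0 : Unit ⊕ (Fin m ⊕ Fin m) ≃ Fin n :=
    Fintype.equivOfCardEq (by simp only [_root_.Fintype.card_sum, _root_.Fintype.card_unique, _root_.Fintype.card_fin]; omega)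
  have h3 : p ∣ Nat.card {v : Fin n → F // bil e0 v v = 1} := by
    rw [card_norm_one e0 h2]
    have h4 : Fintype.card F ^ m * Fintype.card F ^ m + Fintype.card F ^ m
        = Fintype.card F ^ m * (Fintype.card F ^ m + 1) := by ring
    rw [h4]
    rcases h with h5 | ⟨h5, h6⟩
    · exact Dvd.dvd.mul_right (h5.trans (dvd_pow_self _ (by omega))) _
    · apply Dvd.dvd.mul_left
      have h7 : n - 1 = m + m := by omega
      rw [h7, pow_add] at h5
      have h8 : 1 ≤ Fintype.card F ^ m := Nat.one_le_pow _ _ Fintype.card_pos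
      have h9 : Fintype.card F ^ m * Fintype.card F ^ m - 1
          = (Fintype.card F ^ m + 1) * (Fintype.card F ^ m - 1) := by
        obtain ⟨s, hs⟩ : ∃ s, Fintype.card F ^ m = s + 1 := ⟨_, (Nat.sub_add_cancel h8).symm⟩
        rw [hs]
        have : (s + 1) * (s + 1) = (s + 1 + 1) * s + 1 := by ring
        rw [this, Nat.add_sub_cancel, Nat.add_sub_cancel]
      rw [h9] at h5
      exact (hp.out.dvd_mul.1 h5).resolve_right (h6 m (by omega) (by omega))
  have hodd' : Odd n := ⟨m, hm⟩
  have h4 := orbit_dvd e0 hodd' h2 hp2 h3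
  exact not_hnc_of_closure hp2 (gens e0 hodd') (by
    rintro _ ⟨v, hv, rfl⟩
    exact rf_sq e0 hodd' v hv) h4
    (C.irr_hnc e (refl e0 hodd') (fun σ y hy => refl_fld e0 hodd' σ y hy)
      (refl_irr e0 hodd' h2) (refl_ne_top e0 hodd' hn3))

/-- **The conclusion for `SL_n(F)`.** -/
theorem Ctx.main (C : Ctx p Q N r n F) (e : Matrix.SpecialLinearGroup (Fin n) F ≃* N)
    (hp2 : p ≠ 2) (hnp : n.Prime) :
    3 ≤ n ∧ ∃ d : ℕ, Odd d ∧ Fintype.card F = 2 ^ d ∧ N.index ∣ d ∧
      ((2 ^ (d * n) - 1) / (2 ^ d - 1)).Prime ∧ p ∣ 2 ^ (d * (n - 1)) - 1 ∧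
      ∀ j : ℕ, 0 < j → j < d * (n - 1) → ¬ p ∣ 2 ^ j - 1 := by
  have hq2 : 2 ≤ Fintype.card F := Fintype.one_lt_card
  have h0 := C.not_dvd e hp2
  obtain ⟨ℓ, hℓ⟩ := CharP.exists F
  have hℓp : Fact ℓ.Prime := ⟨CharP.char_is_prime F ℓ⟩
  obtain ⟨k, -, hk⟩ := FiniteField.card F ℓ
  have hcases := C.cases e h0
  -- `n ≠ 2`
  have hn3 : 3 ≤ n := by
    by_contra hlt
    have hn2 : n = 2 := by have := hnp.two_le; omega
    subst hn2
    rcases hcases with h1 | ⟨j, hj1, hj2, -⟩
    · have h2 : Fintype.card F ^ 2 - 1 = (Fintype.card F + 1) * (Fintype.card F - 1) := by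
        obtain ⟨s, hs⟩ : ∃ s, Fintype.card F = s + 1 := ⟨Fintype.card F - 1, by omega⟩
        rw [hs, Nat.add_sub_cancel]
        have : (s + 1) ^ 2 = (s + 1 + 1) * s + 1 := by ring
        rw [this, Nat.add_sub_cancel]
      have h3 : r = Fintype.card F + 1 := by
        have h4 := C.eq
        rw [h2] at h4
        exact (Nat.eq_of_mul_eq_mul_right (by omega) h4).symm
      have h4 : Odd (Fintype.card F) := by
        rw [hk] at h1 ⊢
        have h5 : p = ℓ := (Nat.prime_dvd_prime_iff_eq hp.out hℓp.out).1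
          (hp.out.dvd_of_dvd_pow h1)
        rw [← h5]
        exact (hp.out.odd_of_ne_two hp2).pow
      have h5 : Even r := by
        rw [h3]
        exact h4.add_odd odd_one
      have h6 := (C.red.prime.even_iff).1 h5
      omega
    · omega
  -- primitivity with respect to `|F|`
  have hprim : (p ∣ Fintype.card F ∧ n = 3) ∨ (p ∣ Fintype.card F ^ (n - 1) - 1 ∧
      ∀ j, 1 ≤ j → j ≤ n - 2 → ¬ p ∣ Fintype.card F ^ j - 1) := by
    by_cases hn5 : 5 ≤ n
    · obtain ⟨m, rfl⟩ : ∃ m, n = 2 + m := ⟨n - 2, by omega⟩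
      have hm := C.not_dvd_levi e (by omega)
      rcases hcases with h1 | ⟨j, hj1, hj2, hj3⟩
      · exact absurd (char_dvd_card_SL (by omega) h1) hm
      · right
        have h1 : ∀ i, 1 ≤ i → i ≤ 2 + m - 2 → ¬ p ∣ Fintype.card F ^ i - 1 := by
          intro i hi1 hi2 hi3
          exact hm (dvd_card_SL hi1 (by omega) hi3 h0)
        refine ⟨?_, h1⟩
        have h2 : j = 2 + m - 1 := by
          by_contra hne
          exact h1 j (by omega) (by omega) hj3
        rw [← h2]
        exact hj3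
    · have hn : n = 3 := by
        have h1 : n = 3 ∨ n = 4 := by omega
        rcases h1 with h1 | h1
        · exact h1
        · subst h1
          exact absurd hnp (by decide)
      subst hn
      rcases hcases with h1 | ⟨j, hj1, hj2, hj3⟩
      · exact Or.inl ⟨h1, rfl⟩
      · right
        have h2 : j = 2 := by omega
        subst h2
        refine ⟨hj3, fun i hi1 hi2 hi3 => ?_⟩
        have h4 : i = 1 := by omega
        subst h4
        rw [pow_one] at hi3
        exact h0 hi3
  -- the characteristic is `2`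
  have hℓ2 : ℓ = 2 := by
    by_contra hne
    have h2 : (2 : F) ≠ 0 := by
      intro h
      have h3 : ((2 : ℕ) : F) = 0 := by exact_mod_cast h
      rw [CharP.cast_eq_zero_iff F ℓ, Nat.prime_dvd_prime_iff_eq hℓp.out Nat.prime_two] at h3
      exact hne h3
    refine C.not_odd e hn3 hp2 h2 ?_
    rcases hprim with ⟨h3, -⟩ | h3
    · exact Or.inl h3
    · exact Or.inr h3
  subst hℓ2
  set d : ℕ := (k : ℕ) with hd
  have hd0 : 0 < d := k.pos
  have hprim' := hprim.resolve_left (by
    rintro ⟨h1, -⟩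
    rw [hk] at h1
    exact hp2 ((Nat.prime_dvd_prime_iff_eq hp.out Nat.prime_two).1 (hp.out.dvd_of_dvd_pow h1)))
  obtain ⟨hpr1, hpr2⟩ := hprim'
  have hnodd : Odd n := hnp.odd_of_ne_two (by omega)
  have hreq : r * (2 ^ d - 1) = 2 ^ (d * n) - 1 := by
    have := C.eq
    rw [hk, ← pow_mul] at this
    exact this.symm
  have h2d : 2 ≤ 2 ^ d := by
    calc 2 = 2 ^ 1 := rfl
      _ ≤ 2 ^ d := Nat.pow_le_pow_right (by omega) hd0
  refine ⟨hn3, d, ?_, hk, ?_, ?_, ?_, ?_⟩
  · -- `d` is odd
    rw [← Nat.not_even_iff_odd]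
    rintro ⟨c, hc⟩
    have hc0 : 0 < c := by omega
    set s := 2 ^ c with hs
    have hs2 : 2 ≤ s := by
      calc 2 = 2 ^ 1 := rfl
        _ ≤ 2 ^ c := Nat.pow_le_pow_right (by omega) hc0
    have hds : 2 ^ d = s * s := by rw [hc, pow_add]
    have h1 : 2 ^ (d * n) = s ^ n * s ^ n := by
      rw [pow_mul, hds, mul_pow]
    rw [h1, hds] at hreq
    obtain ⟨A, hA⟩ : (s - 1) ∣ s ^ n - 1 := by simpa only [_root_.one_pow] using Nat.sub_dvd_pow_sub_pow s 1 n
    obtain ⟨B, hB⟩ : (s + 1) ∣ s ^ n + 1 := by simpa using hnodd.nat_add_dvd_pow_add_pow s 1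
    have hsn : s ^ 1 < s ^ n := Nat.pow_lt_pow_right (by omega) (by omega)
    rw [pow_one] at hsn
    have hA1 : A ≠ 1 := by
      rintro rfl
      omega
    have hB1 : B ≠ 1 := by
      rintro rfl
      omega
    have h2 : r = A * B := by
      obtain ⟨t, ht⟩ : ∃ t, s = t + 1 := ⟨s - 1, by omega⟩
      have h3 : s * s - 1 = (s - 1) * (s + 1) := by
        rw [ht, Nat.add_sub_cancel]
        have : (t + 1) * (t + 1) = t * (t + 1 + 1) + 1 := by ring
        rw [this, Nat.add_sub_cancel]
      have h4 : s ^ n * s ^ n - 1 = (s ^ n - 1) * (s ^ n + 1) := by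
        obtain ⟨u, hu⟩ : ∃ u, s ^ n = u + 1 := ⟨s ^ n - 1, by (clear * - hsn ht; omega)⟩
        rw [hu, Nat.add_sub_cancel]
        have : (u + 1) * (u + 1) = u * (u + 1 + 1) + 1 := by ring
        rw [this, Nat.add_sub_cancel]
      rw [h3, h4, hA, hB] at hreq
      have h5 : ((s - 1) * (s + 1)) * r = ((s - 1) * (s + 1)) * (A * B) := by
        linear_combination hreq
      exact Nat.eq_of_mul_eq_mul_left (Nat.mul_pos (by omega) (by omega)) h5
    have hr := C.red.prime
    rw [h2] at hr
    rcases (Nat.prime_mul_iff.1 hr) with ⟨-, h5⟩ | ⟨-, h5⟩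
    · exact hB1 h5
    · exact hA1 h5
  · -- the index
    have h1 := C.index_dvd e
    rwa [Cfsg.Agent.Lib.FieldAutCard.card_ringAut (p := 2) (f := d) hd0 hk] at h1
  · rw [← hreq, Nat.mul_div_cancel _ (by omega)]
    exact C.red.prime
  · rw [hk, ← pow_mul] at hpr1
    exact hpr1
  · -- primitivity
    intro j hj0 hj hpj
    have hodp : Nat.Coprime 2 p := (Nat.coprime_primes Nat.prime_two hp.out).2 (Ne.symm hp2)
    -- the order of `2` modulo `p`
    set u : (ZMod p)ˣ := ZMod.unitOfCoprime 2 hodp with hu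
    have hud : ∀ i : ℕ, p ∣ 2 ^ i - 1 ↔ orderOf u ∣ i := by
      intro i
      rw [orderOf_dvd_iff_pow_eq_one, ← Units.val_inj, Units.val_pow_eq_pow_val, hu,
        ZMod.coe_unitOfCoprime, Units.val_one, ← Nat.cast_pow, ← Nat.cast_one (R := ZMod p),
        ZMod.natCast_eq_natCast_iff]
      constructor
      · intro h
        exact ((Nat.modEq_iff_dvd' (Nat.one_le_pow _ _ (by omega))).2 h).symm
      · intro h
        exact (Nat.modEq_iff_dvd' (Nat.one_le_pow _ _ (by omega))).1 h.symm
    set t := orderOf u with ht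
    have ht0 : 0 < t := orderOf_pos u
    have htj : t ∣ j := (hud j).1 hpj
    have hq : ∀ i : ℕ, p ∣ Fintype.card F ^ i - 1 ↔ t ∣ d * i := by
      intro i
      rw [hk, ← pow_mul, hud]
    set g := Nat.gcd t d with hg
    have hg0 : 0 < g := Nat.gcd_pos_of_pos_left _ ht0
    obtain ⟨t', ht'⟩ : g ∣ t := Nat.gcd_dvd_left t d
    obtain ⟨d', hd'⟩ : g ∣ d := Nat.gcd_dvd_right t d
    have hco : Nat.Coprime t' d' := by
      have := Nat.coprime_div_gcd_div_gcd (m := t) (n := d) hg0
      have h1 : t / Nat.gcd t d = t' := by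
        rw [← hg]
        exact Nat.div_eq_of_eq_mul_right hg0 ht'
      have h2 : d / Nat.gcd t d = d' := by
        rw [← hg]
        exact Nat.div_eq_of_eq_mul_right hg0 hd'
      rwa [h1, h2] at this
    have hq' : ∀ i : ℕ, p ∣ Fintype.card F ^ i - 1 ↔ t' ∣ i := by
      intro i
      rw [hq, ht', hd', mul_assoc, Nat.mul_dvd_mul_iff_left hg0]
      constructor
      · intro h
        exact hco.dvd_of_dvd_mul_left h
      · intro h
        exact Dvd.dvd.mul_left h d'
    have ht'n : t' = n - 1 := by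
      have h1 : t' ∣ n - 1 := (hq' _).1 hpr1
      have h2 : t' ≤ n - 1 := Nat.le_of_dvd (by omega) h1
      by_contra hne
      have h3 : 1 ≤ t' := by
        rcases Nat.eq_zero_or_pos t' with h4 | h4
        · rw [h4, mul_zero] at ht'
          omega
        · exact h4
      exact hpr2 t' h3 (by omega) ((hq' _).2 dvd_rfl)
    -- `g < d`
    have hgd : g < d := by
      have h1 : t ≤ j := Nat.le_of_dvd hj0 htj
      have h2 : g * (n - 1) < d * (n - 1) := by
        rw [← ht'n, ← ht']
        rw [← ht'n] at hj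
        omega
      exact lt_of_mul_lt_mul_right h2 (Nat.zero_le _)
    refine C.not_dvd_subfield e hn3 hp2 hk (Nat.gcd_dvd_right t d) hg0 hgd ?_
    rw [← pow_mul, hud]
    change t ∣ g * (n - 1)
    rw [← ht'n, ← ht']

end ctx5

/-- **The conclusion for the socle `PSL_n(F)`.** -/
theorem psl_case {Q : Type*} [Group Q] [Finite Q] {p : ℕ} [hp : Fact p.Prime] (hp2 : p ≠ 2)
    {N : Subgroup Q} {r : ℕ} (R : Red p Q N r) {n : ℕ} (hn : 2 ≤ n) {F : Type} [Field F]
    [Fintype F] (e : N ≃* Matrix.ProjectiveSpecialLinearGroup (Fin n) F)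
    (heq : Fintype.card F ^ n - 1 = r * (Fintype.card F - 1)) :
    ∃ (n d : ℕ), n.Prime ∧ 3 ≤ n ∧ Odd d ∧ Nat.Coprime n (2 ^ d - 1) ∧
      ((2 ^ (d * n) - 1) / (2 ^ d - 1)).Prime ∧
      p ∣ 2 ^ (d * (n - 1)) - 1 ∧ (∀ j : ℕ, 0 < j → j < d * (n - 1) → ¬ p ∣ 2 ^ j - 1) ∧
      ∃ (F : Type) (_ : Field F) (_ : Fintype F), Fintype.card F = 2 ^ d ∧
        ∃ N : Subgroup Q, N.Normal ∧ N.index ∣ d ∧
          Subgroup.centralizer (N : Set Q) = ⊥ ∧
          Nonempty (↥N ≃* Matrix.ProjectiveSpecialLinearGroup (Fin n) F) := by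
  have hq2 : 2 ≤ Fintype.card F := Fintype.one_lt_card
  have hnp : n.Prime := prime_of_geom hq2 hn R.prime heq
  have hcop := coprime_of_geom hq2 hnp R.prime heq
  have C : Ctx p Q N r n F := ⟨R, hn, hnp.eq_two_or_odd', hcop, heq⟩
  obtain ⟨hn3, d, h1, h2, h3, h4, h5, h6⟩ :=
    C.main ((prEquiv hn hcop).trans e.symm) hp2 hnp
  rw [h2] at hcop
  exact ⟨n, d, hnp, hn3, h1, hcop, h4, h5, h6, F, inferInstance, inferInstance, h2, N, R.normal,
    h3, R.cent, ⟨e⟩⟩

end Cfsg.Agent.H579.SLRed
end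

-- part: H579/RedMod
section
prune_inst 0x2
set_option linter.all false
open scoped Cfsg.Agent.FastGrp

set_option autoImplicit false

namespace Cfsg.Agent.H579.RedMod

open Cfsg Subgroup Cfsg.Agent.Transfer.PNilpotentBasic
open Cfsg.Agent.H579.MaxPNilRed

/-- A subgroup containing the normaliser of a Sylow `p`-subgroup has index `1` modulo `p`. -/
theorem index_modEq {G : Type*} [Group G] [Finite G] {p : ℕ} [hp : Fact p.Prime] (P : Sylow p G)
    {H : Subgroup G} (h : normalizer ((P : Subgroup G) : Set G) ≤ H) : H.index ≡ 1 [MOD p] := by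
  have hPH : (P : Subgroup G) ≤ H := le_normalizer.trans h
  have h1 : (normalizer (((P.subtype hPH : Sylow p H) : Subgroup H) : Set H)) =
      (normalizer ((P : Subgroup G) : Set G)).subgroupOf H := by
    rw [Sylow.coe_subtype]
    ext x
    rw [Subgroup.mem_subgroupOf, Subgroup.mem_normalizer_iff, Subgroup.mem_normalizer_iff]
    constructor
    · intro hx y
      constructor
      · intro hy
        exact (hx ⟨y, hPH hy⟩).1 hy
      · intro hy
        have hyH : y ∈ H := by
          have h2 := hPH hy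
          have h3 : y = (x : G)⁻¹ * ((x : G) * y * (x : G)⁻¹) * (x : G) := by group
          rw [h3]
          exact H.mul_mem (H.mul_mem (H.inv_mem x.2) h2) x.2
        exact (hx ⟨y, hyH⟩).2 hy
    · intro hx y
      exact hx (y : G)
  have h2 := card_sylow_modEq_one p H
  rw [Sylow.card_eq_index_normalizer (P.subtype hPH)] at h2
  replace h2 : (normalizer (((P.subtype hPH : Sylow p H) : Subgroup H) : Set H)).index
    ≡ 1 [MOD p] := h2
  rw [h1] at h2
  have h3 := card_sylow_modEq_one p G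
  rw [Sylow.card_eq_index_normalizer P] at h3
  replace h3 : (normalizer ((P : Subgroup G) : Set G)).index ≡ 1 [MOD p] := h3
  have h4 : (normalizer ((P : Subgroup G) : Set G)).relIndex H * H.index =
      (normalizer ((P : Subgroup G) : Set G)).index := Subgroup.relIndex_mul_index h
  have h5 : (normalizer ((P : Subgroup G) : Set G)).relIndex H ≡ 1 [MOD p] := h2
  rw [← h4] at h3
  have h6 := (h5.mul_right H.index).symm.trans h3
  rwa [one_mul] at h6

variable {Q : Type*} [Group Q] [Finite Q] {p : ℕ} [hp : Fact p.Prime]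

/-- The socle has no normal `p`-complement. -/
theorem not_hnc_socle {N : Subgroup Q} {r : ℕ} (R : Red p Q N r) : ¬ HasNormalPComplement p N := by
  intro h
  have hsimple := R.simple
  obtain ⟨K, hK, h1, k, h2⟩ :=
    Cfsg.Agent.OddOrderLocal.NilpotentQuotient.exists_of_hasNormalPComplement h
  rcases hK.eq_bot_or_eq_top with h3 | h3
  · subst h3
    rw [Subgroup.index_bot] at h2
    have h4 : IsPGroup p N := IsPGroup.of_card h2
    have h5 : Group.IsNilpotent N := h4.isNilpotent
    have h6 : Subgroup.center N = ⊤ := by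
      rcases (inferInstance : (Subgroup.center N).Normal).eq_bot_or_eq_top with h7 | h7
      · have h8 : Nontrivial (Subgroup.center N) := h4.center_nontrivial
        exact absurd h7 ((Subgroup.nontrivial_iff_ne_bot _).1 h8)
      · exact h7
    apply R.notComm
    intro a b
    have : a ∈ Subgroup.center N := h6 ▸ Subgroup.mem_top a
    exact ((Subgroup.mem_center_iff.1 this) b).symm
  · subst h3
    apply h1
    rw [Subgroup.card_top]
    exact R.dvd

/-- **The prime index is `1` modulo `p`.** -/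
theorem modEq (hp2 : p ≠ 2) {N : Subgroup Q} {r : ℕ} (R : Red p Q N r) : r ≡ 1 [MOD p] := by
  have hN := R.normal
  have hsimple := R.simple
  obtain ⟨P⟩ : Nonempty (Sylow p N) := inferInstance
  set P' : Subgroup Q := (P : Subgroup N).map N.subtype with hP'
  set Z' : Subgroup Q := centerThompsonOf p P' with hZ'
  set Z : Subgroup N := centerThompsonOf p (P : Subgroup N) with hZ
  have hmapZ : Z.map N.subtype = Z' :=
    Cfsg.Agent.S0117.map_centerThompsonOf p N.subtype P N.subtype_injective.injOn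
  have hP1 : (P : Subgroup N) ≠ ⊥ := fun h => P.ne_bot_of_dvd_card R.dvd h
  have hZ1 : Z ≠ ⊥ := Cfsg.Agent.S0117.centerThompsonOf_ne_bot P.isPGroup' hP1
  have hZ'1 : Z' ≠ ⊥ := by
    rw [← hmapZ]
    intro h
    exact hZ1 ((Subgroup.map_eq_bot_iff_of_injective Z N.subtype_injective).1 h)
  have hfr : normalizer (P' : Set Q) ⊔ N = ⊤ := Sylow.normalizer_sup_eq_top P
  have hle : normalizer (P' : Set Q) ≤ normalizer (Z' : Set Q) := normalizer_map_le
  -- `X = N_N(Z')`
  set X : Subgroup Q := (normalizer (Z : Set N)).map N.subtype with hX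
  have hXle : X ≤ normalizer (Z' : Set Q) := by
    rintro _ ⟨g, hg, rfl⟩
    rw [SetLike.mem_coe, Subgroup.mem_normalizer_iff_map_conj_eq] at hg
    rw [Subgroup.mem_normalizer_iff_map_conj_eq, ← hmapZ, Subgroup.map_map]
    conv_rhs => rw [← hg, Subgroup.map_map]
    congr 1
  have hXeq : X = normalizer (Z' : Set Q) ⊓ N := by
    apply le_antisymm
    · exact le_inf hXle (Subgroup.map_subtype_le _)
    · rintro g ⟨hg1, hg2⟩
      refine ⟨⟨g, hg2⟩, ?_, rfl⟩
      rw [SetLike.mem_coe, Subgroup.mem_normalizer_iff]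
      intro y
      have h3 := (Subgroup.mem_normalizer_iff.1 hg1) (y : Q)
      rw [← hmapZ] at h3
      have h4 : ∀ z : N, (z : Q) ∈ Z.map N.subtype ↔ z ∈ Z := by
        intro z
        constructor
        · rintro ⟨w, hw, hwz⟩
          have : w = z := Subtype.ext hwz
          rwa [← this]
        · intro hz
          exact ⟨z, hz, rfl⟩
      rw [h4] at h3
      have h5 : g * (y : Q) * g⁻¹ = ((⟨g, hg2⟩ * y * ⟨g, hg2⟩⁻¹ : N) : Q) := rfl
      rw [h5, h4] at h3
      exact h3
  have hnX : normalizer (Z' : Set Q) ≤ normalizer (X : Set Q) := by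
    rw [hXeq]
    intro g hg
    rw [Subgroup.mem_normalizer_iff]
    intro z
    rw [Subgroup.mem_inf, Subgroup.mem_inf]
    constructor
    · rintro ⟨h1, h2⟩
      exact ⟨mul_mem (mul_mem hg h1) (inv_mem hg), hN.conj_mem z h2 g⟩
    · rintro ⟨h1, h2⟩
      have h3 : z = g⁻¹ * (g * z * g⁻¹) * g := by group
      refine ⟨?_, ?_⟩
      · rw [h3]
        exact mul_mem (mul_mem (inv_mem hg) h1) hg
      · have h4 := hN.conj_mem _ h2 g⁻¹
        rw [inv_inv] at h4
        rw [h3]
        exact h4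
  have hsup : N ⊔ normalizer (X : Set Q) = ⊤ := by
    rw [sup_comm]
    exact top_le_iff.1 (hfr.symm.le.trans (sup_le_sup_right (hle.trans hnX) N))
  have hnot : ¬ HasNormalPComplement p X := by
    intro h
    apply not_hnc_socle R
    rw [Cfsg.Agent.S0117.result hp2 P]
    exact (hnc_congr ((normalizer (Z : Set N)).equivMapOfInjective N.subtype
      N.subtype_injective)).1 h
  have hX1 : X ≠ ⊥ := by
    intro h
    apply hnot
    apply hnc_of_coprime
    rw [h, Subgroup.card_bot]
    exact Nat.coprime_one_left p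
  have hX2 : ¬ N ≤ X := by
    intro h
    have h1 : normalizer (Z : Set N) = ⊤ := by
      rw [eq_top_iff]
      intro g _
      obtain ⟨w, hw, hwg⟩ := h g.2
      have : w = g := Subtype.ext hwg
      rwa [← this]
    have hZn : Z.Normal := Subgroup.normalizer_eq_top_iff.1 h1
    rcases hZn.eq_bot_or_eq_top with h2 | h2
    · exact hZ1 h2
    · -- `N` is a `p`-group
      apply not_hnc_socle R
      apply hnc_of_isPGroup
      have h3 : (P : Subgroup N) = ⊤ := by
        rw [eq_top_iff, ← h2]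
        exact Cfsg.Agent.S0117.centerThompsonOf_le p _
      exact (P.isPGroup'.of_equiv (MulEquiv.subgroupCongr h3)).of_equiv Subgroup.topEquiv
  rcases R.sub hsup hX1 hX2 (Subgroup.map_subtype_le _) with h | ⟨M, hM, hNM, hi, hXM, -⟩
  · exact absurd h hnot
  · have hNM' : N ⊔ M = ⊤ := by
      rw [sup_comm]
      exact hM.2 _ (left_lt_sup.2 hNM)
    have h1 : M.index = M.relIndex N := index_eq_relIndex hNM'
    have h2 : normalizer ((P : Subgroup N) : Set N) ≤ M.subgroupOf N := by
      intro g hg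
      rw [Subgroup.mem_subgroupOf]
      apply hXM
      apply hnX
      apply hle
      rw [Subgroup.mem_normalizer_iff_map_conj_eq] at hg ⊢
      rw [hP', Subgroup.map_map]
      conv_rhs => rw [← hg, Subgroup.map_map]
      congr 1
    have h3 := index_modEq P h2
    rw [← hi, h1]
    exact h3

end Cfsg.Agent.H579.RedMod
end

-- part: H579/InnerRed
section
set_option linter.all false
open scoped Cfsg.Agent.FastGrp

set_option autoImplicit false

namespace Cfsg.Agent.H579.InnerRed

open Cfsg Subgroup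
open Cfsg.Agent.H579.MaxPNilRed

/-- If all automorphisms of the self-centralising normal subgroup `N` are inner, then `N` is everything. -/
theorem top_of_inner {Q : Type*} [Group Q] {N : Subgroup Q} (hN : N.Normal)
    (hc : centralizer (N : Set Q) = ⊥) (h : ∀ φ : N ≃* N, ∃ k : N, ∀ x, φ x = k * x * k⁻¹) :
    N = ⊤ := by
  rw [eq_top_iff]
  intro g _
  obtain ⟨k, hk⟩ := h (MulAut.conjNormal g : MulAut N)
  have h1 : (k : Q)⁻¹ * g ∈ centralizer (N : Set Q) := by
    rw [Subgroup.mem_centralizer_iff]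
    intro x hx
    have h2 := congrArg Subtype.val (hk ⟨x, hx⟩)
    have h3 : g * x * g⁻¹ = (k : Q) * x * (k : Q)⁻¹ := by
      have h4 : ((MulAut.conjNormal g ⟨x, hx⟩ : N) : Q) = g * x * g⁻¹ := MulAut.conjNormal_apply g _
      rw [← h4]
      exact h2
    have h5 : g * x = (k : Q) * x * (k : Q)⁻¹ * g := mul_inv_eq_iff_eq_mul.1 h3
    calc x * ((k : Q)⁻¹ * g) = (k : Q)⁻¹ * ((k : Q) * x * (k : Q)⁻¹ * g) := by group
      _ = (k : Q)⁻¹ * (g * x) := by rw [h5]
      _ = (k : Q)⁻¹ * g * x := by group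
  rw [hc, Subgroup.mem_bot] at h1
  have h2 : g = k := by
    rw [inv_mul_eq_one] at h1
    exact h1.symm
  rw [h2]
  exact k.2

/-- The maximal subgroups of the socle when it is the whole group. -/
theorem coatoms_of_top {p : ℕ} [hp : Fact p.Prime] {Q : Type*} [Group Q] [Finite Q]
    {N : Subgroup Q} {r : ℕ} (R : Red p Q N r) (hN : N = ⊤) {Γ : Type*} [Group Γ]
    (e : N ≃* Γ) : ∀ M : Subgroup Γ, IsCoatom M → HasNormalPComplement p M ∨ M.index = r := by
  intro M hM
  have f : Q ≃* Γ := (Subgroup.topEquiv.symm.trans (MulEquiv.subgroupCongr hN.symm)).trans e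
  have h1 : IsCoatom (M.comap f.toMonoidHom) := by
    have h2 := (f.comapSubgroup.isCoatom_iff M).2 hM
    exact h2
  have h2 : ¬ N ≤ M.comap f.toMonoidHom := by
    intro h3
    rw [hN, top_le_iff] at h3
    exact h1.1 h3
  have h4 : (M.comap f.toMonoidHom).map f.toMonoidHom = M :=
    Subgroup.map_comap_eq_self_of_surjective f.surjective M
  rcases R.max _ h1 h2 with h3 | h3
  · left
    have h5 : (M.comap f.toMonoidHom) ≃* M := by
      have h6 := f.subgroupMap (M.comap f.toMonoidHom)
      exact h6.trans (MulEquiv.subgroupCongr h4)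
    exact (Cfsg.Agent.Transfer.NormalPComplement.congr h5).1 h3
  · right
    rw [← h3]
    exact (Subgroup.index_comap_of_surjective M f.surjective).symm

end Cfsg.Agent.H579.InnerRed
end
end
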